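import Cfsg.Agent.Lib.Coprime.SecQuot
import Cfsg.Agent.Lib.Char.Induced
import Cfsg.Agent.Lib.Char.IndRep
import Cfsg.Agent.Lib.Char.Linear
import Cfsg.Agent.Lib.Char.Extend
import Cfsg.Agent.Lib.Char.Eigen

/-!
# Symplectic-type 2-groups with a coprime action: basic facts

`Sym R K T z` is the setting of Dade's extension theorem for extraspecial 2-groups: `R` is a 2-group
with all commutators in `{1, z}`, `Z(R) = {1, z}`, a group `K` of odd order acts with
`C_R(K) = {1, z}`, a 2-group `T` complements `R` and normalizes `R` and `K`.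
-/

set_option autoImplicit false

namespace Cfsg.Agent.Lib.DadeE.Basic

open Subgroup Cfsg

universe u

variable {X : Type u} [Group X]

/-- The setting of the induction. -/
structure Sym (R K T : Subgroup X) (z : X) : Prop where
  pR : IsPGroup 2 R
  pT : IsPGroup 2 T
  oK : Odd (Nat.card K)
  sK : Group.IsSolvable K
  zR : z ∈ R
  z1 : z ≠ 1
  z2 : z * z = 1
  KR : K ≤ normalizer (R : Set X)
  TR : T ≤ normalizer (R : Set X)
  TK : T ≤ normalizer (K : Set X)
  disj : R ⊓ T = ⊥
  zK : ∀ k ∈ K, k * z = z * k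
  zT : ∀ t ∈ T, t * z = z * t
  comm : ∀ x ∈ R, ∀ y ∈ R, x * y = y * x ∨ x * y = z * (y * x)
  cen : ∀ x ∈ R, (∀ y ∈ R, x * y = y * x) → x = 1 ∨ x = z
  fix : ∀ x ∈ R, (∀ k ∈ K, k * x = x * k) → x = 1 ∨ x = z

/-- The symplectic part of the hypotheses. -/
structure SymR (R : Subgroup X) (z : X) : Prop where
  zR : z ∈ R
  z1 : z ≠ 1
  z2 : z * z = 1
  comm : ∀ x ∈ R, ∀ y ∈ R, x * y = y * x ∨ x * y = z * (y * x)
  cen : ∀ x ∈ R, (∀ y ∈ R, x * y = y * x) → x = 1 ∨ x = z

theorem Sym.symR {R K T : Subgroup X} {z : X} (h : Sym R K T z) : SymR R z :=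
  ⟨h.zR, h.z1, h.z2, h.comm, h.cen⟩

namespace SymR

variable {R : Subgroup X} {z : X}

theorem zc (h : SymR R z) {x : X} (hx : x ∈ R) : x * z = z * x := by
  rcases h.comm x hx z h.zR with h1 | h1
  · exact h1
  · exfalso
    apply h.z1
    have : x * z = z * z * x := by rw [h1, mul_assoc]
    rw [h.z2, one_mul] at this
    exact mul_eq_left.mp this

theorem zinv (h : SymR R z) : z⁻¹ = z := by
  rw [inv_eq_iff_mul_eq_one]; exact h.z2

/-- Sign of the pairing of `x, y`. -/
noncomputable def sgn (x y : X) : ℤ := by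
  classical exact if x * y = y * x then 1 else -1

theorem sgn_of_comm {x y : X} (h : x * y = y * x) : sgn x y = 1 := by
  simp [sgn, h]

theorem sgn_of_not {x y : X} (h : ¬ x * y = y * x) : sgn x y = -1 := by
  simp [sgn, h]

theorem sgn_symm (x y : X) : sgn x y = sgn y x := by
  by_cases h : x * y = y * x
  · rw [sgn_of_comm h, sgn_of_comm h.symm]
  · rw [sgn_of_not h, sgn_of_not (fun h' => h h'.symm)]

theorem sgn_mul (h : SymR R z) {x y y' : X} (hx : x ∈ R) (hy : y ∈ R) (hy' : y' ∈ R) :
    sgn x (y * y') = sgn x y * sgn x y' := by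
  have hzc := fun {w : X} (hw : w ∈ R) => h.zc hw
  have hne : ∀ w : X, ¬ (z * w = w) := fun w hw => h.z1 (mul_eq_right.mp hw)
  rcases h.comm x hx y hy with h1 | h1 <;> rcases h.comm x hx y' hy' with h2 | h2
  · have : x * (y * y') = y * y' * x := by
      rw [← mul_assoc, h1, mul_assoc, h2, mul_assoc]
    rw [sgn_of_comm this, sgn_of_comm h1, sgn_of_comm h2]; rfl
  · have e : x * (y * y') = z * (y * y' * x) := by
      rw [← mul_assoc, h1, mul_assoc, h2, ← mul_assoc y, hzc hy]; group
    have hn : ¬ x * (y * y') = y * y' * x := fun hc => hne (y * y' * x) (by rw [← e, hc])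
    have hn2 : ¬ x * y' = y' * x := fun hc => hne (y' * x) (by rw [← h2, hc])
    rw [sgn_of_not hn, sgn_of_comm h1, sgn_of_not hn2]; rfl
  · have e : x * (y * y') = z * (y * y' * x) := by
      rw [← mul_assoc, h1, mul_assoc z, mul_assoc y, h2]; group
    have hn : ¬ x * (y * y') = y * y' * x := fun hc => hne (y * y' * x) (by rw [← e, hc])
    have hn1 : ¬ x * y = y * x := fun hc => hne (y * x) (by rw [← h1, hc])
    rw [sgn_of_not hn, sgn_of_not hn1, sgn_of_comm h2]; rfl
  · have e : x * (y * y') = y * y' * x := by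
      calc x * (y * y') = (x * y) * y' := by group
        _ = z * (y * (x * y')) := by rw [h1]; group
        _ = z * (y * (z * (y' * x))) := by rw [h2]
        _ = z * ((y * z) * (y' * x)) := by group
        _ = z * ((z * y) * (y' * x)) := by rw [hzc hy]
        _ = (z * z) * (y * y' * x) := by group
        _ = y * y' * x := by rw [h.z2, one_mul]
    have hn1 : ¬ x * y = y * x := fun hc => hne (y * x) (by rw [← h1, hc])
    have hn2 : ¬ x * y' = y' * x := fun hc => hne (y' * x) (by rw [← h2, hc])
    rw [sgn_of_comm e, sgn_of_not hn1, sgn_of_not hn2]; rfl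

open Classical in
/-- Orthogonality in a pairing. -/
theorem sum_sgn (h : SymR R z) (A : Subgroup X) (hA : A ≤ R) [Fintype A] {a : X} (ha : a ∈ R) :
    (∑ b : A, sgn a b) = (if ∀ b ∈ A, a * b = b * a then (Nat.card A : ℤ) else 0) := by
  classical
  split_ifs with hc
  · rw [Nat.card_eq_fintype_card]
    have : ∀ b : A, sgn a b = 1 := fun b => sgn_of_comm (hc b b.2)
    simp [this]
  · push Not at hc
    obtain ⟨b₀, hb₀, hb⟩ := hc
    have h1 : (∑ b : A, sgn a b) = ∑ b : A, sgn a ((b * ⟨b₀, hb₀⟩ : A) : X) :=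
      (Equiv.sum_comp (Equiv.mulRight (⟨b₀, hb₀⟩ : A)) (fun b : A => sgn a (b : X))).symm
    have h2 : ∀ b : A, sgn a ((b * ⟨b₀, hb₀⟩ : A) : X) = - sgn a b := by
      intro b
      have := sgn_mul h ha (hA b.2) (hA hb₀) (x := a) (y := b) (y' := b₀)
      rw [Subgroup.coe_mul, this, sgn_of_not hb]
      simp
    rw [Finset.sum_congr rfl (fun b _ => h2 b), Finset.sum_neg_distrib] at h1
    linarith

/-- The double counting: `|S| |C_R(S)| = 2 |R|`. -/
theorem card_mul_card_perp [Finite X] (h : SymR R z) {S : Subgroup X} (hS : S ≤ R) (hzS : z ∈ S) :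
    Nat.card S * Nat.card (R ⊓ centralizer (S : Set X) : Subgroup X) = 2 * Nat.card R := by
  classical
  have := Fintype.ofFinite R
  have := Fintype.ofFinite S
  have key : (∑ x : R, ∑ y : S, sgn (x : X) (y : X)) = ∑ y : S, ∑ x : R, sgn (x : X) (y : X) :=
    Finset.sum_comm
  have hL : (∑ x : R, ∑ y : S, sgn (x : X) (y : X)) =
      (Nat.card S : ℤ) * Nat.card (R ⊓ centralizer (S : Set X) : Subgroup X) := by
    have h1 : ∀ x : R, (∑ y : S, sgn (x : X) (y : X)) =
        if (x : X) ∈ (R ⊓ centralizer (S : Set X) : Subgroup X) then (Nat.card S : ℤ) else 0 := by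
      intro x
      rw [sum_sgn h S hS x.2]
      by_cases hx : ∀ b ∈ S, (x : X) * b = b * x
      · rw [if_pos hx, if_pos]
        refine mem_inf.mpr ⟨x.2, ?_⟩
        rw [mem_centralizer_iff]
        intro b hb
        exact (hx b hb).symm
      · rw [if_neg hx, if_neg]
        intro hc
        apply hx
        intro b hb
        exact (mem_centralizer_iff.mp (mem_inf.mp hc).2 b hb).symm
    rw [Finset.sum_congr rfl (fun x _ => h1 x), Finset.sum_ite, Finset.sum_const_zero, add_zero,
      Finset.sum_const, nsmul_eq_mul, mul_comm]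
    congr 2
    rw [Nat.card_congr (Equiv.refl _)]
    have e : Nat.card (R ⊓ centralizer (S : Set X) : Subgroup X) =
        Nat.card {x : R // (x : X) ∈ (R ⊓ centralizer (S : Set X) : Subgroup X)} := by
      apply Nat.card_congr
      exact
        { toFun := fun x => ⟨⟨x, (mem_inf.mp x.2).1⟩, x.2⟩
          invFun := fun x => ⟨x.1, x.2⟩
          left_inv := fun x => rfl
          right_inv := fun x => rfl }
    rw [e, Nat.card_eq_fintype_card, Fintype.card_subtype]
  have hR : (∑ y : S, ∑ x : R, sgn (x : X) (y : X)) = 2 * (Nat.card R : ℤ) := by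
    have h1 : ∀ y : S, (∑ x : R, sgn (x : X) (y : X)) =
        if ((y : X) = 1 ∨ (y : X) = z) then (Nat.card R : ℤ) else 0 := by
      intro y
      have e1 : (∑ x : R, sgn (x : X) (y : X)) = ∑ x : R, sgn (y : X) (x : X) :=
        Finset.sum_congr rfl (fun x _ => sgn_symm _ _)
      rw [e1, sum_sgn h R le_rfl (hS y.2)]
      by_cases hy : ∀ b ∈ R, (y : X) * b = b * y
      · rw [if_pos hy, if_pos (h.cen _ (hS y.2) hy)]
      · rw [if_neg hy, if_neg]
        rintro (h1 | h1)
        · apply hy
          intro b _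
          rw [h1]; simp
        · apply hy
          intro b hb
          rw [h1]
          exact (h.zc hb).symm
    rw [Finset.sum_congr rfl (fun y _ => h1 y), Finset.sum_ite, Finset.sum_const_zero, add_zero,
      Finset.sum_const, nsmul_eq_mul]
    congr 1
    have : (Finset.univ.filter (fun y : S => (y : X) = 1 ∨ (y : X) = z)) =
        {(1 : S), (⟨z, hzS⟩ : S)} := by
      ext y
      simp only [Finset.mem_filter, Finset.mem_univ, true_and, Finset.mem_insert,
        Finset.mem_singleton]
      constructor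
      · rintro (h1 | h1)
        · left; exact Subtype.ext h1
        · right; exact Subtype.ext h1
      · rintro (h1 | h1)
        · left; rw [h1]; rfl
        · right; rw [h1]
    rw [this, Finset.card_pair]
    · rfl
    · intro hc
      apply h.z1
      exact (congrArg Subtype.val hc).symm
  rw [hL, hR] at key
  exact_mod_cast key

end SymR

end Cfsg.Agent.Lib.DadeE.Basic
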