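import Cfsg.Agent.Lib.DadeE.Kpart

/-!
# The case where the action of `K` on `R` has a `T`-invariant kernel of prime index
-/

set_option autoImplicit false

namespace Cfsg.Agent.Lib.DadeE.Case1

open Subgroup Cfsg
open Cfsg.Agent.Lib.DadeE.Basic Cfsg.Agent.Lib.DadeE.Chr Cfsg.Agent.Lib.DadeE.Tensor
open Cfsg.Agent.Lib.DadeE.Steps Cfsg.Agent.Lib.DadeE.Sect Cfsg.Agent.Lib.DadeE.Kpart
open Cfsg.Agent.Lib.Coprime.Action Cfsg.Agent.Lib.Coprime.Ext Cfsg.Agent.Lib.Coprime.Generation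
open scoped commutatorElement

universe u

variable {X : Type u} [Group X]

theorem normal_subgroupOf_of_commutator_le {K D : Subgroup X} (hDK : D ≤ K) (hcom : ⁅K, K⁆ ≤ D) :
    (D.subgroupOf K).Normal := by
  constructor
  intro n hn g
  rw [mem_subgroupOf] at hn ⊢
  have h1 : ⁅(g : X), (n : X)⁆ ∈ D := hcom (Subgroup.commutator_mem_commutator g.2 n.2)
  have e : ((g * n * g⁻¹ : K) : X) = ⁅(g : X), (n : X)⁆ * n := by
    simp [commutatorElement_def]
  rw [e]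
  exact D.mul_mem h1 hn

theorem le_normalizer_of_commutator_le {K D : Subgroup X} (hDK : D ≤ K) (hcom : ⁅K, K⁆ ≤ D) :
    K ≤ normalizer (D : Set X) := by
  rw [Subgroup.le_normalizer_iff]
  intro k hk n hn
  have h1 : ⁅k, n⁆ ∈ D := hcom (Subgroup.commutator_mem_commutator hk (hDK hn))
  have e : k * n * k⁻¹ = ⁅k, n⁆ * n := by
    simp [commutatorElement_def]
  rw [e]
  exact D.mul_mem h1 hn

theorem quot_comm {K D : Subgroup X} [(D.subgroupOf K).Normal] (hcom : ⁅K, K⁆ ≤ D) (a b : K ⧸ D.subgroupOf K) :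
    a * b = b * a := by
  obtain ⟨u, rfl⟩ := QuotientGroup.mk_surjective a
  obtain ⟨v, rfl⟩ := QuotientGroup.mk_surjective b
  rw [← QuotientGroup.mk_mul, ← QuotientGroup.mk_mul, QuotientGroup.eq]
  change (((u * v)⁻¹ * (v * u) : K) : X) ∈ D
  have e : (((u * v)⁻¹ * (v * u) : K) : X) = ⁅(v : X)⁻¹, (u : X)⁻¹⁆ := by
    simp [commutatorElement_def, mul_assoc]
  rw [e]
  exact hcom (Subgroup.commutator_mem_commutator (K.inv_mem v.2) (K.inv_mem u.2))

/-- `K / D` has prime exponent. -/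
theorem prime_exp [Finite X] {K D T : Subgroup X} (hDK : D ≤ K) (hcom : ⁅K, K⁆ ≤ D) (hne : D ≠ K)
    (hTK : T ≤ normalizer (K : Set X)) (hTD : T ≤ normalizer (D : Set X))
    (hmin : ∀ H : Subgroup X, D ≤ H → H ≤ K → T ≤ normalizer (H : Set X) → H ≠ K → H ≤ D) :
    ∃ r : ℕ, r.Prime ∧ ∀ k ∈ K, k ^ r ∈ D := by
  classical
  haveI hN := normal_subgroupOf_of_commutator_le hDK hcom
  have hKD := le_normalizer_of_commutator_le hDK hcom
  let Q := ↥K ⧸ D.subgroupOf K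
  letI : CommGroup Q := { (inferInstance : Group Q) with mul_comm := quot_comm hcom }
  have hmk1 : ∀ k : K, (QuotientGroup.mk k : Q) = 1 ↔ (k : X) ∈ D := by
    intro k
    rw [QuotientGroup.eq_one_iff, mem_subgroupOf]
  obtain ⟨k₀, hk₀K, hk₀D⟩ : ∃ k ∈ K, k ∉ D := by
    by_contra hc
    push Not at hc
    exact hne (le_antisymm hDK hc)
  have hnt : Nontrivial Q := ⟨⟨(QuotientGroup.mk ⟨k₀, hk₀K⟩ : Q), 1, fun h => hk₀D ((hmk1 _).mp h)⟩⟩
  have hcard1 : Nat.card Q ≠ 1 := by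
    have : 1 < Nat.card Q := Finite.one_lt_card
    omega
  obtain ⟨r, hr, hrd⟩ := Nat.exists_prime_and_dvd hcard1
  refine ⟨r, hr, ?_⟩
  have : Fact r.Prime := ⟨hr⟩
  let π : ↥K →* Q := QuotientGroup.mk' _
  let H : Subgroup X := (((powMonoidHom r : Q →* Q).range).comap π).map K.subtype
  have hHmem : ∀ k : K, (k : X) ∈ H ↔ ∃ l : K, (QuotientGroup.mk l : Q) ^ r = QuotientGroup.mk k := by
    intro k
    constructor
    · rintro ⟨k', hk', e⟩
      have e' : k' = k := Subtype.ext e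
      subst e'
      obtain ⟨q, hq⟩ := hk'
      obtain ⟨l, rfl⟩ := QuotientGroup.mk_surjective q
      exact ⟨l, hq⟩
    · rintro ⟨l, hl⟩
      exact ⟨k, ⟨QuotientGroup.mk l, hl⟩, rfl⟩
  have hHK : H ≤ K := by
    rintro _ ⟨k, -, rfl⟩
    exact k.2
  have hDH : D ≤ H := by
    intro d hd
    have h1 := (hHmem ⟨d, hDK hd⟩).mpr ⟨1, by
      rw [eq_comm]
      rw [show (QuotientGroup.mk (1 : K) : Q) = 1 from rfl, one_pow]
      exact (hmk1 _).mpr hd⟩
    exact h1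
  have hTH : T ≤ normalizer (H : Set X) := by
    rw [Subgroup.le_normalizer_iff]
    intro t ht x hx
    have hxK := hHK hx
    obtain ⟨l, hl⟩ := (hHmem ⟨x, hxK⟩).mp hx
    have hc : ∀ y ∈ K, t * y * t⁻¹ ∈ K := fun y hy => Subgroup.le_normalizer_iff.mp hTK t ht y hy
    have := (hHmem ⟨t * x * t⁻¹, hc x hxK⟩).mpr ⟨⟨t * l * t⁻¹, hc l l.2⟩, by
      rw [← QuotientGroup.mk_pow, QuotientGroup.eq]
      rw [← QuotientGroup.mk_pow, QuotientGroup.eq] at hl
      have hl' : ((l : X) ^ r)⁻¹ * x ∈ D := by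
        have := mem_subgroupOf.mp hl
        simpa using this
      have h3 := Subgroup.le_normalizer_iff.mp hTD t ht _ hl'
      have e : t * (((l : X) ^ r)⁻¹ * x) * t⁻¹ = ((t * l * t⁻¹) ^ r)⁻¹ * (t * x * t⁻¹) := by
        rw [conj_pow]
        group
      rw [e] at h3
      change (((⟨t * l * t⁻¹, hc l l.2⟩ : K) ^ r)⁻¹ * ⟨t * x * t⁻¹, hc x hxK⟩ : K).1 ∈ D
      simpa using h3⟩
    exact this
  have hHne : H ≠ K := by
    intro hHe
    have hsurj : Function.Surjective (powMonoidHom r : Q →* Q) := by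
      intro q
      obtain ⟨k, rfl⟩ := QuotientGroup.mk_surjective q
      have hk : (k : X) ∈ H := by rw [hHe]; exact k.2
      obtain ⟨l, hl⟩ := (hHmem k).mp hk
      exact ⟨QuotientGroup.mk l, hl⟩
    have hinj := Finite.injective_iff_surjective.mpr hsurj
    obtain ⟨g, hg⟩ := exists_prime_orderOf_dvd_card' r hrd
    have h1 : (powMonoidHom r : Q →* Q) g = (powMonoidHom r : Q →* Q) 1 := by
      simp only [powMonoidHom_apply, one_pow]
      rw [← hg]
      exact pow_orderOf_eq_one g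
    have h2 := hinj h1
    rw [h2, orderOf_one] at hg
    exact hr.one_lt.ne hg
  have hle := hmin H hDH hHK hTH hHne
  intro k hk
  apply hle
  have := (hHmem ⟨k ^ r, K.pow_mem hk r⟩).mpr ⟨⟨k, hk⟩, by
    rw [← QuotientGroup.mk_pow]
    rfl⟩
  exact this

/-- Squares lie in the centre. -/
theorem sq_mem {R : Subgroup X} {z m : X} (hs : SymR R z) (hm : m ∈ R) : m * m = 1 ∨ m * m = z := by
  apply hs.cen _ (R.mul_mem hm hm)
  intro y hy
  rcases hs.comm m hm y hy with h | h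
  · rw [mul_assoc, h, ← mul_assoc, h, mul_assoc]
  · calc m * m * y = m * (m * y) := by group
      _ = m * (z * (y * m)) := by rw [h]
      _ = (m * z) * (y * m) := by group
      _ = (z * m) * (y * m) := by rw [hs.zc hm]
      _ = z * ((m * y) * m) := by group
      _ = z * ((z * (y * m)) * m) := by rw [h]
      _ = (z * z) * (y * (m * m)) := by group
      _ = y * (m * m) := by rw [hs.z2, one_mul]

/-- An abelian section acting fixed point freely is cyclic. -/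
theorem cyc_fpf [Finite X] {R K T K₂ M : Subgroup X} {z : X} (hS : Sym R K T z) (hMR : M ≤ R)
    (hzM : z ∈ M) (hKM : K ≤ normalizer (M : Set X)) (hK₂K : K₂ ≤ K)
    (hK₂M : ∀ k ∈ K₂, ∀ x ∈ M, k * x = x * k) (hcom : ⁅K, K⁆ ≤ K₂)
    (hfpf : ∀ a ∈ K, a ∉ K₂ → ∀ x ∈ M, a * x = x * a → x = 1 ∨ x = z)
    (hne : ∃ x ∈ M, x ≠ 1 ∧ x ≠ z) [(K₂.subgroupOf K).Normal] :
    IsCyclic (↥K ⧸ K₂.subgroupOf K) := by
  classical
  by_contra hnc
  have hsr := hS.symR
  let Q := ↥K ⧸ K₂.subgroupOf K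
  letI : CommGroup Q := { (inferInstance : Group Q) with mul_comm := quot_comm hcom }
  obtain ⟨q, hq, x, y, hxq, hyq, hy1, hxy⟩ := exists_pair_of_not_isCyclic Q hnc
  have : Fact q.Prime := ⟨hq⟩
  have hqodd : Odd q := by
    have h1 : orderOf y = q := orderOf_eq_prime hyq hy1
    have h2 : q ∣ Nat.card Q := h1 ▸ orderOf_dvd_natCard y
    have h3 : Nat.card Q ∣ Nat.card K := Subgroup.card_quotient_dvd_card _
    exact Odd.of_dvd_nat hS.oK (h2.trans h3)
  obtain ⟨x₀, rfl⟩ := QuotientGroup.mk_surjective x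
  obtain ⟨y₀, rfl⟩ := QuotientGroup.mk_surjective y
  have hmk1 : ∀ k : K, (QuotientGroup.mk k : Q) = 1 ↔ (k : X) ∈ K₂ := by
    intro k
    rw [QuotientGroup.eq_one_iff, mem_subgroupOf]
  haveI hNz : ((zpowers z).subgroupOf M).Normal := normal_zpowers_subgroupOf hS.z2 (fun x hx => hsr.zc (hMR hx))
  let V := ↥M ⧸ ((zpowers z).subgroupOf M)
  have hKz := le_normalizer_zpowers hS.z2 hS.zK
  have hKinf : K ≤ (normalizer (M : Set X) ⊓ normalizer ((zpowers z : Subgroup X) : Set X)) :=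
    le_inf hKM hKz
  let ω : ↥K →* Monoid.End V := (modConj M (zpowers z)).comp (Subgroup.inclusion hKinf)
  have hωmk : ∀ (k : K) (m : M), ω k (QuotientGroup.mk m) =
      QuotientGroup.mk (⟨(k : X) * m * (k : X)⁻¹, Subgroup.le_normalizer_iff.mp hKM k k.2 m m.2⟩ : M) :=
    fun _ _ => rfl
  have hVmk1 : ∀ m : M, (QuotientGroup.mk m : V) = 1 ↔ (m : X) = 1 ∨ (m : X) = z := by
    intro m
    rw [QuotientGroup.eq_one_iff, mem_subgroupOf, mem_zpowers_z hS.z2]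
  have hVcomm : ∀ a b : V, a * b = b * a := by
    intro a b
    obtain ⟨u, rfl⟩ := QuotientGroup.mk_surjective a
    obtain ⟨v, rfl⟩ := QuotientGroup.mk_surjective b
    rw [← QuotientGroup.mk_mul, ← QuotientGroup.mk_mul, QuotientGroup.eq]
    change (((u * v)⁻¹ * (v * u) : M) : X) ∈ zpowers z
    rw [mem_zpowers_z hS.z2]
    simp only [Subgroup.coe_mul, Subgroup.coe_inv]
    rcases hS.comm _ (hMR u.2) _ (hMR v.2) with h | h
    · left
      rw [h]; group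
    · right
      rw [h]
      have hc := hsr.zc (R.mul_mem (hMR v.2) (hMR u.2))
      calc (z * ((v : X) * u))⁻¹ * (v * u) = ((v : X) * u)⁻¹ * z⁻¹ * (v * u) := by group
        _ = ((v : X) * u)⁻¹ * z * (v * u) := by rw [hsr.zinv]
        _ = ((v : X) * u)⁻¹ * (z * (v * u)) := by group
        _ = ((v : X) * u)⁻¹ * ((v * u) * z) := by rw [hc]
        _ = z := by group
  have hωK₂ : ∀ k : K, (k : X) ∈ K₂ → ω k = 1 := by
    intro k hk
    apply QuotientGroup.monoidHom_ext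
    ext m
    change (QuotientGroup.mk _ : V) = QuotientGroup.mk _
    congr 1
    apply Subtype.ext
    change (k : X) * m * (k : X)⁻¹ = m
    rw [hK₂M k hk m m.2]
    group
  have hfix : ∀ a : K, (a : X) ∉ K₂ → ∀ v : V, ω a v = v → v = 1 := by
    intro a ha v hv
    obtain ⟨m, rfl⟩ := QuotientGroup.mk_surjective v
    rw [hωmk, QuotientGroup.eq] at hv
    have h3 : ((⟨(a : X) * m * (a : X)⁻¹, Subgroup.le_normalizer_iff.mp hKM a a.2 m m.2⟩ : M)⁻¹ * m : M).1 ∈ zpowers z := hv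
    rw [mem_zpowers_z hS.z2] at h3
    simp only [Subgroup.coe_mul, Subgroup.coe_inv] at h3
    have hamem : (a : X) * m * (a : X)⁻¹ ∈ R := hMR (Subgroup.le_normalizer_iff.mp hKM a a.2 m m.2)
    have hc : (a : X) * m * (a : X)⁻¹ = m := by
      rcases h3 with h | h
      · exact (inv_mul_eq_one.mp h)
      · exfalso
        have h4 : (m : X) = ((a : X) * m * (a : X)⁻¹) * z := by
          rw [← h]; group
        rw [hsr.zc hamem] at h4
        have h5 : z * (m : X) = z * (z * ((a : X) * m * (a : X)⁻¹)) := by rw [← h4]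
        rw [← mul_assoc, hS.z2, one_mul] at h5
        have hn : ((a : X)) ^ Nat.card K = 1 := by
          have := pow_card_eq_one' (x := a)
          exact congrArg Subtype.val this
        exact oddfix hS.oK hn hS.z1 hS.z2 (hS.zK a a.2) h5.symm
    have hc' : (a : X) * m = m * a := by
      rwa [mul_inv_eq_iff_eq_mul] at hc
    exact (hVmk1 m).mpr (hfpf a a.2 ha m m.2 hc')
  have hX' : ω x₀ ^ q = 1 := by
    rw [← map_pow]
    apply hωK₂
    exact (hmk1 _).mp (by rw [QuotientGroup.mk_pow]; exact hxq)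
  have hY' : ω y₀ ^ q = 1 := by
    rw [← map_pow]
    apply hωK₂
    exact (hmk1 _).mp (by rw [QuotientGroup.mk_pow]; exact hyq)
  have hXY : Commute (ω x₀) (ω y₀) := by
    change ω x₀ * ω y₀ = ω y₀ * ω x₀
    rw [← map_mul, ← map_mul]
    have h1 : ω (x₀ * y₀ * (y₀ * x₀)⁻¹) = 1 := by
      apply hωK₂
      have e : ((x₀ * y₀ * (y₀ * x₀)⁻¹ : K) : X) = ⁅(x₀ : X), (y₀ : X)⁆ := by
        simp [commutatorElement_def, mul_assoc]
      rw [e]
      exact hcom (Subgroup.commutator_mem_commutator x₀.2 y₀.2)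
    have e' : x₀ * y₀ = (x₀ * y₀ * (y₀ * x₀)⁻¹) * (y₀ * x₀) := by group
    rw [e', map_mul, h1, one_mul]
  have hy₀ : (y₀ : X) ∉ K₂ := fun h => hy1 ((hmk1 _).mpr h)
  have hxy₀ : ∀ j : ℕ, ((x₀ * y₀ ^ j : K) : X) ∉ K₂ := by
    intro j h
    apply hxy j
    rw [← QuotientGroup.mk_pow, ← QuotientGroup.mk_mul]
    exact (hmk1 _).mpr h
  have hpow : ∀ v : V, v ^ q ∈ (⊥ : Subgroup V) := by
    intro v
    apply pow_mem_of_fixed_le hVcomm (ω x₀) (ω y₀) hX' hY' hXY ⊥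
    · intro v hv
      exact Subgroup.mem_bot.mpr (hfix y₀ hy₀ v hv)
    · intro j v hv
      rw [← map_pow, ← map_mul] at hv
      exact Subgroup.mem_bot.mpr (hfix _ (hxy₀ j.val) v hv)
  obtain ⟨m₀, hm₀, hm₀1, hm₀z⟩ := hne
  have hv1 : (QuotientGroup.mk (⟨m₀, hm₀⟩ : M) : V) = 1 := by
    set v : V := QuotientGroup.mk (⟨m₀, hm₀⟩ : M) with hv
    have h1 : v ^ q = 1 := Subgroup.mem_bot.mp (hpow v)
    have h2 : v ^ 2 = 1 := by
      rw [hv, ← QuotientGroup.mk_pow, sq]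
      apply (hVmk1 _).mpr
      exact sq_mem hsr (hMR hm₀)
    have h3 := pow_gcd_eq_one.mpr ⟨h1, h2⟩
    have hcop : Nat.gcd q 2 = 1 := Nat.Coprime.symm (Nat.coprime_two_left.mpr hqodd)
    rwa [hcop, pow_one] at h3
  rcases (hVmk1 _).mp hv1 with h | h
  · exact hm₀1 h
  · exact hm₀z h

/-- **Case 1.** -/
theorem case1 [Finite X] {R K T D : Subgroup X} {z : X} (hS : Sym R K T z) (hDK : D ≤ K)
    (hDR : ∀ d ∈ D, ∀ x ∈ R, d * x = x * d) (hTD : T ≤ normalizer (D : Set X)) (hcom : ⁅K, K⁆ ≤ D)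
    (hDne : D ≠ K)
    (hmin : ∀ H : Subgroup X, D ≤ H → H ≤ K → T ≤ normalizer (H : Set X) → H ≠ K → H ≤ D)
    (hfpf : ∀ a ∈ K, a ∉ D → ∀ x ∈ R, a * x = x * a → x = 1 ∨ x = z)
    (hne : ∃ x ∈ R, x ≠ 1 ∧ x ≠ z)
    (hirr : ∀ S : Subgroup X, S ≤ R → z ∈ S → K ≤ normalizer (S : Set X) →
      T ≤ normalizer (S : Set X) → S = R ∨ ∀ x ∈ S, x = 1 ∨ x = z) : Ext R T z := by
  classical
  have hsr := hS.symR
  haveI hN := normal_subgroupOf_of_commutator_le hDK hcom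
  let Q := ↥K ⧸ D.subgroupOf K
  have hcyc : IsCyclic Q := cyc_fpf hS le_rfl hS.zR hS.KR hDK hDR hcom hfpf hne
  obtain ⟨r, hr, hexp⟩ := prime_exp hDK hcom hDne hS.TK hTD hmin
  have hmk1 : ∀ k : K, (QuotientGroup.mk k : Q) = 1 ↔ (k : X) ∈ D := by
    intro k
    rw [QuotientGroup.eq_one_iff, mem_subgroupOf]
  obtain ⟨k₀, hk₀K, hk₀D⟩ : ∃ k ∈ K, k ∉ D := by
    by_contra hc
    push Not at hc
    exact hDne (le_antisymm hDK hc)
  have hcard : Nat.card Q = r := by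
    obtain ⟨g, hg⟩ := hcyc.exists_generator
    have hg1 : g ≠ 1 := by
      intro h
      have h1 := hg (QuotientGroup.mk (⟨k₀, hk₀K⟩ : K))
      rw [h, Subgroup.zpowers_one_eq_bot, Subgroup.mem_bot] at h1
      exact hk₀D ((hmk1 _).mp h1)
    have hgr : g ^ r = 1 := by
      obtain ⟨k, rfl⟩ := QuotientGroup.mk_surjective g
      rw [← QuotientGroup.mk_pow]
      exact (hmk1 _).mpr (hexp k k.2)
    have : Fact r.Prime := ⟨hr⟩
    have h2 := orderOf_eq_prime hgr hg1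
    rw [← h2]
    exact (orderOf_eq_card_of_forall_mem_zpowers hg).symm
  have hT : T ≤ (normalizer (K : Set X) ⊓ normalizer (D : Set X)) := le_inf hS.TK hTD
  let ϕ₀ : ↥T →* Monoid.End Q := (modConj K D).comp (Subgroup.inclusion hT)
  have hϕ₀mk : ∀ (t : T) (k : K), ϕ₀ t (QuotientGroup.mk k) =
      QuotientGroup.mk (⟨(t : X) * k * (t : X)⁻¹, Subgroup.le_normalizer_iff.mp hS.TK t t.2 k k.2⟩ : K) :=
    fun _ _ => rfl
  obtain ⟨ϕ, hϕmk⟩ : ∃ ϕ : ↥T →* MulAut Q, ∀ (t : T) (v : Q), ϕ t v = ϕ₀ t v :=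
    ⟨{ toFun := fun t => MonoidHom.toMulEquiv (ϕ₀ t) (ϕ₀ t⁻¹)
        (by
          have h : ϕ₀ t⁻¹ * ϕ₀ t = 1 := by rw [← map_mul, inv_mul_cancel, map_one]
          exact h)
        (by
          have h : ϕ₀ t * ϕ₀ t⁻¹ = 1 := by rw [← map_mul, mul_inv_cancel, map_one]
          exact h)
       map_one' := by
        ext v
        change ϕ₀ 1 v = v
        rw [map_one]
        rfl
       map_mul' := fun a b => by
        ext v
        change ϕ₀ (a * b) v = ϕ₀ a (ϕ₀ b v)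
        rw [map_mul]
        rfl }, fun _ _ => rfl⟩
  have hfact : Fact (Nat.card Q).Prime := ⟨hcard ▸ hr⟩
  have hcycA : IsCyclic (MulAut Q) :=
    isCyclic_of_injective (IsCyclic.mulAutMulEquiv Q).toMonoidHom (IsCyclic.mulAutMulEquiv Q).injective
  obtain ⟨⟨g, c, hc⟩, hgen⟩ := IsCyclic.exists_generator (α := ϕ.range)
  have hcyc' : ∀ t : T, ∃ i : ℤ, ϕ (c ^ i * t) = 1 := by
    intro t
    obtain ⟨i, hi⟩ := Subgroup.mem_zpowers_iff.mp (hgen ⟨ϕ t, t, rfl⟩)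
    refine ⟨-i, ?_⟩
    have h1 : (g ^ i : MulAut Q) = ϕ t := congrArg Subtype.val hi
    rw [map_mul, map_zpow, hc, zpow_neg, ← h1, inv_mul_cancel]
  set Tp : Subgroup X := (ϕ.ker).map T.subtype with hTpdef
  have hTp : Tp ≤ T := by
    rintro _ ⟨s, -, rfl⟩
    exact s.2
  have hTTp : T ≤ normalizer (Tp : Set X) := by
    rw [Subgroup.le_normalizer_iff]
    rintro t ht _ ⟨s, hs, rfl⟩
    refine ⟨⟨t, ht⟩ * s * ⟨t, ht⟩⁻¹, ?_, rfl⟩
    exact (MonoidHom.normal_ker ϕ).conj_mem s hs ⟨t, ht⟩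
  have hDnK := le_normalizer_of_commutator_le hDK hcom
  have hTpD : ∀ t ∈ Tp, ∀ k ∈ K, t * k * t⁻¹ * k⁻¹ ∈ D := by
    rintro _ ⟨s, hs, rfl⟩ k hk
    have h1 : ϕ s = 1 := MonoidHom.mem_ker.mp hs
    have h2 := DFunLike.congr_fun h1 (QuotientGroup.mk (⟨k, hk⟩ : K))
    rw [hϕmk, hϕ₀mk] at h2
    have h3 : (QuotientGroup.mk (⟨(s : X) * k * (s : X)⁻¹, Subgroup.le_normalizer_iff.mp hS.TK s s.2 k hk⟩ : K) : Q) =
        QuotientGroup.mk (⟨k, hk⟩ : K) := h2
    rw [QuotientGroup.eq] at h3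
    have h4 : ((s : X) * k * (s : X)⁻¹)⁻¹ * k ∈ D := by
      have := mem_subgroupOf.mp h3
      simpa using this
    have h5 := Subgroup.le_normalizer_iff.mp hDnK k hk _ (D.inv_mem h4)
    have e : k * (((s : X) * k * (s : X)⁻¹)⁻¹ * k)⁻¹ * k⁻¹ = (s : X) * k * (s : X)⁻¹ * k⁻¹ := by group
    rw [e] at h5
    exact h5
  have hcent : ∀ t ∈ Tp, ∀ x ∈ R, t * x = x * t := fun t ht x hx =>
    tplus_centralizes hS hTp hTTp hTpD hDR hirr hne ht hx
  have hTT' : T ≤ normalizer ((T ⊓ centralizer (R : Set X) : Subgroup X) : Set X) := by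
    rw [Subgroup.le_normalizer_iff]
    intro t ht x hx
    obtain ⟨h1, h2⟩ := mem_inf.mp hx
    exact mem_inf.mpr ⟨T.mul_mem (T.mul_mem ht h1) (T.inv_mem ht),
      Subgroup.le_normalizer_iff.mp (le_normalizer_centralizer hS.TR) t ht x h2⟩
  refine ext_central hsr (T' := T ⊓ centralizer (R : Set X)) inf_le_left hS.TR hTT' hS.disj hS.zT c.2 ?_ ?_
  · intro t ht
    obtain ⟨i, hi⟩ := hcyc' ⟨t, ht⟩
    refine ⟨i, ?_⟩
    have h1 : (c : X) ^ i * t ∈ Tp := ⟨c ^ i * ⟨t, ht⟩, MonoidHom.mem_ker.mpr hi, by simp⟩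
    refine mem_inf.mpr ⟨hTp h1, ?_⟩
    rw [mem_centralizer_iff]
    intro x hx
    exact (hcent _ h1 x hx).symm
  · intro τ hτ x hx
    exact (mem_centralizer_iff.mp (mem_inf.mp hτ).2 x hx).symm

end Cfsg.Agent.Lib.DadeE.Case1
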