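import Cfsg.Agent.Lib.DadeE.Case1
import Cfsg.Agent.Lib.Coprime.Generation2

/-!
# The imprimitive case
-/

set_option autoImplicit false

namespace Cfsg.Agent.Lib.DadeE.Case2

open Subgroup Cfsg
open Cfsg.Agent.Lib.DadeE.Basic Cfsg.Agent.Lib.DadeE.Chr Cfsg.Agent.Lib.DadeE.Tensor
open Cfsg.Agent.Lib.DadeE.Steps Cfsg.Agent.Lib.DadeE.Sect Cfsg.Agent.Lib.DadeE.Kpart
open Cfsg.Agent.Lib.Coprime.Action Cfsg.Agent.Lib.Coprime.Ext Cfsg.Agent.Lib.Coprime.Generation
open Cfsg.Agent.Lib.Coprime.Generation2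
open scoped commutatorElement

universe u

variable {X : Type u} [Group X]

/-- A proper subgroup of a finite 2-group lies in a normal subgroup of index two. -/
theorem exists_index_two [Finite X] {T T₁ : Subgroup X} (hT : IsPGroup 2 T) (hT₁ : T₁ ≤ T) (hne : T₁ ≠ T) :
    ∃ T' : Subgroup X, ∃ t₀ ∈ T, T₁ ≤ T' ∧ T' ≤ T ∧ T ≤ normalizer (T' : Set X) ∧ t₀ ∉ T' ∧
      t₀ * t₀ ∈ T' ∧ ∀ t ∈ T, t ∈ T' ∨ t₀⁻¹ * t ∈ T' := by
  classical
  have hne' : T₁.subgroupOf T ≠ ⊤ := by
    intro h
    apply hne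
    exact le_antisymm hT₁ (Subgroup.subgroupOf_eq_top.mp h)
  obtain ⟨M, hM, hle⟩ := (eq_top_or_exists_le_coatom (T₁.subgroupOf T)).resolve_left hne'
  have hMn : M.Normal := Cfsg.Agent.Lib.PGroups.Basic.normal_of_isCoatom hT hM
  have hMi : M.index = 2 := Cfsg.Agent.Lib.PGroups.Basic.index_eq_of_isCoatom hT hM
  obtain ⟨t₀, ht₀⟩ : ∃ t₀ : T, t₀ ∉ M := by
    by_contra hc
    push Not at hc
    apply hM.1
    exact (eq_top_iff.mpr fun x _ => hc x)
  have hM' : ∀ x : T, (x : X) ∈ M.map T.subtype ↔ x ∈ M := by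
    intro x
    constructor
    · rintro ⟨y, hy, e⟩
      have : y = x := Subtype.ext e
      rwa [← this]
    · intro h
      exact ⟨x, h, rfl⟩
  have hMT : M.map T.subtype ≤ T := by
    rintro _ ⟨y, -, rfl⟩
    exact y.2
  refine ⟨M.map T.subtype, t₀, t₀.2, ?_, hMT, ?_, ?_, ?_, ?_⟩
  · intro x hx
    have : (⟨x, hT₁ hx⟩ : T) ∈ T₁.subgroupOf T := mem_subgroupOf.mpr hx
    exact (hM' _).mpr (hle this)
  · rw [Subgroup.le_normalizer_iff]
    intro t ht x hx
    have hxT := hMT hx
    have h1 := (hM' ⟨x, hxT⟩).mp hx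
    exact (hM' ⟨t * x * t⁻¹, T.mul_mem (T.mul_mem ht hxT) (T.inv_mem ht)⟩).mpr
      (hMn.conj_mem _ h1 ⟨t, ht⟩)
  · intro h
    exact ht₀ ((hM' t₀).mp h)
  · have h1 := Subgroup.mul_self_mem_of_index_two hMi t₀
    exact (hM' (t₀ * t₀)).mpr h1
  · intro t ht
    by_cases h : (⟨t, ht⟩ : T) ∈ M
    · left
      exact (hM' _).mpr h
    · right
      have h1 : t₀⁻¹ * ⟨t, ht⟩ ∈ M := by
        rw [Subgroup.mul_mem_iff_of_index_two hMi]
        simp only [inv_mem_iff]
        constructor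
        · intro h2; exact absurd h2 ht₀
        · intro h2; exact absurd h2 h
      exact (hM' (t₀⁻¹ * ⟨t, ht⟩)).mpr h1

theorem mem_normalizer_of_conj_le [Finite X] {H : Subgroup X} {s : X}
    (h : ∀ x ∈ H, s * x * s⁻¹ ∈ H) : s ∈ normalizer (H : Set X) := by
  have hmap : H.map (MulAut.conj s).toMonoidHom ≤ H := by
    rintro _ ⟨x, hx, rfl⟩
    exact h x hx
  have hcard : Nat.card (H.map (MulAut.conj s).toMonoidHom) = Nat.card H :=
    Nat.card_congr (H.equivMapOfInjective _ (MulAut.conj s).injective).toEquiv.symm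
  have he := Subgroup.eq_of_le_of_card_ge hmap hcard.ge
  rw [Subgroup.mem_normalizer_iff]
  intro x
  constructor
  · exact h x
  · intro hx
    rw [← he] at hx
    obtain ⟨y, hy, e⟩ := hx
    have e' : s * y * s⁻¹ = s * x * s⁻¹ := e
    have : y = x := by
      have e2 := mul_right_cancel e'
      exact mul_left_cancel e2
    rwa [← this]

/-- **Case 2.** -/
theorem case2 [Finite X] {R K T K₂ : Subgroup X} {z : X} (hS : Sym R K T z) (hK₂K : K₂ ≤ K)
    (hKK₂ : K ≤ normalizer (K₂ : Set X))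
    (hmax : ∀ H : Subgroup X, K₂ ≤ H → H ≤ K → H ≠ K₂ → ∀ x ∈ R ⊓ centralizer (H : Set X), x = 1 ∨ x = z)
    (hne₂ : ∃ x ∈ R ⊓ centralizer (K₂ : Set X), x ≠ 1 ∧ x ≠ z) (hnT : ¬ T ≤ normalizer (K₂ : Set X))
    (hne : ∃ x ∈ R, x ≠ 1 ∧ x ≠ z)
    (hirr : ∀ S : Subgroup X, S ≤ R → z ∈ S → K ≤ normalizer (S : Set X) →
      T ≤ normalizer (S : Set X) → S = R ∨ ∀ x ∈ S, x = 1 ∨ x = z)
    (IH : ∀ (R' T' : Subgroup X), Sym R' K T' z → Nat.card R' < Nat.card R → Ext R' T' z) :
    Ext R T z := by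
  classical
  have hsr := hS.symR
  set M : Subgroup X := R ⊓ centralizer (K₂ : Set X) with hM
  have hMR : M ≤ R := inf_le_left
  have hKM : K ≤ normalizer (M : Set X) := by
    rw [Subgroup.le_normalizer_iff]
    intro a ha r hr
    obtain ⟨h1, h2⟩ := mem_inf.mp hr
    exact mem_inf.mpr ⟨Subgroup.le_normalizer_iff.mp hS.KR a ha r h1,
      Subgroup.le_normalizer_iff.mp (le_normalizer_centralizer hKK₂) a ha r h2⟩
  have hzM : z ∈ M := by
    refine mem_inf.mpr ⟨hS.zR, ?_⟩
    rw [mem_centralizer_iff]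
    intro k hk
    exact hS.zK k (hK₂K hk)
  have hcR := fun s (hs : s ∈ T) (y : X) (hy : y ∈ R) => Subgroup.le_normalizer_iff.mp hS.TR s hs y hy
  have hcK := fun s (hs : s ∈ T) (y : X) (hy : y ∈ K) => Subgroup.le_normalizer_iff.mp hS.TK s hs y hy
  have hcKi : ∀ s ∈ T, ∀ y ∈ K, s⁻¹ * y * s ∈ K := by
    intro s hs y hy
    have := hcK s⁻¹ (T.inv_mem hs) y hy
    simpa using this
  have hcRi : ∀ s ∈ T, ∀ y ∈ R, s⁻¹ * y * s ∈ R := by
    intro s hs y hy
    have := hcR s⁻¹ (T.inv_mem hs) y hy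
    simpa using this
  -- conjugates of `M` commute
  have hF1 : ∀ s ∈ T, s ∉ normalizer (K₂ : Set X) → ∀ x ∈ M, ∀ y ∈ M,
      x * (s * y * s⁻¹) = (s * y * s⁻¹) * x := by
    intro s hs hsn x hx y hy
    set Y : Subgroup X := M.map (MulAut.conj s).toMonoidHom with hY
    have hYmem : ∀ m ∈ M, s * m * s⁻¹ ∈ Y := fun m hm => ⟨m, hm, rfl⟩
    have hYR : Y ≤ R := by
      rintro _ ⟨m, hm, rfl⟩
      exact hcR s hs m (hMR hm)
    have hK₂Y : K₂ ≤ normalizer (Y : Set X) := by
      rw [Subgroup.le_normalizer_iff]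
      rintro h hh _ ⟨m, hm, rfl⟩
      have h1 : s⁻¹ * h * s ∈ K := hcKi s hs h (hK₂K hh)
      have h2 := Subgroup.le_normalizer_iff.mp hKM _ h1 m hm
      have h3 := hYmem _ h2
      have e : s * (s⁻¹ * h * s * m * (s⁻¹ * h * s)⁻¹) * s⁻¹ = h * (s * m * s⁻¹) * h⁻¹ := by group
      rw [e] at h3
      exact h3
    have hxc : ∀ h ∈ K₂, h * x = x * h := fun h hh => by
      exact mem_centralizer_iff.mp (mem_inf.mp hx).2 h hh
    have hcopY : (Nat.card K₂).Coprime (Nat.card Y) :=
      Nat.Coprime.coprime_dvd_left (Subgroup.card_dvd_of_le hK₂K)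
        (coprime_of_odd hS.oK (hS.pR.to_le hYR))
    have hsolvY : Group.IsSolvable K₂ ∨ Group.IsSolvable Y := by
      right
      have : Fact (Nat.Prime 2) := ⟨Nat.prime_two⟩
      have := (hS.pR.to_le hYR).isNilpotent
      infer_instance
    have hkill := kill hsr hYR hK₂Y hcopY hsolvY (fun h hh => hS.zK h (hK₂K hh)) (w := x)
      (fun y hy => by
        rcases hS.comm x (hMR hx) y (hYR hy) with h | h
        · left; rw [h]; group
        · right; rw [h]
          have := hsr.zc (hYR hy)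
          group)
      (fun h hh y hy => by
        have h1 := hxc h hh
        calc x * (h * y * h⁻¹) * x⁻¹ = (x * h) * y * (x * h)⁻¹ := by group
          _ = (h * x) * y * (h * x)⁻¹ := by rw [h1]
          _ = _ := by group)
      (fun y hy hfy => by
        -- `y` is fixed by `K₂` and by its conjugate
        obtain ⟨m, hm, rfl⟩ := hy
        set H : Subgroup X := K₂ ⊔ K₂.map (MulAut.conj s).toMonoidHom with hH
        have hHK : H ≤ K := by
          apply sup_le hK₂K
          rintro _ ⟨h, hh, rfl⟩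
          exact hcK s hs h (hK₂K hh)
        have hHne : H ≠ K₂ := by
          intro he
          apply hsn
          apply mem_normalizer_of_conj_le
          intro h hh
          rw [← he]
          exact Subgroup.mem_sup_right ⟨h, hh, rfl⟩
        have hy1 : (MulAut.conj s).toMonoidHom m ∈ R ⊓ centralizer (H : Set X) := by
          refine mem_inf.mpr ⟨hYR (hYmem m hm), ?_⟩
          have hle : H ≤ centralizer ({(MulAut.conj s).toMonoidHom m} : Set X) := by
            apply sup_le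
            · intro h hh
              rw [mem_centralizer_iff]
              intro b hb
              rw [Set.mem_singleton_iff.mp hb]
              exact (hfy h hh).symm
            · rintro _ ⟨h, hh, rfl⟩
              rw [mem_centralizer_iff]
              intro b hb
              rw [Set.mem_singleton_iff.mp hb]
              have h1 := mem_centralizer_iff.mp (mem_inf.mp hm).2 h hh
              simp only [MulEquiv.coe_toMonoidHom, MulAut.conj_apply]
              calc s * m * s⁻¹ * (s * h * s⁻¹) = s * (m * h) * s⁻¹ := by group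
                _ = s * (h * m) * s⁻¹ := by rw [← h1]
                _ = _ := by group
          rw [mem_centralizer_iff]
          intro h hh
          exact (mem_centralizer_iff.mp (hle hh) _ rfl).symm
        rcases hmax H le_sup_left hHK hHne _ hy1 with h | h
        · rw [h]; group
        · rw [h, hsr.zc (hMR hx)]
          group)
      (hYmem y hy)
    rw [mul_inv_eq_iff_eq_mul] at hkill
    exact hkill
  -- the index two subgroup
  have hT₁ne : T ⊓ normalizer (K₂ : Set X) ≠ T := by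
    intro h
    apply hnT
    exact inf_eq_left.mp h
  obtain ⟨T', t₀, ht₀, hT₁T', hT'T, hTT', ht₀T', ht2, hcov⟩ := exists_index_two hS.pT inf_le_left hT₁ne
  -- the conjugates of `M` under `T'`
  let Mt : X → Subgroup X := fun s => M.map (MulAut.conj s).toMonoidHom
  have hMtmem : ∀ s, ∀ m ∈ M, s * m * s⁻¹ ∈ Mt s := fun s m hm => ⟨m, hm, rfl⟩
  set W : Subgroup X := ⨆ t ∈ (T' : Set X), Mt t with hW
  have hMtW : ∀ t ∈ T', Mt t ≤ W := fun t ht => le_iSup₂_of_le t ht le_rfl
  have hWR : W ≤ R := by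
    apply iSup₂_le
    rintro t ht _ ⟨m, hm, rfl⟩
    exact hcR t (hT'T ht) m (hMR hm)
  have hMW : M ≤ W := by
    intro m hm
    have := hMtW 1 T'.one_mem (hMtmem 1 m hm)
    simpa using this
  have hzW : z ∈ W := hMW hzM
  have hKMt : ∀ s ∈ T, K ≤ normalizer ((Mt s : Subgroup X) : Set X) := by
    intro s hs
    rw [Subgroup.le_normalizer_iff]
    rintro k hk _ ⟨m, hm, rfl⟩
    have h1 := hcKi s hs k hk
    have h2 := Subgroup.le_normalizer_iff.mp hKM _ h1 m hm
    have h3 := hMtmem s _ h2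
    have e : s * (s⁻¹ * k * s * m * (s⁻¹ * k * s)⁻¹) * s⁻¹ = k * (s * m * s⁻¹) * k⁻¹ := by group
    rw [e] at h3
    exact h3
  have hKW : K ≤ normalizer (W : Set X) :=
    le_normalizer_biSup K (T' : Set X) Mt (fun t ht => hKMt t (hT'T ht))
  have hT'W : T' ≤ normalizer (W : Set X) := by
    rw [Subgroup.le_normalizer_iff]
    intro τ hτ w hw
    have : W ≤ W.comap (MulAut.conj τ).toMonoidHom := by
      apply iSup₂_le
      rintro t ht _ ⟨m, hm, rfl⟩
      have h1 := hMtW (τ * t) (T'.mul_mem hτ ht) (hMtmem (τ * t) m hm)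
      have e : τ * t * m * (τ * t)⁻¹ = τ * (t * m * t⁻¹) * τ⁻¹ := by group
      rw [e] at h1
      exact h1
    exact this hw
  set R₂ : Subgroup X := W.map (MulAut.conj t₀).toMonoidHom with hR₂
  have hR₂mem : ∀ w ∈ W, t₀ * w * t₀⁻¹ ∈ R₂ := fun w hw => ⟨w, hw, rfl⟩
  have hR₂R : R₂ ≤ R := by
    rintro _ ⟨w, hw, rfl⟩
    exact hcR t₀ ht₀ w (hWR hw)
  have hcomm : ∀ x ∈ W, ∀ y ∈ R₂, x * y = y * x := by
    have hstep : ∀ t ∈ T', ∀ m ∈ M, ∀ t' ∈ T', ∀ m' ∈ M,
        (t * m * t⁻¹) * (t₀ * (t' * m' * t'⁻¹) * t₀⁻¹) = (t₀ * (t' * m' * t'⁻¹) * t₀⁻¹) * (t * m * t⁻¹) := by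
      intro t ht m hm t' ht' m' hm'
      set s := t⁻¹ * t₀ * t' with hs
      have hsT : s ∈ T := T.mul_mem (T.mul_mem (T.inv_mem (hT'T ht)) ht₀) (hT'T ht')
      have hsn : s ∉ normalizer (K₂ : Set X) := by
        intro h
        have h1 : s ∈ T' := hT₁T' (mem_inf.mpr ⟨hsT, h⟩)
        apply ht₀T'
        have e : t₀ = t * s * t'⁻¹ := by rw [hs]; group
        rw [e]
        exact T'.mul_mem (T'.mul_mem ht h1) (T'.inv_mem ht')
      have h := hF1 s hsT hsn m hm m' hm'
      have e1 : (t * m * t⁻¹) * (t₀ * (t' * m' * t'⁻¹) * t₀⁻¹) = t * (m * (s * m' * s⁻¹)) * t⁻¹ := by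
        rw [hs]; group
      have e2 : (t₀ * (t' * m' * t'⁻¹) * t₀⁻¹) * (t * m * t⁻¹) = t * ((s * m' * s⁻¹) * m) * t⁻¹ := by
        rw [hs]; group
      rw [e1, e2, h]
    have hstep2 : ∀ t ∈ T', ∀ m ∈ M, ∀ w ∈ W,
        (t * m * t⁻¹) * (t₀ * w * t₀⁻¹) = (t₀ * w * t₀⁻¹) * (t * m * t⁻¹) := by
      intro t ht m hm w hw
      have hle : W ≤ (centralizer ({t * m * t⁻¹} : Set X)).comap (MulAut.conj t₀).toMonoidHom := by
        apply iSup₂_le
        rintro t' ht' _ ⟨m', hm', rfl⟩
        simp only [Subgroup.mem_comap]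
        rw [mem_centralizer_iff]
        intro b hb
        rw [Set.mem_singleton_iff.mp hb]
        exact hstep t ht m hm t' ht' m' hm'
      have h1 := hle hw
      simp only [Subgroup.mem_comap] at h1
      rw [mem_centralizer_iff] at h1
      exact h1 _ rfl
    intro x hx y hy
    obtain ⟨w, hw, rfl⟩ := hy
    have hle : W ≤ centralizer ({t₀ * w * t₀⁻¹} : Set X) := by
      apply iSup₂_le
      rintro t ht _ ⟨m, hm, rfl⟩
      rw [mem_centralizer_iff]
      intro b hb
      rw [Set.mem_singleton_iff.mp hb]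
      exact (hstep2 t ht m hm w hw).symm
    exact (mem_centralizer_iff.mp (hle hx) _ rfl).symm
  -- the product is invariant
  have hconjT' : ∀ τ ∈ T', t₀⁻¹ * τ * t₀ ∈ T' := by
    intro τ hτ
    have := Subgroup.le_normalizer_iff.mp hTT' t₀⁻¹ (T.inv_mem ht₀) τ hτ
    simpa using this
  have hR₂T' : ∀ τ ∈ T', ∀ y ∈ R₂, τ * y * τ⁻¹ ∈ R₂ := by
    rintro τ hτ _ ⟨w, hw, rfl⟩
    have h1 := Subgroup.le_normalizer_iff.mp hT'W _ (hconjT' τ hτ) w hw
    have h2 := hR₂mem _ h1
    have e : t₀ * (t₀⁻¹ * τ * t₀ * w * (t₀⁻¹ * τ * t₀)⁻¹) * t₀⁻¹ = τ * (t₀ * w * t₀⁻¹) * τ⁻¹ := by group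
    rw [e] at h2
    exact h2
  set S : Subgroup X := W ⊔ R₂ with hS'
  have hSR : S ≤ R := sup_le hWR hR₂R
  have hzS : z ∈ S := Subgroup.mem_sup_left hzW
  have hKS : K ≤ normalizer (S : Set X) := by
    apply le_normalizer_sup' hKW
    rw [Subgroup.le_normalizer_iff]
    rintro k hk _ ⟨w, hw, rfl⟩
    have h1 := hcKi t₀ ht₀ k hk
    have h2 := Subgroup.le_normalizer_iff.mp hKW _ h1 w hw
    have h3 := hR₂mem _ h2
    have e : t₀ * (t₀⁻¹ * k * t₀ * w * (t₀⁻¹ * k * t₀)⁻¹) * t₀⁻¹ = k * (t₀ * w * t₀⁻¹) * k⁻¹ := by group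
    rw [e] at h3
    exact h3
  have hTS : T ≤ normalizer (S : Set X) := by
    rw [Subgroup.le_normalizer_iff]
    intro t ht y hy
    have hle : S ≤ S.comap (MulAut.conj t).toMonoidHom := by
      rcases hcov t ht with h | h
      · apply sup_le
        · intro w hw
          exact Subgroup.mem_sup_left (Subgroup.le_normalizer_iff.mp hT'W t h w hw)
        · intro w hw
          exact Subgroup.mem_sup_right (hR₂T' t h w hw)
      · set τ := t₀⁻¹ * t with hτ
        have ht' : t = t₀ * τ := by rw [hτ]; group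
        apply sup_le
        · intro w hw
          apply Subgroup.mem_sup_right
          have h1 := Subgroup.le_normalizer_iff.mp hT'W τ h w hw
          have h2 := hR₂mem _ h1
          have e : t₀ * (τ * w * τ⁻¹) * t₀⁻¹ = t * w * t⁻¹ := by rw [ht']; group
          rw [e] at h2
          exact h2
        · rintro _ ⟨w, hw, rfl⟩
          apply Subgroup.mem_sup_left
          have h3 : t₀ * τ * t₀⁻¹ ∈ T' := Subgroup.le_normalizer_iff.mp hTT' t₀ ht₀ τ h
          have h4 : t₀ * τ * t₀ ∈ T' := by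
            have e : t₀ * τ * t₀ = (t₀ * τ * t₀⁻¹) * (t₀ * t₀) := by group
            rw [e]
            exact T'.mul_mem h3 ht2
          have h5 := Subgroup.le_normalizer_iff.mp hT'W _ h4 w hw
          have e : t₀ * τ * t₀ * w * (t₀ * τ * t₀)⁻¹ = t * (t₀ * w * t₀⁻¹) * t⁻¹ := by rw [ht']; group
          rw [e] at h5
          exact h5
    exact hle hy
  have hSeq : S = R := by
    rcases hirr S hSR hzS hKS hTS with h | h
    · exact h
    · exfalso
      obtain ⟨x, hx, hx1, hxz⟩ := hne₂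
      rcases h x (Subgroup.mem_sup_left (hMW hx)) with h' | h'
      · exact hx1 h'
      · exact hxz h'
  have hint : ∀ x ∈ W, x ∈ R₂ → x = 1 ∨ x = z := by
    intro x hx hx₂
    refine hS.cen x (hWR hx) (fun y hy => ?_)
    rw [← hSeq] at hy
    have hle : S ≤ centralizer ({x} : Set X) := by
      apply sup_le
      · intro a ha
        rw [mem_centralizer_iff]
        intro b hb
        rw [Set.mem_singleton_iff.mp hb]
        exact (hcomm a ha x hx₂).symm
      · intro a ha
        rw [mem_centralizer_iff]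
        intro b hb
        rw [Set.mem_singleton_iff.mp hb]
        exact hcomm x hx a ha
    exact mem_centralizer_iff.mp (hle hy) x rfl
  -- `W` is a proper subgroup
  have hWne : W ≠ R := by
    intro he
    obtain ⟨x, hx, hx1, hxz⟩ := hne
    have hc : ∀ y ∈ R, x * y = y * x := by
      intro y hy
      have hy' : t₀⁻¹ * y * t₀ ∈ W := by rw [he]; exact hcRi t₀ ht₀ y hy
      have hy2 := hR₂mem _ hy'
      have e : t₀ * (t₀⁻¹ * y * t₀) * t₀⁻¹ = y := by group
      rw [e] at hy2
      have hxW : x ∈ W := by rw [he]; exact hx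
      exact hcomm x hxW y hy2
    rcases hS.cen x hx hc with h | h
    · exact hx1 h
    · exact hxz h
  have hlt : Nat.card W < Nat.card R :=
    Cfsg.Agent.Lib.PGroups.Basic.card_lt_of_lt (lt_of_le_of_ne hWR hWne)
  have hSymW : Sym W K T' z := by
    refine
      { pR := hS.pR.to_le hWR
        pT := hS.pT.to_le hT'T
        oK := hS.oK
        sK := hS.sK
        zR := hzW
        z1 := hS.z1
        z2 := hS.z2
        KR := hKW
        TR := hT'W
        TK := hT'T.trans hS.TK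
        disj := ?_
        zK := hS.zK
        zT := fun t ht => hS.zT t (hT'T ht)
        comm := fun x hx y hy => hS.comm x (hWR hx) y (hWR hy)
        cen := ?_
        fix := fun x hx h => hS.fix x (hWR hx) h }
    · rw [eq_bot_iff, ← hS.disj]
      exact inf_le_inf hWR hT'T
    · intro x hx hc
      refine hS.cen x (hWR hx) (fun y hy => ?_)
      rw [← hSeq] at hy
      have hle : S ≤ centralizer ({x} : Set X) := by
        apply sup_le
        · intro a ha
          rw [mem_centralizer_iff]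
          intro b hb
          rw [Set.mem_singleton_iff.mp hb]
          exact hc a ha
        · intro a ha
          rw [mem_centralizer_iff]
          intro b hb
          rw [Set.mem_singleton_iff.mp hb]
          exact hcomm x hx a ha
      exact mem_centralizer_iff.mp (hle hy) x rfl
  exact ext_wreath hsr ht₀ hT'T hS.TR hTT' hT'W hSeq hcomm hint hzW hS.disj hS.zT ht2 hcov
    (IH W T' hSymW hlt)

end Cfsg.Agent.Lib.DadeE.Case2
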