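import Cfsg.Agent.Lib.DadeE.Basic
import Cfsg.Agent.Lib.Char.Degree
import Cfsg.Agent.Lib.Char.Complete
import Cfsg.Agent.Lib.Char.Central
import Cfsg.Agent.Lib.Char.Ortho
import Cfsg.Agent.S0886

/-!
# Characters on subgroups as functions on the ambient group; the cyclic extension step
-/

set_option autoImplicit false

namespace Cfsg.Agent.Lib.DadeE.Chr

open Subgroup Cfsg Module
open Cfsg.Agent.Lib.DadeE.Basic
open scoped ComplexConjugate

universe u

variable {X : Type u} [Group X]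

/-- `f` restricted to `S` is a character. -/
def Chr (S : Subgroup X) (f : X → ℂ) : Prop := IsCharacter ↥S (fun g : S => f g)

theorem Chr.mono {S S' : Subgroup X} {f : X → ℂ} (hf : Chr S f) (h : S' ≤ S) : Chr S' f :=
  Cfsg.Agent.Lib.Char.Basic.isCharacter_comp (Subgroup.inclusion h) hf

theorem Chr.conj {S : Subgroup X} {f : X → ℂ} (hf : Chr S f) {g x : X} (hg : g ∈ S) (hx : x ∈ S) :
    f (g * x * g⁻¹) = f x := by
  have := Cfsg.Agent.Lib.Char.Basic.isClassFunction_of_isCharacter hf (⟨x, hx⟩ : S) (⟨g, hg⟩ : S)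
  exact this

theorem chr_extend {S : Subgroup X} {χ : S → ℂ} (h : IsCharacter S χ) :
    Chr S (extendByZero S χ) := by
  unfold Chr
  have : (fun g : S => extendByZero S χ (g : X)) = χ := by
    funext g
    exact Cfsg.Agent.Lib.Char.Induced.extendByZero_coe S χ g
  rw [this]
  exact h

theorem Chr.deg {S : Subgroup X} {f : X → ℂ} (hf : Chr S f) : ∃ n : ℕ, f 1 = n := by
  have := Cfsg.Agent.Lib.Char.Basic.exists_deg_of_isCharacter hf
  exact this

/-- A central involution acting with trace `-χ(1)` acts as `-1`. -/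
theorem Chr.neg [Finite X] {S : Subgroup X} {f : X → ℂ} (hf : Chr S f) {z : X} (hzS : z ∈ S)
    (hz : f z = - f 1) {g : X} (hg : g ∈ S) : f (z * g) = - f g := by
  obtain ⟨n, ρ, hρ⟩ := hf
  have h1 : ∀ s : S, ρ.character s = f s := fun s => congrFun hρ s
  have hone : ρ.character (1 : S) = (n : ℂ) := by
    simp [Representation.character, map_one, LinearMap.trace_one]
  have hz' : ρ.character (⟨z, hzS⟩ : S) = - (n : ℂ) := by
    rw [h1, hz, ← hone]
    have := h1 1
    rw [this]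
    rfl
  by_cases hn : n = 0
  · subst hn
    have : ∀ s : S, ρ.character s = 0 := by
      intro s
      have h2 := Cfsg.Agent.Lib.Char.Eigen.norm_character_le ρ s
      simp at h2
      exact h2
    rw [← h1 ⟨z * g, S.mul_mem hzS hg⟩, ← h1 ⟨g, hg⟩, this, this]
    simp
  · have hnorm : ‖ρ.character (⟨z, hzS⟩ : S)‖ = (finrank ℂ (Fin n → ℂ) : ℝ) := by
      rw [hz']
      simp
    obtain ⟨ω, hω⟩ := (Cfsg.Agent.Lib.Char.Eigen.norm_character_eq_iff_scalar ρ _).mp hnorm
    have hωv : ω = -1 := by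
      have h3 : ρ.character (⟨z, hzS⟩ : S) = ω * n := by
        change LinearMap.trace ℂ _ (ρ _) = _
        rw [hω, map_smul, LinearMap.trace_id, smul_eq_mul]
        simp
      rw [hz'] at h3
      have hn' : (n : ℂ) ≠ 0 := by exact_mod_cast hn
      have : (ω + 1) * n = 0 := by
        rw [add_mul, ← h3]; ring
      have := (mul_eq_zero.mp this).resolve_right hn'
      linear_combination this
    rw [← h1 ⟨z * g, S.mul_mem hzS hg⟩, ← h1 ⟨g, hg⟩]
    have e : (⟨z * g, S.mul_mem hzS hg⟩ : S) = ⟨z, hzS⟩ * ⟨g, hg⟩ := rfl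
    rw [e]
    change LinearMap.trace ℂ _ (ρ _) = - LinearMap.trace ℂ _ (ρ _)
    rw [map_mul, hω, hωv]
    rw [smul_mul_assoc, show (LinearMap.id * ρ ⟨g, hg⟩ : Module.End ℂ (Fin n → ℂ)) = ρ ⟨g, hg⟩ from one_mul _,
      map_smul]
    simp

/-- Vanishing of a character off the centre. -/
theorem Chr.vanish [Finite X] {S : Subgroup X} {f : X → ℂ} (hf : Chr S f) {z : X} (hzS : z ∈ S)
    (hz : f z = - f 1) {x y : X} (hx : x ∈ S) (hy : y ∈ S) (h : x * y = z * (y * x)) : f y = 0 := by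
  have h1 : x * y * x⁻¹ = z * y := by
    rw [h]; group
  have h2 := hf.conj hx hy
  rw [h1, hf.neg hzS hz hy] at h2
  have h3 : (2 : ℂ) * f y = 0 := by
    linear_combination -h2
  simpa using h3

theorem vanish_of_symR [Finite X] {R S : Subgroup X} {f : X → ℂ} {z : X} (h : SymR R z)
    (hf : Chr S f) (hRS : R ≤ S) (hz : f z = - f 1) {y : X} (hy : y ∈ R) (h1 : y ≠ 1) (h2 : y ≠ z) :
    f y = 0 := by
  have : ¬ ∀ x ∈ R, y * x = x * y := fun hc => by
    rcases h.cen y hy hc with h' | h'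
    · exact h1 h'
    · exact h2 h'
  push Not at this
  obtain ⟨x, hx, hne⟩ := this
  rcases h.comm x hx y hy with h' | h'
  · exact absurd h'.symm hne
  · exact hf.vanish (hRS h.zR) hz (hRS hx) (hRS hy) h'

/-- The sum of the squares of the absolute values. -/
theorem sum_mul_conj [Finite X] {R S : Subgroup X} {f : X → ℂ} {z : X} (h : SymR R z)
    (hf : Chr S f) (hRS : R ≤ S) (hz : f z = - f 1) [Fintype R] :
    ∑ g : R, f g * conj (f g) = 2 * (f 1) ^ 2 := by
  classical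
  obtain ⟨n, hn⟩ := hf.deg
  have h1 : ∀ g : R, f g * conj (f g) = if ((g : X) = 1 ∨ (g : X) = z) then (f 1) ^ 2 else 0 := by
    intro g
    by_cases hg : (g : X) = 1 ∨ (g : X) = z
    · rw [if_pos hg]
      rcases hg with hg | hg
      · rw [hg, hn]; simp [sq]
      · rw [hg, hz, hn]; simp [sq]
    · rw [if_neg hg]
      push Not at hg
      rw [vanish_of_symR h hf hRS hz g.2 hg.1 hg.2]
      simp
  rw [Finset.sum_congr rfl (fun g _ => h1 g), Finset.sum_ite, Finset.sum_const_zero, add_zero,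
    Finset.sum_const, nsmul_eq_mul]
  congr 1
  have : (Finset.univ.filter (fun y : R => (y : X) = 1 ∨ (y : X) = z)) =
      {(1 : R), (⟨z, h.zR⟩ : R)} := by
    ext y
    simp only [Finset.mem_filter, Finset.mem_univ, true_and, Finset.mem_insert,
      Finset.mem_singleton]
    constructor
    · rintro (h1 | h1)
      · left; exact Subtype.ext h1
      · right; exact Subtype.ext h1
    · rintro (h1 | h1)
      · left; rw [h1]; rfl
      · right; rw [h1]
  rw [this, Finset.card_pair]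
  · rfl
  · intro hc
    apply h.z1
    exact (congrArg Subtype.val hc).symm

/-- Restriction to `R` is irreducible under the degree condition. -/
theorem irr_of_deg [Finite X] {R S : Subgroup X} {f : X → ℂ} {z : X} (h : SymR R z)
    (hf : Chr S f) (hRS : R ≤ S) (hz : f z = - f 1) (hd : 2 * (f 1) ^ 2 = (Nat.card R : ℂ)) :
    IsIrrCharacter ↥R (fun g : R => f g) := by
  classical
  have := Fintype.ofFinite R
  apply Cfsg.Agent.Lib.Char.Complete.isIrrCharacter_of_classInner_self_eq_one (hf.mono hRS)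
  unfold classInner
  rw [sum_mul_conj h hf hRS hz, hd]
  have : (Nat.card R : ℂ) ≠ 0 := by
    exact_mod_cast Nat.card_pos.ne'
  field_simp

/-- The conclusion of the theorem. -/
def Ext (R T : Subgroup X) (z : X) : Prop :=
  ∃ f : X → ℂ, Chr (R ⊔ T) f ∧ f z = - f 1 ∧ 2 * (f 1) ^ 2 = (Nat.card R : ℂ)

/-- Stabilizer of a function on `M`. -/
def St (M : Subgroup X) (f : X → ℂ) : Subgroup X where
  carrier := {g | ∀ m ∈ M, (g * m * g⁻¹ ∈ M ∧ g⁻¹ * m * g ∈ M) ∧ f (g * m * g⁻¹) = f m}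
  one_mem' := by
    intro m hm
    simp [hm]
  mul_mem' := by
    intro a b ha hb m hm
    have e1 : a * b * m * (a * b)⁻¹ = a * (b * m * b⁻¹) * a⁻¹ := by group
    have e2 : (a * b)⁻¹ * m * (a * b) = b⁻¹ * (a⁻¹ * m * a) * b := by group
    refine ⟨⟨?_, ?_⟩, ?_⟩
    · rw [e1]; exact (ha _ (hb m hm).1.1).1.1
    · rw [e2]; exact (hb _ (ha m hm).1.2).1.2
    · rw [e1, (ha _ (hb m hm).1.1).2, (hb m hm).2]
  inv_mem' := by
    intro a ha m hm
    have h1 := ha _ (ha m hm).1.2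
    have e : a * (a⁻¹ * m * a) * a⁻¹ = m := by group
    rw [e] at h1
    refine ⟨⟨?_, ?_⟩, ?_⟩
    · have := (ha m hm).1.2
      simpa using this
    · have := (ha m hm).1.1
      simpa using this
    · have h2 : a⁻¹ * m * a⁻¹⁻¹ = a⁻¹ * m * a := by simp
      rw [h2]
      exact h1.2.symm

theorem le_normalizer_sup' {A B C : Subgroup X} (h1 : A ≤ normalizer (B : Set X))
    (h2 : A ≤ normalizer (C : Set X)) : A ≤ normalizer ((B ⊔ C : Subgroup X) : Set X) := by
  rw [Subgroup.le_normalizer_iff]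
  intro a ha m hm
  have : B ⊔ C ≤ (B ⊔ C).comap (MulAut.conj a).toMonoidHom := by
    apply sup_le
    · intro b hb
      exact Subgroup.mem_sup_left (Subgroup.le_normalizer_iff.mp h1 a ha b hb)
    · intro b hb
      exact Subgroup.mem_sup_right (Subgroup.le_normalizer_iff.mp h2 a ha b hb)
  exact this hm

open Cfsg.Agent.Lib.Coprime.Action in
/-- **Cyclic extension step.** -/
theorem ext_of_cyc [Finite X] {R T T' : Subgroup X} {z : X} (hs : SymR R z) (hT'T : T' ≤ T)
    (hTR : T ≤ normalizer (R : Set X)) (hTT' : T ≤ normalizer (T' : Set X)) {c : X} (hc : c ∈ T)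
    (hcyc : ∀ t ∈ T, ∃ i : ℤ, c ^ i * t ∈ T') {f : X → ℂ} (hf : Chr (R ⊔ T') f) (hz : f z = - f 1)
    (hd : 2 * (f 1) ^ 2 = (Nat.card R : ℂ)) (hinv : ∀ m ∈ R ⊔ T', f (c * m * c⁻¹) = f m) :
    Ext R T z := by
  classical
  set M : Subgroup X := R ⊔ T' with hM
  have hMle : M ≤ R ⊔ T := sup_le_sup_left hT'T R
  have hTnM : T ≤ normalizer (M : Set X) := le_normalizer_sup' hTR hTT'
  have hcM : c ∈ St M f := by
    intro m hm
    refine ⟨⟨Subgroup.le_normalizer_iff.mp hTnM c hc m hm, ?_⟩, hinv m hm⟩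
    have := Subgroup.le_normalizer_iff.mp hTnM c⁻¹ (T.inv_mem hc) m hm
    simpa using this
  have hMSt : M ≤ St M f := by
    intro g hg m hm
    refine ⟨⟨M.mul_mem (M.mul_mem hg hm) (M.inv_mem hg), M.mul_mem (M.mul_mem (M.inv_mem hg) hm) hg⟩,
      hf.conj hg hm⟩
  have hTSt : T ≤ St M f := by
    intro t ht
    obtain ⟨i, hi⟩ := hcyc t ht
    have : t = (c ^ i)⁻¹ * (c ^ i * t) := by group
    rw [this]
    exact (St M f).mul_mem ((St M f).inv_mem ((St M f).zpow_mem hcM i))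
      (hMSt (Subgroup.mem_sup_right hi))
  have hRSt : R ≤ St M f := le_trans le_sup_left hMSt
  have hSt : R ⊔ T ≤ St M f := sup_le hRSt hTSt
  -- the groups
  let G := ↥(R ⊔ T)
  let N : Subgroup G := M.subgroupOf (R ⊔ T)
  have hN : N.Normal := by
    constructor
    intro n hn g
    exact (hSt g.2 n (mem_subgroupOf.mp hn)).1.1
  let ϑ : N → ℂ := fun n => f ((n : G) : X)
  have hmemM : ∀ n : N, ((n : G) : X) ∈ M := fun n => mem_subgroupOf.mp n.2
  have hϑc : IsCharacter N ϑ := by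
    let κ : N →* M :=
      { toFun := fun n : N => ⟨((n : G) : X), hmemM n⟩
        map_one' := rfl
        map_mul' := fun _ _ => rfl }
    exact Cfsg.Agent.Lib.Char.Basic.isCharacter_comp κ hf
  have hRM : ∀ r : R, (r : X) ∈ R ⊔ T := fun r => Subgroup.mem_sup_left r.2
  let ι : R →* N :=
    { toFun := fun r => ⟨⟨r, hRM r⟩, mem_subgroupOf.mpr (Subgroup.mem_sup_left r.2)⟩
      map_one' := rfl
      map_mul' := fun _ _ => rfl }
  have hϑ : IsIrrCharacter N ϑ := by
    apply Cfsg.Agent.Lib.Char.Extend.isIrrCharacter_of_comp_isIrr ι hϑc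
    exact irr_of_deg hs hf le_sup_left hz hd
  have hcycQ : IsCyclic (G ⧸ N) := by
    have hcG : c ∈ R ⊔ T := Subgroup.mem_sup_right hc
    refine ⟨QuotientGroup.mk (⟨c, hcG⟩ : G), ?_⟩
    intro q
    obtain ⟨g, rfl⟩ := QuotientGroup.mk_surjective q
    obtain ⟨e, he, t, ht, hg⟩ := exists_mul_of_mem_sup hTR g.2
    obtain ⟨i, hi⟩ := hcyc t ht
    refine Subgroup.mem_zpowers_iff.mpr ⟨-i, ?_⟩
    rw [← QuotientGroup.mk_zpow]
    apply (QuotientGroup.eq).mpr
    change (((⟨c, hcG⟩ : G) ^ (-i))⁻¹ * g : G).1 ∈ M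
    have e1 : (((⟨c, hcG⟩ : G) ^ (-i))⁻¹ * g : G).1 = (c ^ i * e * (c ^ i)⁻¹) * (c ^ i * t) := by
      have e2 : (((⟨c, hcG⟩ : G) ^ (-i))⁻¹ * g : G).1 = (c ^ (-i))⁻¹ * g.1 := rfl
      rw [e2, hg]
      simp only [zpow_neg, inv_inv]
      group
    rw [e1]
    refine M.mul_mem ?_ (Subgroup.mem_sup_right hi)
    exact Subgroup.mem_sup_left (Subgroup.le_normalizer_iff.mp hTR _ (T.zpow_mem hc i) e he)
  obtain ⟨χ, hχ, hχN⟩ := Cfsg.Agent.S0886.result N hcycQ ϑ hϑ (fun g n => by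
    exact (hSt g.2 _ (hmemM n)).2)
  refine ⟨extendByZero (R ⊔ T) χ, chr_extend (Cfsg.Agent.Lib.Char.Basic.isCharacter_of_isIrrCharacter hχ), ?_, ?_⟩
  · have hzG : z ∈ R ⊔ T := Subgroup.mem_sup_left hs.zR
    have hzM : z ∈ M := Subgroup.mem_sup_left hs.zR
    have h1 := Cfsg.Agent.Lib.Char.Induced.extendByZero_coe (R ⊔ T) χ ⟨z, hzG⟩
    have h2 := Cfsg.Agent.Lib.Char.Induced.extendByZero_coe (R ⊔ T) χ 1
    have h3 := hχN ⟨⟨z, hzG⟩, mem_subgroupOf.mpr hzM⟩
    have h4 := hχN 1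
    simp only [OneMemClass.coe_one] at h2 h4
    change extendByZero (R ⊔ T) χ z = _ at h1
    rw [h1, h2, h4]
    change χ ⟨z, hzG⟩ = _ at h3
    rw [h3]
    exact hz
  · have h2 := Cfsg.Agent.Lib.Char.Induced.extendByZero_coe (R ⊔ T) χ 1
    have h4 := hχN 1
    simp only [OneMemClass.coe_one] at h2 h4
    rw [h2, h4]
    exact hd

end Cfsg.Agent.Lib.DadeE.Chr
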