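import Cfsg.Agent.Lib.DadeE.Main
import Cfsg.Agent.S0888
import Cfsg.Agent.S0867
import Cfsg.Agent.Lib.Char.WeilPiece

/-!
# Dade's theorem on the faithful character of an extraspecial 2-group
-/

set_option autoImplicit false

namespace Cfsg.Agent.Lib.DadeE.Final

open Subgroup Cfsg
open Cfsg.Agent.Lib.DadeE.Basic Cfsg.Agent.Lib.DadeE.Chr Cfsg.Agent.Lib.DadeE.Steps
open Cfsg.Agent.Lib.DadeE.Main
open Cfsg.Agent.Lib.Coprime.Action Cfsg.Agent.Lib.Coprime.SchurZassenhaus
open scoped commutatorElement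

universe u

variable {G : Type u} [Group G] [Finite G]

/-- The central involution of an extraspecial 2-group. -/
theorem exists_z {E : Subgroup G} (hE : IsExtraspecial 2 ↥E) : ∃ z : G, SymR E z := by
  classical
  obtain ⟨⟨-, -, hcomm⟩, hcard⟩ := hE
  obtain ⟨c, hc, huniq⟩ := (Nat.card_eq_two_iff' (1 : Subgroup.center E)).mp hcard
  have hcen : ∀ x : center E, x = 1 ∨ x = c := by
    intro x
    by_cases h : x = 1
    · left; exact h
    · right; exact huniq x h
  have hc1 : ((c : E) : G) ≠ 1 := by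
    intro h
    apply hc
    exact Subtype.ext (Subtype.ext h)
  have hc2 : c * c = 1 := by
    have h1 : c ^ 2 = 1 := by
      rw [← hcard]
      exact pow_card_eq_one'
    rwa [sq] at h1
  have hcmem : ∀ x : E, x ∈ center E → x = 1 ∨ x = (c : E) := by
    intro x hx
    rcases hcen ⟨x, hx⟩ with h | h
    · left; exact congrArg Subtype.val h
    · right; exact congrArg Subtype.val h
  have hcc := Subgroup.mem_center_iff.mp c.2
  refine ⟨(c : E), ?_⟩
  refine
    { zR := (c : E).2
      z1 := hc1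
      z2 := ?_
      comm := ?_
      cen := ?_ }
  · have := congrArg (fun w : center E => ((w : E) : G)) hc2
    exact this
  · intro x hx y hy
    have h1 : ⁅(⟨x, hx⟩ : E), (⟨y, hy⟩ : E)⁆ ∈ center E := by
      rw [← hcomm, commutator_def]
      exact Subgroup.commutator_mem_commutator (mem_top _) (mem_top _)
    rcases hcmem _ h1 with h | h
    · left
      have h2 := commutatorElement_eq_one_iff_mul_comm.mp h
      exact congrArg Subtype.val h2
    · right
      have h2 : (⟨x, hx⟩ : E) * ⟨y, hy⟩ = (c : E) * (⟨y, hy⟩ * ⟨x, hx⟩) := by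
        rw [← h, commutatorElement_def]
        group
      exact congrArg Subtype.val h2
  · intro x hx hc'
    have h1 : (⟨x, hx⟩ : E) ∈ center E := by
      rw [Subgroup.mem_center_iff]
      intro g
      apply Subtype.ext
      exact (hc' g g.2).symm
    rcases hcmem _ h1 with h | h
    · left; exact congrArg Subtype.val h
    · right; exact congrArg Subtype.val h

/-- Elements of `G` fix the central involution. -/
theorem z_central {E : Subgroup G} [hEn : E.Normal] {z : G} (hs : SymR E z) (g : G) : g * z = z * g := by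
  have h1 : g * z * g⁻¹ ∈ E := hEn.conj_mem z hs.zR g
  have h2 : g * z * g⁻¹ = 1 ∨ g * z * g⁻¹ = z := by
    apply hs.cen _ h1
    intro y hy
    have h3 : g⁻¹ * y * g ∈ E := by
      have := hEn.conj_mem y hy g⁻¹
      simpa using this
    have h4 := hs.zc h3
    calc g * z * g⁻¹ * y = g * (z * (g⁻¹ * y * g)) * g⁻¹ := by group
      _ = g * ((g⁻¹ * y * g) * z) * g⁻¹ := by rw [h4]
      _ = _ := by group
  rcases h2 with h | h
  · exfalso
    apply hs.z1
    have : z = g⁻¹ * (g * z * g⁻¹) * g := by group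
    rw [this, h]; group
  · rw [mul_inv_eq_iff_eq_mul] at h
    exact h

/-- The hypotheses of the induction. -/
theorem sym_of {E H K T : Subgroup G} [hEn : E.Normal] {z : G} (hs : SymR E z) (hp : IsPGroup 2 E)
    (hEH : E ⊓ H = ⊥) (hKH : K ≤ H) (hKn : ∀ h ∈ H, ∀ k ∈ K, h * k * h⁻¹ ∈ K)
    (hKodd : Odd (Nat.card K)) (hKs : Group.IsSolvable K) (hEK : ⁅E, K⁆ = E)
    (hTH : T ≤ H) (hT : IsPGroup 2 T) : Sym E K T z := by
  have hN : ∀ A : Subgroup G, A ≤ normalizer (E : Set G) := by
    intro A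
    rw [Subgroup.le_normalizer_iff]
    intro a _ e he
    exact hEn.conj_mem e he a
  refine
    { pR := hp
      pT := hT
      oK := hKodd
      sK := hKs
      zR := hs.zR
      z1 := hs.z1
      z2 := hs.z2
      KR := hN K
      TR := hN T
      TK := ?_
      disj := ?_
      zK := fun k _ => z_central hs k
      zT := fun k _ => z_central hs k
      comm := hs.comm
      cen := hs.cen
      fix := ?_ }
  · rw [Subgroup.le_normalizer_iff]
    intro t ht k hk
    exact hKn t (hTH ht) k hk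
  · rw [eq_bot_iff, ← hEH]
    exact inf_le_inf_left E hTH
  · intro x hx hfix
    refine hs.cen x hx (fun y hy => ?_)
    have hle : ⁅E, K⁆ ≤ centralizer ({x} : Set G) := by
      rw [Subgroup.commutator_le]
      intro e he k hk
      rw [mem_centralizer_iff]
      intro b hb
      rw [Set.mem_singleton_iff.mp hb]
      -- `x` commutes with `[e, k]`
      have hzi : z⁻¹ = z := hs.zinv
      have hk1 : k * x = x * k := hfix k hk
      have hk2 : k⁻¹ * x = x * k⁻¹ := by
        rw [inv_mul_eq_iff_eq_mul, ← mul_assoc, hk1, mul_inv_cancel_right]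
      have hke : k * e * k⁻¹ ∈ E := hEn.conj_mem e he k
      rcases hs.comm x hx e he with h | h
      · -- `x` commutes with `e` and with `k e k⁻¹`
        have h1 : x * (k * e * k⁻¹) = (k * e * k⁻¹) * x := by
          calc x * (k * e * k⁻¹) = (x * k) * e * k⁻¹ := by group
            _ = (k * x) * e * k⁻¹ := by rw [hk1]
            _ = k * (x * e) * k⁻¹ := by group
            _ = k * (e * x) * k⁻¹ := by rw [h]
            _ = k * e * (x * k⁻¹) := by group
            _ = k * e * (k⁻¹ * x) := by rw [hk2]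
            _ = _ := by group
        have h2 : x * e⁻¹ = e⁻¹ * x := by
          rw [mul_inv_eq_iff_eq_mul, mul_assoc, h, inv_mul_cancel_left]
        rw [commutatorElement_def]
        calc x * (e * k * e⁻¹ * k⁻¹) = (x * e) * k * e⁻¹ * k⁻¹ := by group
          _ = (e * x) * k * e⁻¹ * k⁻¹ := by rw [h]
          _ = e * (x * k) * e⁻¹ * k⁻¹ := by group
          _ = e * (k * x) * e⁻¹ * k⁻¹ := by rw [hk1]
          _ = e * k * (x * e⁻¹) * k⁻¹ := by group
          _ = e * k * (e⁻¹ * x) * k⁻¹ := by rw [h2]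
          _ = e * k * e⁻¹ * (x * k⁻¹) := by group
          _ = e * k * e⁻¹ * (k⁻¹ * x) := by rw [hk2]
          _ = _ := by group
      · have hzc : ∀ g : G, g * z = z * g := z_central hs
        have h2 : x * e⁻¹ = z * (e⁻¹ * x) := by
          have h3 : x * e * e⁻¹ = z * (e * x) * e⁻¹ := by rw [h]
          rw [mul_inv_cancel_right] at h3
          have h4 : e⁻¹ * x = e⁻¹ * (z * (e * x) * e⁻¹) := by rw [← h3]
          have h5 : e⁻¹ * (z * (e * x) * e⁻¹) = z * (x * e⁻¹) := by
            have h6 := hzc e⁻¹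
            calc e⁻¹ * (z * (e * x) * e⁻¹) = (e⁻¹ * z) * (e * x) * e⁻¹ := by group
              _ = (z * e⁻¹) * (e * x) * e⁻¹ := by rw [h6]
              _ = _ := by group
          rw [h5] at h4
          rw [h4, ← mul_assoc, hs.z2, one_mul]
        rw [commutatorElement_def]
        calc x * (e * k * e⁻¹ * k⁻¹) = (x * e) * k * e⁻¹ * k⁻¹ := by group
          _ = (z * (e * x)) * k * e⁻¹ * k⁻¹ := by rw [h]
          _ = z * e * (x * k) * e⁻¹ * k⁻¹ := by group
          _ = z * e * (k * x) * e⁻¹ * k⁻¹ := by rw [hk1]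
          _ = z * e * k * (x * e⁻¹) * k⁻¹ := by group
          _ = z * e * k * (z * (e⁻¹ * x)) * k⁻¹ := by rw [h2]
          _ = z * (e * k * z) * (e⁻¹ * x) * k⁻¹ := by group
          _ = z * (z * (e * k)) * (e⁻¹ * x) * k⁻¹ := by rw [hzc (e * k)]
          _ = (z * z) * (e * k * e⁻¹ * (x * k⁻¹)) := by group
          _ = e * k * e⁻¹ * (x * k⁻¹) := by rw [hs.z2, one_mul]
          _ = e * k * e⁻¹ * (k⁻¹ * x) := by rw [hk2]
          _ = _ := by group
    rw [hEK] at hle
    exact mem_centralizer_iff.mp (hle hy) x rfl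

/-- **Dade's theorem**, with the solvability of `K` as a hypothesis. -/
theorem main {E H K : Subgroup G} [hEn : E.Normal] (hE : IsExtraspecial 2 ↥E) (hEH : E ⊓ H = ⊥)
    (hEHtop : E ⊔ H = ⊤) (hKH : K ≤ H) (hKn : ∀ h ∈ H, ∀ k ∈ K, h * k * h⁻¹ ∈ K)
    (hKodd : Odd (Nat.card K)) (hKs : Group.IsSolvable K) (hEK : ⁅E, K⁆ = E) {θ : E → ℂ}
    (hθi : IsIrrCharacter E θ) (hθ : ∀ e : E, θ e = θ 1 → e = 1) :
    ∃ χ : G → ℂ, IsIrrCharacter G χ ∧ ∀ e : E, χ e = θ e := by
  classical
  obtain ⟨z, hs⟩ := exists_z hE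
  have hpE : IsPGroup 2 E := hE.1.1
  let zE : E := ⟨z, hs.zR⟩
  have hzne : θ zE ≠ θ 1 := fun h => hs.z1 (congrArg Subtype.val (hθ zE h))
  have hθz : θ zE = - θ 1 := irr_neg hs hθi hzne
  have hθd : 2 * (θ 1) ^ 2 = (Nat.card E : ℂ) := irr_deg hs hθi hθz
  have hθc : IsCharacter E θ := Cfsg.Agent.Lib.Char.Basic.isCharacter_of_isIrrCharacter hθi
  let g : G → ℂ := extendByZero E θ
  have hgcoe : ∀ e : E, g e = θ e := fun e => Cfsg.Agent.Lib.Char.Induced.extendByZero_coe E θ e
  have hg : Chr E g := chr_extend hθc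
  have hg1 : g 1 = θ 1 := hgcoe 1
  have hgz : g z = - g 1 := by
    rw [hg1, ← hθz]
    exact hgcoe zE
  obtain ⟨n, hn⟩ := hg.deg
  -- uniqueness of the character
  have huniq : ∀ {S : Subgroup G} {f : G → ℂ}, Chr S f → E ≤ S → f z = - f 1 →
      2 * (f 1) ^ 2 = (Nat.card E : ℂ) → ∀ e : E, f e = θ e := by
    intro S f hf hES hfz hfd e
    obtain ⟨m, hm⟩ := hf.deg
    have h1 : f 1 = g 1 := by
      have h2 : (m : ℂ) ^ 2 = (n : ℂ) ^ 2 := by
        have h3 : (2 : ℂ) * (m : ℂ) ^ 2 = 2 * (n : ℂ) ^ 2 := by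
          rw [← hm, ← hn, hfd, hg1, hθd]
        exact mul_left_cancel₀ two_ne_zero h3
      have h3 : m ^ 2 = n ^ 2 := by exact_mod_cast h2
      have h4 : m = n := Nat.pow_left_injective (n := 2) (by norm_num) h3
      rw [hm, hn, h4]
    rw [← hgcoe e]
    by_cases he1 : (e : G) = 1
    · rw [he1, h1]
    by_cases hez : (e : G) = z
    · rw [hez, hfz, hgz, h1]
    rw [vanish_of_symR hs hf hES hfz e.2 he1 hez, vanish_of_symR hs hg le_rfl hgz e.2 he1 hez]
  -- invariance
  have hinv : ∀ (x : G) (e : E), θ ⟨x * e * x⁻¹, hEn.conj_mem (e : G) e.2 x⟩ = θ e := by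
    intro x e
    rw [← hgcoe, ← hgcoe]
    change g (x * e * x⁻¹) = g e
    have hzx := z_central hs x
    by_cases he1 : (e : G) = 1
    · rw [he1]; simp
    by_cases hez : (e : G) = z
    · rw [hez, hzx]; simp
    have h1 : x * e * x⁻¹ ≠ 1 := by
      intro h
      apply he1
      have : (e : G) = x⁻¹ * (x * e * x⁻¹) * x := by group
      rw [this, h]; group
    have h2 : x * e * x⁻¹ ≠ z := by
      intro h
      apply hez
      have : (e : G) = x⁻¹ * (x * e * x⁻¹) * x := by group
      rw [this, h, mul_assoc, ← hzx]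
      group
    rw [vanish_of_symR hs hg le_rfl hgz (hEn.conj_mem (e : G) e.2 x) h1 h2,
      vanish_of_symR hs hg le_rfl hgz e.2 he1 hez]
  have hNE : ∀ A : Subgroup G, A ≤ normalizer (E : Set G) := by
    intro A
    rw [Subgroup.le_normalizer_iff]
    intro a _ e he
    exact hEn.conj_mem e he a
  have hcardG : Nat.card E * Nat.card H = Nat.card G := by
    have := card_sup_of_le_normalizer (hNE H) hEH
    rw [this, hEHtop]
    exact Subgroup.card_top
  obtain ⟨χ, hχ, hχe⟩ := Cfsg.Agent.S0888.result E θ hθi hinv (fun p hp => by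
    haveI : Fact p.Prime := ⟨hp⟩
    obtain ⟨Q⟩ : Nonempty (Sylow p H) := inferInstance
    set S : Subgroup G := (Q : Subgroup H).map H.subtype with hS
    have hSH : S ≤ H := by
      rintro _ ⟨y, -, rfl⟩
      exact y.2
    have hSp : IsPGroup p S := Q.isPGroup'.map _
    have hdisj : E ⊓ S = ⊥ := by
      rw [eq_bot_iff, ← hEH]
      exact inf_le_inf_left E hSH
    set P : Subgroup G := E ⊔ S with hP
    have hcP : Nat.card E * Nat.card S = Nat.card P := card_sup_of_le_normalizer (hNE S) hdisj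
    have hcS : Nat.card S = Nat.card Q :=
      Nat.card_congr ((Q : Subgroup H).equivMapOfInjective _ H.subtype_injective).toEquiv.symm
    have hidx : P.index = (Q : Subgroup H).index := by
      have h1 := Subgroup.card_mul_index P
      have h2 := Subgroup.card_mul_index (Q : Subgroup H)
      rw [← hcP, ← hcardG, ← h2, hcS] at h1
      have hpos : 0 < Nat.card E * Nat.card Q := Nat.mul_pos Nat.card_pos Nat.card_pos
      apply Nat.eq_of_mul_eq_mul_left hpos
      rw [h1]
      ring
    have hcopP : Nat.Coprime P.index p := by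
      rw [hidx]
      exact ((Nat.Prime.coprime_iff_not_dvd hp).mpr Q.not_dvd_index).symm
    have hEP : E ≤ P := le_sup_left
    have hrel : E.relIndex P = Nat.card S := by
      have h1 := Subgroup.card_mul_index (E.subgroupOf P)
      have h2 : Nat.card (E.subgroupOf P) = Nat.card E := card_subgroupOf_of_le hEP
      rw [h2, ← hcP] at h1
      exact Nat.eq_of_mul_eq_mul_left Nat.card_pos h1
    obtain ⟨k, hk⟩ := IsPGroup.iff_card.mp hSp
    by_cases hp2 : p = 2
    · subst hp2
      obtain ⟨f, hf, hfz, hfd⟩ := ext_of_sym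
        (sym_of (K := K) (T := S) hs hpE hEH hKH hKn hKodd hKs hEK hSH hSp)
      refine ⟨P, hEP, fun x : P => f x, hcopP, ⟨k, hrel.trans hk⟩, ?_, ?_⟩
      · exact Cfsg.Agent.Lib.Char.Extend.isIrrCharacter_of_comp_isIrr (Subgroup.inclusion hEP) hf
          (irr_of_deg hs hf hEP hfz hfd)
      · intro e
        exact huniq hf hEP hfz hfd e
    · -- the odd primes: Gallagher's theorem
      haveI hN' : (E.subgroupOf P).Normal := Subgroup.Normal.subgroupOf hEn P
      let N' : Subgroup P := E.subgroupOf P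
      have hmem : ∀ m : N', ((m : P) : G) ∈ E := fun m => mem_subgroupOf.mp m.2
      let ϑ : N' → ℂ := fun m => θ ⟨((m : P) : G), hmem m⟩
      let a : N' →* E :=
        { toFun := fun m => ⟨((m : P) : G), hmem m⟩
          map_one' := rfl
          map_mul' := fun _ _ => rfl }
      let b : E →* N' :=
        { toFun := fun e => ⟨⟨e, hEP e.2⟩, mem_subgroupOf.mpr e.2⟩
          map_one' := rfl
          map_mul' := fun _ _ => rfl }
      have hϑc : IsCharacter N' ϑ := Cfsg.Agent.Lib.Char.Basic.isCharacter_comp a hθc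
      have hϑi : IsIrrCharacter N' ϑ :=
        Cfsg.Agent.Lib.Char.Extend.isIrrCharacter_of_comp_isIrr b hϑc hθi
      have hinv' : ∀ (x : P) (m : N'), ϑ ⟨x * m * x⁻¹, hN'.conj_mem (m : P) m.2 x⟩ = ϑ m :=
        fun x m => hinv (x : G) ⟨((m : P) : G), hmem m⟩
      have hd : ϑ 1 = n := by
        rw [← hn, hg1]
        rfl
      have hcardE : ∃ m, Nat.card E = 2 ^ m := IsPGroup.iff_card.mp hpE
      obtain ⟨m, hm⟩ := hcardE
      have hnd : n ∣ 2 ^ m := by
        have h1 : 2 * n ^ 2 = Nat.card E := by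
          have h2 : ((2 * n ^ 2 : ℕ) : ℂ) = Nat.card E := by
            push_cast
            rw [← hn, hg1]
            exact hθd
          exact_mod_cast h2
        rw [← hm, ← h1]
        exact ⟨2 * n, by ring⟩
      have hdet : detOrder ϑ ∣ 2 ^ m := by
        have h1 := Cfsg.Agent.Lib.Char.WeilPiece.detOrder_dvd_card hϑc
        have h2 : Nat.card N' = Nat.card E := card_subgroupOf_of_le hEP
        rwa [h2, hm] at h1
      have hp2' : Nat.Coprime p (2 ^ m) :=
        Nat.Coprime.pow_right m ((Nat.coprime_primes hp Nat.prime_two).mpr hp2)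
      have hcop' : Nat.Coprime N'.index (detOrder ϑ * n) := by
        have h1 : N'.index = p ^ k := hrel.trans hk
        rw [h1]
        apply Nat.Coprime.pow_left
        exact Nat.Coprime.mul_right (Nat.Coprime.coprime_dvd_right hdet hp2')
          (Nat.Coprime.coprime_dvd_right hnd hp2')
      obtain ⟨χ', ⟨hχ'i, hχ'e, -⟩, -⟩ := Cfsg.Agent.S0867.result N' ϑ hϑi hinv' n hd hcop'
      refine ⟨P, hEP, χ', hcopP, ⟨k, hrel.trans hk⟩, hχ'i, ?_⟩
      intro e
      exact hχ'e (b e))
  exact ⟨χ, hχ, hχe⟩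

end Cfsg.Agent.Lib.DadeE.Final
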