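import Cfsg.Agent.Lib.DadeE.Sect
import Cfsg.Agent.Lib.Coprime.Generation
import Cfsg.Agent.Lib.PGroups.Basic

/-!
# The analysis of `K` acting irreducibly
-/

set_option autoImplicit false

namespace Cfsg.Agent.Lib.DadeE.Kpart

open Subgroup Cfsg
open Cfsg.Agent.Lib.DadeE.Basic Cfsg.Agent.Lib.DadeE.Chr Cfsg.Agent.Lib.DadeE.Tensor
open Cfsg.Agent.Lib.DadeE.Steps Cfsg.Agent.Lib.DadeE.Sect
open Cfsg.Agent.Lib.Coprime.Action Cfsg.Agent.Lib.Coprime.Ext Cfsg.Agent.Lib.Coprime.Generation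
open scoped commutatorElement

universe u

variable {X : Type u} [Group X]

/-- An element of odd order does not send `m` to `z m`. -/
theorem oddfix {a m z : X} {n : ℕ} (hn : Odd n) (han : a ^ n = 1) (hz1 : z ≠ 1) (hz2 : z * z = 1)
    (hza : a * z = z * a) (h : a * m * a⁻¹ = z * m) : False := by
  have key : ∀ k : ℕ, a ^ k * m * (a ^ k)⁻¹ = z ^ k * m := by
    intro k
    induction k with
    | zero => simp
    | succ k ih =>
      have h1 : ∀ j : ℕ, a * z ^ j = z ^ j * a := fun j => (Commute.pow_right hza j).eq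
      calc a ^ (k + 1) * m * (a ^ (k + 1))⁻¹ = a * (a ^ k * m * (a ^ k)⁻¹) * a⁻¹ := by
            rw [pow_succ']; group
        _ = a * (z ^ k * m) * a⁻¹ := by rw [ih]
        _ = (a * z ^ k) * m * a⁻¹ := by group
        _ = z ^ k * (a * m * a⁻¹) := by rw [h1]; group
        _ = z ^ (k + 1) * m := by rw [h, pow_succ]; group
  have h2 := key n
  rw [han] at h2
  simp only [one_mul, inv_one, mul_one] at h2
  have h3 : z ^ n = 1 := by
    have : z ^ n * m = 1 * m := by rw [one_mul]; exact h2.symm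
    exact mul_right_cancel this
  obtain ⟨j, rfl⟩ := hn
  rw [pow_succ, pow_mul, sq, hz2, one_pow, one_mul] at h3
  exact hz1 h3

/-- The commutation lemma. -/
theorem kill [Finite X] {R Y H : Subgroup X} {z w : X} (hs : SymR R z) (hYR : Y ≤ R)
    (hHY : H ≤ normalizer (Y : Set X)) (hcop : (Nat.card H).Coprime (Nat.card Y))
    (hsolv : Group.IsSolvable H ∨ Group.IsSolvable Y) (hzH : ∀ h ∈ H, h * z = z * h)
    (hi : ∀ y ∈ Y, w * y * w⁻¹ = y ∨ w * y * w⁻¹ = z * y)
    (hii : ∀ h ∈ H, ∀ y ∈ Y, w * (h * y * h⁻¹) * w⁻¹ = h * (w * y * w⁻¹) * h⁻¹)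
    (hiii : ∀ y ∈ Y, (∀ h ∈ H, h * y = y * h) → w * y * w⁻¹ = y) {y : X} (hy : y ∈ Y) :
    w * y * w⁻¹ = y := by
  have hsup := commutator_sup_fixed hHY hcop hsolv
  have hle : Y ≤ centralizer ({w} : Set X) := by
    rw [← hsup]
    apply sup_le
    · rw [Subgroup.commutator_le]
      intro y hy h hh
      have hcY : ⁅y, h⁆ ∈ Y := commutator_le_of_le_normalizer hHY
        (Subgroup.commutator_mem_commutator hy hh)
      have hyi : y⁻¹ ∈ Y := Y.inv_mem hy
      have e0 : ⁅y, h⁆ = y * (h * y⁻¹ * h⁻¹) := by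
        rw [commutatorElement_def]; group
      have e1 : w * ⁅y, h⁆ * w⁻¹ = (w * y * w⁻¹) * (h * (w * y⁻¹ * w⁻¹) * h⁻¹) := by
        rw [e0, ← hii h hh y⁻¹ hyi]; group
      have e2 : w * ⁅y, h⁆ * w⁻¹ = ⁅y, h⁆ := by
        rw [e1]
        have hinvw : w * y⁻¹ * w⁻¹ = (w * y * w⁻¹)⁻¹ := by group
        rw [hinvw]
        rcases hi y hy with h1 | h1
        · rw [h1, e0]
        · rw [h1, e0]
          have hzy := hs.zc (hYR hy)
          have hzi : z⁻¹ = z := hs.zinv
          have h2 : (z * y)⁻¹ = y⁻¹ * z := by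
            rw [mul_inv_rev, hzi]
          rw [h2]
          have h3 : h * (y⁻¹ * z) * h⁻¹ = (h * y⁻¹ * h⁻¹) * z := by
            have := hzH h hh
            calc h * (y⁻¹ * z) * h⁻¹ = h * y⁻¹ * (z * h⁻¹) := by group
              _ = h * y⁻¹ * (h⁻¹ * z) := by
                congr 1
                have h5 : z * h⁻¹ = h⁻¹ * z := by
                  rw [eq_inv_mul_iff_mul_eq, ← mul_assoc, this, mul_inv_cancel_right]
                exact h5
              _ = _ := by group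
          rw [h3]
          have hcc : (y * (h * y⁻¹ * h⁻¹)) * z = z * (y * (h * y⁻¹ * h⁻¹)) := by
            rw [← e0]
            exact hs.zc (hYR hcY)
          calc z * y * (h * y⁻¹ * h⁻¹ * z) = z * ((y * (h * y⁻¹ * h⁻¹)) * z) := by group
            _ = z * (z * (y * (h * y⁻¹ * h⁻¹))) := by rw [hcc]
            _ = (z * z) * (y * (h * y⁻¹ * h⁻¹)) := by group
            _ = _ := by rw [hs.z2, one_mul]
      rw [mem_centralizer_iff]
      intro b hb
      rw [Set.mem_singleton_iff.mp hb]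
      rw [mul_inv_eq_iff_eq_mul] at e2
      exact e2
    · intro y hy
      obtain ⟨h1, h2⟩ := mem_inf.mp hy
      have h3 := hiii y h1 (fun h hh => mem_centralizer_iff.mp h2 h hh)
      rw [mem_centralizer_iff]
      intro b hb
      rw [Set.mem_singleton_iff.mp hb]
      rw [mul_inv_eq_iff_eq_mul] at h3
      exact h3
  have h1 := mem_centralizer_iff.mp (hle hy) w rfl
  rw [h1]
  group

/-- Elements of `zpowers z`. -/
theorem mem_zpowers_z {z x : X} (hz2 : z * z = 1) : x ∈ zpowers z ↔ x = 1 ∨ x = z := by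
  constructor
  · intro h
    obtain ⟨k, rfl⟩ := mem_zpowers_iff.mp h
    rcases Int.even_or_odd' k with ⟨j, rfl | rfl⟩
    · left
      rw [zpow_mul, zpow_two, hz2, one_zpow]
    · right
      rw [zpow_add, zpow_mul, zpow_two, hz2, one_zpow, one_mul, zpow_one]
  · rintro (rfl | rfl)
    · exact one_mem _
    · exact mem_zpowers _

theorem normal_zpowers_subgroupOf {M : Subgroup X} {z : X} (hz2 : z * z = 1)
    (hzc : ∀ x ∈ M, x * z = z * x) : ((zpowers z).subgroupOf M).Normal := by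
  constructor
  intro n hn g
  rw [mem_subgroupOf] at hn ⊢
  rw [mem_zpowers_z hz2] at hn ⊢
  rcases hn with h | h
  · left
    simp [h]
  · right
    have := hzc g g.2
    simp only [Subgroup.coe_mul, Subgroup.coe_inv, h]
    rw [this]
    group

theorem le_normalizer_zpowers {A : Subgroup X} {z : X} (hz2 : z * z = 1)
    (hzA : ∀ a ∈ A, a * z = z * a) : A ≤ normalizer ((zpowers z : Subgroup X) : Set X) := by
  rw [Subgroup.le_normalizer_iff]
  intro a ha x hx
  rw [mem_zpowers_z hz2] at hx ⊢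
  rcases hx with h | h
  · left; simp [h]
  · right
    rw [h, hzA a ha]; group

/-- A 2-group fixes a nonzero point of `R / ⟨z⟩`. -/
theorem exists_fix_mod [Finite X] {R A : Subgroup X} {z : X} (hs : SymR R z) (hpR : IsPGroup 2 R)
    (hpA : IsPGroup 2 A) (hAR : A ≤ normalizer (R : Set X)) (hzA : ∀ a ∈ A, a * z = z * a)
    (hne : ∃ x ∈ R, x ≠ 1 ∧ x ≠ z) :
    ∃ x ∈ R, x ≠ 1 ∧ x ≠ z ∧ ∀ a ∈ A, a * x * a⁻¹ = x ∨ a * x * a⁻¹ = z * x := by
  classical
  haveI hN : ((zpowers z).subgroupOf R).Normal := normal_zpowers_subgroupOf hs.z2 (fun x hx => hs.zc hx)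
  let V := ↥R ⧸ ((zpowers z).subgroupOf R)
  have hA : A ≤ (normalizer (R : Set X) ⊓ normalizer ((zpowers z : Subgroup X) : Set X)) :=
    le_inf hAR (le_normalizer_zpowers hs.z2 hzA)
  let ω : ↥A →* Monoid.End V := (modConj R (zpowers z)).comp (Subgroup.inclusion hA)
  letI : MulAction ↥A V :=
    { smul := fun a v => ω a v
      one_smul := fun v => by
        change ω 1 v = v
        rw [map_one]
        rfl
      mul_smul := fun a b v => by
        change ω (a * b) v = ω a (ω b v)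
        rw [map_mul]
        rfl }
  have hmk1 : ∀ x : R, (QuotientGroup.mk x : V) = 1 ↔ (x : X) = 1 ∨ (x : X) = z := by
    intro x
    rw [QuotientGroup.eq_one_iff, mem_subgroupOf, mem_zpowers_z hs.z2]
  have hcardV : 2 ∣ Nat.card V := by
    have hp : IsPGroup 2 V := hpR.to_quotient _
    obtain ⟨k, hk⟩ := IsPGroup.iff_card.mp hp
    obtain ⟨x, hx, hx1, hxz⟩ := hne
    have hne1 : (QuotientGroup.mk ⟨x, hx⟩ : V) ≠ 1 := by
      rw [Ne, hmk1]
      rintro (h | h)
      · exact hx1 h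
      · exact hxz h
    have : Nontrivial V := ⟨⟨_, _, hne1⟩⟩
    have h1 : 1 < Nat.card V := Finite.one_lt_card
    rw [hk] at h1 ⊢
    have hk0 : k ≠ 0 := by
      rintro rfl
      simp at h1
    exact dvd_pow_self 2 hk0
  have hmod := hpA.card_modEq_card_fixedPoints V
  have hfix : 2 ∣ Nat.card (MulAction.fixedPoints A V) := by
    have h1 := hmod.symm
    rw [Nat.ModEq] at h1
    have h2 := (Nat.dvd_iff_mod_eq_zero).mp hcardV
    rw [h2] at h1
    exact Nat.dvd_of_mod_eq_zero h1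
  have hone : (1 : V) ∈ MulAction.fixedPoints A V := by
    intro a
    change ω a 1 = 1
    rw [map_one]
  have hex : ∃ u : MulAction.fixedPoints A V, u ≠ ⟨1, hone⟩ := by
    by_contra hcon
    push Not at hcon
    have : Nat.card (MulAction.fixedPoints A V) = 1 := by
      rw [Nat.card_eq_one_iff_unique]
      exact ⟨⟨fun a b => by rw [hcon a, hcon b]⟩, ⟨⟨1, hone⟩⟩⟩
    rw [this] at hfix
    omega
  obtain ⟨⟨v, hv⟩, hvne⟩ := hex
  obtain ⟨x, rfl⟩ := QuotientGroup.mk_surjective v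
  have hxne : ¬ ((x : X) = 1 ∨ (x : X) = z) := by
    rw [← hmk1]
    intro h
    apply hvne
    exact Subtype.ext h
  push Not at hxne
  refine ⟨x, x.2, hxne.1, hxne.2, ?_⟩
  intro a ha
  have h1 : ω ⟨a, ha⟩ (QuotientGroup.mk x) = QuotientGroup.mk x := hv ⟨a, ha⟩
  have h2 : (QuotientGroup.mk
      (⟨a * x * a⁻¹, Subgroup.le_normalizer_iff.mp hAR a ha x x.2⟩ : R) : V) = QuotientGroup.mk x := h1
  rw [QuotientGroup.eq] at h2
  have h3 : ((⟨a * x * a⁻¹, Subgroup.le_normalizer_iff.mp hAR a ha x x.2⟩ : R)⁻¹ * x : R).1 ∈ zpowers z := h2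
  rw [mem_zpowers_z hs.z2] at h3
  simp only [Subgroup.coe_mul, Subgroup.coe_inv] at h3
  rcases h3 with h | h
  · left
    have : (a * x * a⁻¹)⁻¹ * x = 1 := h
    exact (inv_mul_eq_one.mp this)
  · right
    have h4 : (x : X) = (a * x * a⁻¹) * z := by
      rw [← h]; group
    have hz3 : (a * x * a⁻¹) ∈ R := Subgroup.le_normalizer_iff.mp hAR a ha x x.2
    rw [hs.zc hz3] at h4
    have : z * (x : X) = z * (z * (a * x * a⁻¹)) := by rw [← h4]
    rw [← mul_assoc, hs.z2, one_mul] at this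
    exact this.symm

/-- The part of `T` acting trivially on `K / D` centralizes `R`. -/
theorem tplus_centralizes [Finite X] {R K T Tp D : Subgroup X} {z : X} (hS : Sym R K T z)
    (hTp : Tp ≤ T) (hTTp : T ≤ normalizer (Tp : Set X))
    (hTpD : ∀ t ∈ Tp, ∀ k ∈ K, t * k * t⁻¹ * k⁻¹ ∈ D)
    (hDR : ∀ d ∈ D, ∀ x ∈ R, d * x = x * d)
    (hirr : ∀ S : Subgroup X, S ≤ R → z ∈ S → K ≤ normalizer (S : Set X) →
      T ≤ normalizer (S : Set X) → S = R ∨ ∀ x ∈ S, x = 1 ∨ x = z)
    (hne : ∃ x ∈ R, x ≠ 1 ∧ x ≠ z) {t x : X} (ht : t ∈ Tp) (hx : x ∈ R) : t * x = x * t := by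
  have hsr := hS.symR
  have hzTp : ∀ t ∈ Tp, t * z = z * t := fun t ht => hS.zT t (hTp ht)
  -- the fixed points on `R / ⟨z⟩`
  let Sp : Subgroup X :=
    { carrier := {x | x ∈ R ∧ ∀ t ∈ Tp, t * x * t⁻¹ = x ∨ t * x * t⁻¹ = z * x}
      one_mem' := ⟨R.one_mem, fun t _ => Or.inl (by group)⟩
      mul_mem' := by
        rintro a b ⟨ha, ha'⟩ ⟨hb, hb'⟩
        refine ⟨R.mul_mem ha hb, fun t ht => ?_⟩
        have e : t * (a * b) * t⁻¹ = (t * a * t⁻¹) * (t * b * t⁻¹) := by group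
        rw [e]
        rcases ha' t ht with h1 | h1 <;> rcases hb' t ht with h2 | h2 <;> rw [h1, h2]
        · left; rfl
        · right
          rw [← mul_assoc, hsr.zc ha, mul_assoc]
        · right
          rw [mul_assoc]
        · left
          calc z * a * (z * b) = z * (a * z) * b := by group
            _ = z * (z * a) * b := by rw [hsr.zc ha]
            _ = (z * z) * (a * b) := by group
            _ = a * b := by rw [hS.z2, one_mul]
      inv_mem' := by
        rintro a ⟨ha, ha'⟩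
        refine ⟨R.inv_mem ha, fun t ht => ?_⟩
        have e : t * a⁻¹ * t⁻¹ = (t * a * t⁻¹)⁻¹ := by group
        rw [e]
        rcases ha' t ht with h1 | h1 <;> rw [h1]
        · left; rfl
        · right
          rw [mul_inv_rev, hsr.zinv]
          have := hsr.zc (R.inv_mem ha)
          exact this }
  have hSpR : Sp ≤ R := fun x hx => hx.1
  have hzSp : z ∈ Sp := ⟨hS.zR, fun t ht => Or.inl (by rw [hzTp t ht]; group)⟩
  have hKSp : K ≤ normalizer (Sp : Set X) := by
    rw [Subgroup.le_normalizer_iff]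
    intro k hk a ha
    refine ⟨Subgroup.le_normalizer_iff.mp hS.KR k hk a ha.1, fun t ht => ?_⟩
    have hd := hTpD t ht k hk
    set d := t * k * t⁻¹ * k⁻¹ with hd'
    have e1 : t * k * t⁻¹ = d * k := by rw [hd']; group
    have e : t * (k * a * k⁻¹) * t⁻¹ = d * (k * (t * a * t⁻¹) * k⁻¹) * d⁻¹ := by
      calc t * (k * a * k⁻¹) * t⁻¹ = (t * k * t⁻¹) * (t * a * t⁻¹) * (t * k * t⁻¹)⁻¹ := by group
        _ = _ := by rw [e1]; group
    have hmem : ∀ y ∈ R, d * y * d⁻¹ = y := by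
      intro y hy
      rw [hDR d hd y hy]; group
    rcases ha.2 t ht with h1 | h1
    · left
      rw [e, h1, hmem _ (Subgroup.le_normalizer_iff.mp hS.KR k hk a ha.1)]
    · right
      have hzaR : z * a ∈ R := R.mul_mem hS.zR ha.1
      rw [e, h1, hmem _ (Subgroup.le_normalizer_iff.mp hS.KR k hk _ hzaR)]
      have := hS.zK k hk
      calc k * (z * a) * k⁻¹ = (k * z) * a * k⁻¹ := by group
        _ = (z * k) * a * k⁻¹ := by rw [this]
        _ = _ := by group
  have hTSp : T ≤ normalizer (Sp : Set X) := by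
    rw [Subgroup.le_normalizer_iff]
    intro s hs a ha
    refine ⟨Subgroup.le_normalizer_iff.mp hS.TR s hs a ha.1, fun t ht => ?_⟩
    have hs' : s⁻¹ * t * s ∈ Tp := by
      have := Subgroup.le_normalizer_iff.mp hTTp s⁻¹ (T.inv_mem hs) t ht
      simpa using this
    have e : t * (s * a * s⁻¹) * t⁻¹ = s * ((s⁻¹ * t * s) * a * (s⁻¹ * t * s)⁻¹) * s⁻¹ := by group
    rw [e]
    rcases ha.2 _ hs' with h1 | h1
    · left; rw [h1]
    · right
      rw [h1]
      have := hS.zT s hs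
      calc s * (z * a) * s⁻¹ = (s * z) * a * s⁻¹ := by group
        _ = (z * s) * a * s⁻¹ := by rw [this]
        _ = _ := by group
  obtain ⟨x₀, hx₀, hx₀1, hx₀z, hx₀f⟩ := exists_fix_mod hsr hS.pR (hS.pT.to_le hTp) (hTp.trans hS.TR) hzTp hne
  have hSpeq : Sp = R := by
    rcases hirr Sp hSpR hzSp hKSp hTSp with h | h
    · exact h
    · exfalso
      rcases h x₀ ⟨hx₀, hx₀f⟩ with h' | h'
      · exact hx₀1 h'
      · exact hx₀z h'
  have hcop : (Nat.card K).Coprime (Nat.card R) := coprime_of_odd hS.oK hS.pR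
  have hi : ∀ y ∈ R, t * y * t⁻¹ = y ∨ t * y * t⁻¹ = z * y := by
    intro y hy
    rw [← hSpeq] at hy
    exact hy.2 t ht
  have hii : ∀ h ∈ K, ∀ y ∈ R, t * (h * y * h⁻¹) * t⁻¹ = h * (t * y * t⁻¹) * h⁻¹ := by
    intro k hk y hy
    have hd := hTpD t ht k hk
    set d := t * k * t⁻¹ * k⁻¹ with hd'
    have e1 : t * k * t⁻¹ = d * k := by rw [hd']; group
    have e : t * (k * y * k⁻¹) * t⁻¹ = d * (k * (t * y * t⁻¹) * k⁻¹) * d⁻¹ := by
      calc t * (k * y * k⁻¹) * t⁻¹ = (t * k * t⁻¹) * (t * y * t⁻¹) * (t * k * t⁻¹)⁻¹ := by group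
        _ = _ := by rw [e1]; group
    have hmemR : k * (t * y * t⁻¹) * k⁻¹ ∈ R := Subgroup.le_normalizer_iff.mp hS.KR k hk _
      (Subgroup.le_normalizer_iff.mp hS.TR t (hTp ht) y hy)
    rw [e, hDR d hd _ hmemR]
    group
  have h1 := kill hsr le_rfl hS.KR hcop (Or.inl hS.sK) hS.zK hi hii (fun y hy hfy => by
    rcases hS.fix y hy hfy with h | h
    · rw [h]; group
    · rw [h, hzTp t ht]; group) hx
  rw [mul_inv_eq_iff_eq_mul] at h1
  exact h1

end Cfsg.Agent.Lib.DadeE.Kpart
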