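import Cfsg.Agent.Lib.DadeE.Case2

/-!
# Dade's theorem: the induction
-/

set_option autoImplicit false

namespace Cfsg.Agent.Lib.DadeE.Main

open Subgroup Cfsg
open Cfsg.Agent.Lib.DadeE.Basic Cfsg.Agent.Lib.DadeE.Chr Cfsg.Agent.Lib.DadeE.Tensor
open Cfsg.Agent.Lib.DadeE.Steps Cfsg.Agent.Lib.DadeE.Sect Cfsg.Agent.Lib.DadeE.Kpart
open Cfsg.Agent.Lib.DadeE.Case1 Cfsg.Agent.Lib.DadeE.Case2
open Cfsg.Agent.Lib.Coprime.Action Cfsg.Agent.Lib.Coprime.Ext

universe u

theorem core (n : ℕ) : ∀ (X : Type u) [Group X] [Finite X] (R K T : Subgroup X) (z : X),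
    Sym R K T z → Nat.card R + Nat.card K = n → Ext R T z := by
  induction n using Nat.strong_induction_on with
  | _ n ih =>
  intro X _ _ R K T z hS hn
  classical
  have hsr := hS.symR
  have IH : ∀ (X' : Type u) [Group X'] [Finite X'] (R' K' T' : Subgroup X') (z' : X'),
      Sym R' K' T' z' → Nat.card R' + Nat.card K' < Nat.card R + Nat.card K → Ext R' T' z' :=
    fun X' _ _ R' K' T' z' h hlt => ih _ (hn ▸ hlt) X' R' K' T' z' h rfl
  -- Case A: an abelian invariant subgroup
  by_cases hA : ∃ S : Subgroup X, S ≤ R ∧ z ∈ S ∧ K ≤ normalizer (S : Set X) ∧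
      T ≤ normalizer (S : Set X) ∧ (∀ x ∈ S, ∀ y ∈ S, x * y = y * x) ∧ ∃ x ∈ S, x ≠ 1 ∧ x ≠ z
  · obtain ⟨S, h1, h2, h3, h4, h5, h6⟩ := hA
    exact ext_section hS h1 h2 h3 h4 h5 h6 IH
  have hA' : ∀ S : Subgroup X, S ≤ R → z ∈ S → K ≤ normalizer (S : Set X) →
      T ≤ normalizer (S : Set X) → (∀ x ∈ S, ∀ y ∈ S, x * y = y * x) → ∀ x ∈ S, x = 1 ∨ x = z := by
    intro S h1 h2 h3 h4 h5 x hx
    by_contra hc
    push Not at hc
    exact hA ⟨S, h1, h2, h3, h4, h5, x, hx, hc.1, hc.2⟩
  -- centres of invariant subgroups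
  have hcenS : ∀ S : Subgroup X, S ≤ R → z ∈ S → K ≤ normalizer (S : Set X) →
      T ≤ normalizer (S : Set X) → ∀ x ∈ S, (∀ y ∈ S, x * y = y * x) → x = 1 ∨ x = z := by
    intro S h1 h2 h3 h4 x hx hc
    have hZ := hA' (S ⊓ centralizer (S : Set X)) (inf_le_left.trans h1)
      (mem_inf.mpr ⟨h2, by
        rw [mem_centralizer_iff]
        intro y hy
        exact hsr.zc (h1 hy)⟩)
      (by
        rw [Subgroup.le_normalizer_iff]
        intro a ha r hr
        obtain ⟨h5, h6⟩ := mem_inf.mp hr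
        exact mem_inf.mpr ⟨Subgroup.le_normalizer_iff.mp h3 a ha r h5,
          Subgroup.le_normalizer_iff.mp (le_normalizer_centralizer h3) a ha r h6⟩)
      (by
        rw [Subgroup.le_normalizer_iff]
        intro a ha r hr
        obtain ⟨h5, h6⟩ := mem_inf.mp hr
        exact mem_inf.mpr ⟨Subgroup.le_normalizer_iff.mp h4 a ha r h5,
          Subgroup.le_normalizer_iff.mp (le_normalizer_centralizer h4) a ha r h6⟩)
      (fun a ha b hb => mem_centralizer_iff.mp (mem_inf.mp hb).2 a (mem_inf.mp ha).1)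
    refine hZ x (mem_inf.mpr ⟨hx, ?_⟩)
    rw [mem_centralizer_iff]
    intro y hy
    exact (hc y hy).symm
  -- Sub-instances
  have hSub : ∀ S : Subgroup X, S ≤ R → z ∈ S → K ≤ normalizer (S : Set X) →
      T ≤ normalizer (S : Set X) → Sym S K T z := by
    intro S h1 h2 h3 h4
    refine
      { pR := hS.pR.to_le h1
        pT := hS.pT
        oK := hS.oK
        sK := hS.sK
        zR := h2
        z1 := hS.z1
        z2 := hS.z2
        KR := h3
        TR := h4
        TK := hS.TK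
        disj := ?_
        zK := hS.zK
        zT := hS.zT
        comm := fun x hx y hy => hS.comm x (h1 hx) y (h1 hy)
        cen := hcenS S h1 h2 h3 h4
        fix := fun x hx h => hS.fix x (h1 hx) h }
    rw [eq_bot_iff, ← hS.disj]
    exact inf_le_inf_right T h1
  -- Case B: an orthogonal decomposition
  by_cases hB : ∃ S : Subgroup X, S ≤ R ∧ z ∈ S ∧ K ≤ normalizer (S : Set X) ∧
      T ≤ normalizer (S : Set X) ∧ S ≠ R ∧ ∃ x ∈ S, x ≠ 1 ∧ x ≠ z
  · obtain ⟨S, h1, h2, h3, h4, h5, x₀, hx₀, hx₀1, hx₀z⟩ := hB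
    set R₂ : Subgroup X := R ⊓ centralizer (S : Set X) with hR₂
    have hR₂R : R₂ ≤ R := inf_le_left
    have hzR₂ : z ∈ R₂ := mem_inf.mpr ⟨hS.zR, by
      rw [mem_centralizer_iff]
      intro y hy
      exact hsr.zc (h1 hy)⟩
    have hKR₂ : K ≤ normalizer (R₂ : Set X) := by
      rw [Subgroup.le_normalizer_iff]
      intro a ha r hr
      obtain ⟨h6, h7⟩ := mem_inf.mp hr
      exact mem_inf.mpr ⟨Subgroup.le_normalizer_iff.mp hS.KR a ha r h6,
        Subgroup.le_normalizer_iff.mp (le_normalizer_centralizer h3) a ha r h7⟩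
    have hTR₂ : T ≤ normalizer (R₂ : Set X) := by
      rw [Subgroup.le_normalizer_iff]
      intro a ha r hr
      obtain ⟨h6, h7⟩ := mem_inf.mp hr
      exact mem_inf.mpr ⟨Subgroup.le_normalizer_iff.mp hS.TR a ha r h6,
        Subgroup.le_normalizer_iff.mp (le_normalizer_centralizer h4) a ha r h7⟩
    have hcomm : ∀ x ∈ S, ∀ y ∈ R₂, x * y = y * x := fun x hx y hy =>
      mem_centralizer_iff.mp (mem_inf.mp hy).2 x hx
    have hint : ∀ x ∈ S, x ∈ R₂ → x = 1 ∨ x = z := fun x hx hx₂ =>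
      hcenS S h1 h2 h3 h4 x hx (fun y hy => (hcomm y hy x hx₂).symm)
    have hR₂ne : R₂ ≠ R := by
      intro he
      rcases hS.cen x₀ (h1 hx₀) (fun y hy => hcomm x₀ hx₀ y (he ▸ hy)) with h | h
      · exact hx₀1 h
      · exact hx₀z h
    have hlt1 : Nat.card S < Nat.card R :=
      Cfsg.Agent.Lib.PGroups.Basic.card_lt_of_lt (lt_of_le_of_ne h1 h5)
    have hlt2 : Nat.card R₂ < Nat.card R :=
      Cfsg.Agent.Lib.PGroups.Basic.card_lt_of_lt (lt_of_le_of_ne hR₂R hR₂ne)
    obtain ⟨f₁, hf₁, hz₁, hd₁⟩ := IH X S K T z (hSub S h1 h2 h3 h4) (by omega)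
    obtain ⟨f₂, hf₂, hz₂, hd₂⟩ := IH X R₂ K T z (hSub R₂ hR₂R hzR₂ hKR₂ hTR₂) (by omega)
    have hcard := hsr.card_mul_card_perp h1 h2
    have hsup : S ⊔ R₂ = R := by
      have h6 := Cfsg.Agent.Lib.QuadAct.Basic.card_sup_mul_card_inf_of_le_normalizer S R₂ (by
        rw [Subgroup.le_normalizer_iff]
        intro a ha k hk
        rw [hcomm a ha k hk]
        simpa using hk)
      have h7 : Nat.card (S ⊓ R₂ : Subgroup X) = 2 := by
        have : Nat.card (S ⊓ R₂ : Subgroup X) = Nat.card (({1, z} : Finset X) : Set X) := by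
          apply Nat.card_congr
          apply Equiv.setCongr
          ext x
          simp only [SetLike.mem_coe, Finset.coe_insert, Finset.coe_singleton, Set.mem_insert_iff,
            Set.mem_singleton_iff]
          constructor
          · intro hx
            exact hint x hx.1 hx.2
          · rintro (h | h)
            · rw [h]; exact Subgroup.one_mem _
            · rw [h]; exact ⟨h2, hzR₂⟩
        rw [this, Nat.card_coe_set_eq, Set.ncard_coe_finset, Finset.card_pair]
        exact hS.z1.symm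
      rw [h7, hcard] at h6
      have h8 : Nat.card (S ⊔ R₂ : Subgroup X) = Nat.card R := by omega
      exact Subgroup.eq_of_le_of_card_ge (sup_le h1 hR₂R) h8.ge
    have hdisj' : (S ⊔ R₂) ⊓ T = ⊥ := by rw [hsup]; exact hS.disj
    obtain ⟨f, hf, hfv⟩ := tensor h4 hTR₂ hcomm hint hdisj' hS.z2 hf₁ hf₂ hz₁ hz₂
    rw [hsup] at hf
    have hf1 : f 1 = f₁ 1 * f₂ 1 := by
      have := hfv 1 S.one_mem 1 R₂.one_mem 1 T.one_mem
      simpa using this
    have hfz : f z = f₁ z * f₂ 1 := by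
      have := hfv z h2 1 R₂.one_mem 1 T.one_mem
      simpa using this
    refine ⟨f, hf, ?_, ?_⟩
    · rw [hfz, hf1, hz₁]; ring
    · rw [hf1]
      have h6 : (Nat.card S : ℂ) * Nat.card R₂ = 2 * Nat.card R := by exact_mod_cast hcard
      rw [← hd₁, ← hd₂] at h6
      have h7 : (2 : ℂ) * (2 * (f₁ 1 * f₂ 1) ^ 2) = 2 * Nat.card R := by
        rw [← h6]; ring
      exact mul_left_cancel₀ two_ne_zero h7
  have hirr : ∀ S : Subgroup X, S ≤ R → z ∈ S → K ≤ normalizer (S : Set X) →
      T ≤ normalizer (S : Set X) → S = R ∨ ∀ x ∈ S, x = 1 ∨ x = z := by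
    intro S h1 h2 h3 h4
    by_cases h5 : S = R
    · left; exact h5
    · right
      intro x hx
      by_contra hc
      push Not at hc
      exact hB ⟨S, h1, h2, h3, h4, h5, x, hx, hc.1, hc.2⟩
  -- Case C: `R = ⟨z⟩`
  by_cases hC : ∃ x ∈ R, x ≠ 1 ∧ x ≠ z
  swap
  · have hC' : ∀ x ∈ R, x = 1 ∨ x = z := by
      intro x hx
      by_contra hc
      push Not at hc
      exact hC ⟨x, hx, hc.1, hc.2⟩
    refine ext_central hsr (T' := T) le_rfl hS.TR le_normalizer hS.disj hS.zT T.one_mem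
      (fun t ht => ⟨0, by simpa using ht⟩) (fun τ hτ x hx => ?_)
    rcases hC' x hx with h | h
    · simp [h]
    · rw [h]; exact hS.zT τ hτ
  -- Case D: reduce `K`
  by_cases hD : ∃ K₁ : Subgroup X, K₁ ≤ K ∧ K₁ ≠ K ∧ K ≤ normalizer (K₁ : Set X) ∧
      T ≤ normalizer (K₁ : Set X) ∧ ¬ (∀ k ∈ K₁, ∀ x ∈ R, k * x = x * k)
  · obtain ⟨K₁, h1, h2, h3, h4, h5⟩ := hD
    have hsK₁ : Group.IsSolvable K₁ := by
      have := hS.sK
      exact Group.isSolvable_of_isSolvable_injective (Subgroup.inclusion_injective h1)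
    have hSym : Sym R K₁ T z := by
      refine
        { pR := hS.pR
          pT := hS.pT
          oK := Odd.of_dvd_nat hS.oK (Subgroup.card_dvd_of_le h1)
          sK := hsK₁
          zR := hS.zR
          z1 := hS.z1
          z2 := hS.z2
          KR := h1.trans hS.KR
          TR := hS.TR
          TK := h4
          disj := hS.disj
          zK := fun k hk => hS.zK k (h1 hk)
          zT := hS.zT
          comm := hS.comm
          cen := hS.cen
          fix := ?_ }
      intro x hx hc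
      have h6 := hirr (R ⊓ centralizer (K₁ : Set X)) inf_le_left
        (mem_inf.mpr ⟨hS.zR, by
          rw [mem_centralizer_iff]
          intro k hk
          exact hS.zK k (h1 hk)⟩)
        (by
          rw [Subgroup.le_normalizer_iff]
          intro a ha r hr
          obtain ⟨h6, h7⟩ := mem_inf.mp hr
          exact mem_inf.mpr ⟨Subgroup.le_normalizer_iff.mp hS.KR a ha r h6,
            Subgroup.le_normalizer_iff.mp (le_normalizer_centralizer h3) a ha r h7⟩)
        (by
          rw [Subgroup.le_normalizer_iff]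
          intro a ha r hr
          obtain ⟨h6, h7⟩ := mem_inf.mp hr
          exact mem_inf.mpr ⟨Subgroup.le_normalizer_iff.mp hS.TR a ha r h6,
            Subgroup.le_normalizer_iff.mp (le_normalizer_centralizer h4) a ha r h7⟩)
      rcases h6 with h6 | h6
      · exfalso
        apply h5
        intro k hk y hy
        rw [← h6] at hy
        exact mem_centralizer_iff.mp (mem_inf.mp hy).2 k hk
      · exact h6 x (mem_inf.mpr ⟨hx, by
          rw [mem_centralizer_iff]
          intro k hk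
          exact hc k hk⟩)
    have hlt : Nat.card K₁ < Nat.card K :=
      Cfsg.Agent.Lib.PGroups.Basic.card_lt_of_lt (lt_of_le_of_ne h1 h2)
    exact IH X R K₁ T z hSym (by omega)
  have hD' : ∀ K₁ : Subgroup X, K₁ ≤ K → K₁ ≠ K → K ≤ normalizer (K₁ : Set X) →
      T ≤ normalizer (K₁ : Set X) → ∀ k ∈ K₁, ∀ x ∈ R, k * x = x * k := by
    intro K₁ h1 h2 h3 h4
    by_contra hc
    exact hD ⟨K₁, h1, h2, h3, h4, hc⟩
  -- the kernel
  set D : Subgroup X := K ⊓ centralizer (R : Set X) with hDdef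
  have hDK : D ≤ K := inf_le_left
  have hDR : ∀ d ∈ D, ∀ x ∈ R, d * x = x * d := fun d hd x hx =>
    (mem_centralizer_iff.mp (mem_inf.mp hd).2 x hx).symm
  have hTD : T ≤ normalizer (D : Set X) := by
    rw [Subgroup.le_normalizer_iff]
    intro a ha r hr
    obtain ⟨h6, h7⟩ := mem_inf.mp hr
    exact mem_inf.mpr ⟨Subgroup.le_normalizer_iff.mp hS.TK a ha r h6,
      Subgroup.le_normalizer_iff.mp (le_normalizer_centralizer hS.TR) a ha r h7⟩
  have hmemD : ∀ H : Subgroup X, H ≤ K → (∀ k ∈ H, ∀ x ∈ R, k * x = x * k) → H ≤ D := by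
    intro H h1 h2 k hk
    refine mem_inf.mpr ⟨h1 hk, ?_⟩
    rw [mem_centralizer_iff]
    intro x hx
    exact (h2 k hk x hx).symm
  obtain ⟨x₀, hx₀, hx₀1, hx₀z⟩ := hC
  have hDne : D ≠ K := by
    intro he
    have : ∀ k ∈ K, k * x₀ = x₀ * k := fun k hk => hDR k (he ▸ hk) x₀ hx₀
    rcases hS.fix x₀ hx₀ this with h | h
    · exact hx₀1 h
    · exact hx₀z h
  have hcom : ⁅K, K⁆ ≤ D := by
    apply hmemD _ (Subgroup.commutator_le_self K)
    refine hD' _ (Subgroup.commutator_le_self K) ?_ ?_ ?_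
    · intro he
      have hsK := hS.sK
      have hnt : Nontrivial K := by
        obtain ⟨k, hk, hkD⟩ : ∃ k ∈ K, k ∉ D := by
          by_contra hc
          push Not at hc
          exact hDne (le_antisymm hDK hc)
        refine ⟨⟨⟨k, hk⟩, 1, fun h => hkD ?_⟩⟩
        have : k = 1 := congrArg Subtype.val h
        rw [this]
        exact D.one_mem
      have hlt := Group.IsSolvable.commutator_lt_top_of_nontrivial (↥K)
      have h1 := Subgroup.map_subtype_commutator K
      rw [he] at h1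
      have h2 : _root_.commutator K = ⊤ := by
        apply Subgroup.map_injective K.subtype_injective
        rw [h1, ← MonoidHom.range_eq_map, Subgroup.range_subtype]
      exact hlt.ne h2
    · exact le_normalizer_commutator_of_le le_normalizer le_normalizer
    · exact le_normalizer_commutator_of_le hS.TK hS.TK
  have hKnorm : ∀ H : Subgroup X, D ≤ H → H ≤ K → K ≤ normalizer (H : Set X) := fun H h1 h2 =>
    le_normalizer_of_commutator_le h2 (hcom.trans h1)
  -- the family
  let F : Set (Subgroup X) := {H | D ≤ H ∧ H ≤ K ∧ ∃ x ∈ R ⊓ centralizer (H : Set X), x ≠ 1 ∧ x ≠ z}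
  have hDF : D ∈ F := by
    refine ⟨le_rfl, hDK, x₀, mem_inf.mpr ⟨hx₀, ?_⟩, hx₀1, hx₀z⟩
    rw [mem_centralizer_iff]
    intro d hd
    exact hDR d hd x₀ hx₀
  obtain ⟨K₂, hDK₂, hK₂max⟩ := (Set.toFinite F).exists_le_maximal hDF
  have hK₂F : K₂ ∈ F := hK₂max.prop
  have hK₂K : K₂ ≤ K := hK₂F.2.1
  have hmax : ∀ H : Subgroup X, K₂ ≤ H → H ≤ K → H ≠ K₂ → ∀ x ∈ R ⊓ centralizer (H : Set X),
      x = 1 ∨ x = z := by
    intro H h1 h2 h3 x hx
    by_contra hc
    push Not at hc
    have hHF : H ∈ F := ⟨hDK₂.trans h1, h2, x, hx, hc.1, hc.2⟩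
    exact h3 (le_antisymm (hK₂max.le_of_ge hHF h1) h1)
  by_cases hTK₂ : T ≤ normalizer (K₂ : Set X)
  · have hK₂ne : K₂ ≠ K := by
      intro he
      obtain ⟨x, hx, hx1, hxz⟩ := hK₂F.2.2
      rw [he] at hx
      rcases hS.fix x (mem_inf.mp hx).1 (fun k hk => mem_centralizer_iff.mp (mem_inf.mp hx).2 k hk) with h | h
      · exact hx1 h
      · exact hxz h
    have hK₂D : K₂ = D := le_antisymm
      (hmemD K₂ hK₂K (hD' K₂ hK₂K hK₂ne (hKnorm K₂ hDK₂ hK₂K) hTK₂)) hDK₂
    refine case1 hS hDK hDR hTD hcom hDne ?_ ?_ ⟨x₀, hx₀, hx₀1, hx₀z⟩ hirr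
    · intro H h1 h2 h3 h4
      exact hmemD H h2 (hD' H h2 h4 (hKnorm H h1 h2) h3)
    · intro a ha haD x hx hax
      set H : Subgroup X := K₂ ⊔ zpowers a with hH
      have hHK : H ≤ K := sup_le hK₂K (by rw [zpowers_le]; exact ha)
      have hHne : H ≠ K₂ := by
        intro he
        apply haD
        rw [← hK₂D, ← he]
        exact Subgroup.mem_sup_right (mem_zpowers a)
      refine hmax H le_sup_left hHK hHne x (mem_inf.mpr ⟨hx, ?_⟩)
      have hle : H ≤ centralizer ({x} : Set X) := by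
        apply sup_le
        · intro k hk
          rw [mem_centralizer_iff]
          intro b hb
          rw [Set.mem_singleton_iff.mp hb]
          rw [hK₂D] at hk
          exact (hDR k hk x hx).symm
        · rw [zpowers_le, mem_centralizer_iff]
          intro b hb
          rw [Set.mem_singleton_iff.mp hb]
          exact hax.symm
      rw [mem_centralizer_iff]
      intro h hh
      exact (mem_centralizer_iff.mp (hle hh) x rfl).symm
  · exact case2 hS hK₂K (hKnorm K₂ hDK₂ hK₂K) hmax hK₂F.2.2 hTK₂ ⟨x₀, hx₀, hx₀1, hx₀z⟩ hirr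
      (fun R' T' h hlt => IH X R' K T' z h (by omega))

theorem ext_of_sym {X : Type u} [Group X] [Finite X] {R K T : Subgroup X} {z : X}
    (hS : Sym R K T z) : Ext R T z :=
  core _ X R K T z hS rfl

end Cfsg.Agent.Lib.DadeE.Main
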