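import Cfsg.Agent.Lib.DadeE.Steps
import Cfsg.Agent.Lib.Coprime.Ext

/-!
# The section step: an abelian invariant subgroup bigger than `⟨z⟩`
-/

set_option autoImplicit false

namespace Cfsg.Agent.Lib.DadeE.Sect

open Subgroup Cfsg Module
open Cfsg.Agent.Lib.DadeE.Basic Cfsg.Agent.Lib.DadeE.Chr
open Cfsg.Agent.Lib.Coprime.Action Cfsg.Agent.Lib.Coprime.SecQuot
open Cfsg.Agent.Lib.Coprime.SchurZassenhaus Cfsg.Agent.Lib.Coprime.Abelian
open Cfsg.Agent.Lib.Coprime.Ext

universe u

variable {X : Type u} [Group X]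

theorem coprime_of_odd [Finite X] {K V : Subgroup X} (hK : Odd (Nat.card K)) (hV : IsPGroup 2 V) :
    (Nat.card K).Coprime (Nat.card V) := by
  obtain ⟨n, hn⟩ := IsPGroup.iff_card.mp hV
  rw [hn]
  exact Nat.Coprime.pow_right n (Nat.coprime_two_right.mpr hK)

theorem perp_perp [Finite X] {R S : Subgroup X} {z : X} (hs : SymR R z) (hSR : S ≤ R) (hzS : z ∈ S) :
    R ⊓ centralizer (((R ⊓ centralizer (S : Set X) : Subgroup X) : Set X)) = S := by
  have hzP : z ∈ (R ⊓ centralizer (S : Set X) : Subgroup X) := by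
    refine mem_inf.mpr ⟨hs.zR, ?_⟩
    rw [mem_centralizer_iff]
    intro b hb
    exact hs.zc (hSR hb)
  have h1 := hs.card_mul_card_perp hSR hzS
  have h2 := hs.card_mul_card_perp (inf_le_left : (R ⊓ centralizer (S : Set X) : Subgroup X) ≤ R) hzP
  have hle : S ≤ R ⊓ centralizer (((R ⊓ centralizer (S : Set X) : Subgroup X) : Set X)) := by
    intro s hs'
    refine mem_inf.mpr ⟨hSR hs', ?_⟩
    rw [mem_centralizer_iff]
    intro b hb
    exact (mem_centralizer_iff.mp (mem_inf.mp hb).2 s hs').symm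
  have hpos : 0 < Nat.card (R ⊓ centralizer (S : Set X) : Subgroup X) := Nat.card_pos
  have hc : Nat.card S =
      Nat.card (R ⊓ centralizer (((R ⊓ centralizer (S : Set X) : Subgroup X) : Set X)) : Subgroup X) := by
    apply Nat.eq_of_mul_eq_mul_right hpos
    rw [h1, ← h2, mul_comm]
  exact (Subgroup.eq_of_le_of_card_ge hle hc.ge).symm

theorem ext_section [Finite X] {R K T : Subgroup X} {z : X} (hS : Sym R K T z) {S : Subgroup X}
    (hSR : S ≤ R) (hzS : z ∈ S) (hKS : K ≤ normalizer (S : Set X)) (hTS : T ≤ normalizer (S : Set X))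
    (habel : ∀ x ∈ S, ∀ y ∈ S, x * y = y * x) (hne : ∃ x ∈ S, x ≠ 1 ∧ x ≠ z)
    (IH : ∀ (X' : Type u) [Group X'] [Finite X'] (R' K' T' : Subgroup X') (z' : X'),
      Sym R' K' T' z' → Nat.card R' + Nat.card K' < Nat.card R + Nat.card K → Ext R' T' z') :
    Ext R T z := by
  classical
  have hsr := hS.symR
  haveI : IsMulCommutative S := ⟨⟨fun a b => Subtype.ext (habel _ a.2 _ b.2)⟩⟩
  have hcopS : (Nat.card K).Coprime (Nat.card S) := coprime_of_odd hS.oK (hS.pR.to_le hSR)
  set N : Subgroup X := ⁅S, K⁆ with hN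
  have hNS : N ≤ S := commutator_le_of_le_normalizer hKS
  have hfix0 : ∀ x ∈ S ⊓ centralizer (K : Set X), x = 1 ∨ x = z := by
    intro x hx
    obtain ⟨h1, h2⟩ := mem_inf.mp hx
    refine hS.fix x (hSR h1) ?_
    intro k hk
    exact (mem_centralizer_iff.mp h2 k hk)
  have hzC : z ∈ S ⊓ centralizer (K : Set X) := by
    refine mem_inf.mpr ⟨hzS, ?_⟩
    rw [mem_centralizer_iff]
    intro k hk
    exact hS.zK k hk
  have hbot := inf_commutator_eq_bot hKS hcopS
  have hsup := fixed_sup_commutator hKS hcopS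
  have hzN : z ∉ N := by
    intro h
    have : z ∈ (S ⊓ centralizer (K : Set X)) ⊓ ⁅S, K⁆ := mem_inf.mpr ⟨hzC, h⟩
    rw [hbot] at this
    exact hS.z1 (mem_bot.mp this)
  have hSabelN : (S ⊓ centralizer (K : Set X)) ≤ normalizer (N : Set X) := by
    rw [Subgroup.le_normalizer_iff]
    intro a ha k hk
    rw [habel a (mem_inf.mp ha).1 k (hNS hk)]
    simpa using hk
  have hdec : ∀ s ∈ S, s ∈ N ∨ z * s ∈ N := by
    intro s hs
    rw [← hsup, sup_comm] at hs
    obtain ⟨n, hn, c, hc, rfl⟩ := exists_mul_of_mem_sup hSabelN hs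
    rcases hfix0 c hc with h | h
    · left; rw [h, mul_one]; exact hn
    · right
      rw [h]
      have e : z * (n * z) = n := by
        rw [← mul_assoc, ← habel n (hNS hn) z hzS, mul_assoc, hS.z2, mul_one]
      rw [e]
      exact hn
  have hNbot : N ≠ ⊥ := by
    obtain ⟨x, hx, hx1, hxz⟩ := hne
    intro h
    rcases hdec x hx with h1 | h1
    · rw [h] at h1
      exact hx1 (mem_bot.mp h1)
    · rw [h] at h1
      have h2 := mem_bot.mp h1
      apply hxz
      have h3 : z⁻¹ = z := hsr.zinv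
      calc x = z⁻¹ * (z * x) := by group
        _ = z := by rw [h2, h3, mul_one]
  have hNK : K ≤ normalizer (N : Set X) := le_normalizer_commutator_of_le hKS le_normalizer
  have hNT : T ≤ normalizer (N : Set X) := le_normalizer_commutator_of_le hTS hS.TK
  -- the perp of `S`
  set R' : Subgroup X := R ⊓ centralizer (S : Set X) with hR'
  have hSR' : S ≤ R' := by
    intro s hs
    refine mem_inf.mpr ⟨hSR hs, ?_⟩
    rw [mem_centralizer_iff]
    intro b hb
    exact habel b hb s hs
  have hNR' : N ≤ R' := hNS.trans hSR'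
  have hR'N : R' ≤ normalizer (N : Set X) := by
    rw [Subgroup.le_normalizer_iff]
    intro a ha k hk
    have := mem_centralizer_iff.mp (mem_inf.mp ha).2 k (hNS hk)
    rw [← this]
    simpa using hk
  have hKR' : K ≤ normalizer (R' : Set X) := by
    rw [Subgroup.le_normalizer_iff]
    intro a ha r hr
    obtain ⟨h1, h2⟩ := mem_inf.mp hr
    refine mem_inf.mpr ⟨Subgroup.le_normalizer_iff.mp hS.KR a ha r h1, ?_⟩
    exact Subgroup.le_normalizer_iff.mp (le_normalizer_centralizer hKS) a ha r h2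
  have hTR' : T ≤ normalizer (R' : Set X) := by
    rw [Subgroup.le_normalizer_iff]
    intro a ha r hr
    obtain ⟨h1, h2⟩ := mem_inf.mp hr
    refine mem_inf.mpr ⟨Subgroup.le_normalizer_iff.mp hS.TR a ha r h1, ?_⟩
    exact Subgroup.le_normalizer_iff.mp (le_normalizer_centralizer hTS) a ha r h2
  have hpR' : IsPGroup 2 R' := hS.pR.to_le inf_le_left
  have hcopR' : (Nat.card K).Coprime (Nat.card R') := coprime_of_odd hS.oK hpR'
  have hzNN : z ∈ NN N := by
    exact hR'N (hSR' hzS)
  let zz : Sec N := proj N ⟨z, hzNN⟩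
  have hzz1 : zz ≠ 1 := by
    intro h
    exact hzN ((proj_eq_one_iff N _).mp h)
  have hproj_z : ∀ x : NN N, (x : X) = z → proj N x = zz := by
    intro x hx
    congr 1
    exact Subtype.ext hx
  have hSym : Sym (lift N R') (lift N K) (lift N T) zz := by
    refine
      { pR := isPGroup_lift hR'N hpR'
        pT := isPGroup_lift hNT hS.pT
        oK := Odd.of_dvd_nat hS.oK (card_lift_dvd K hNK)
        sK := by
          have := hS.sK
          exact Group.isSolvable_of_surjective (liftHom_surjective K hNK)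
        zR := proj_mem_lift (hSR' hzS)
        z1 := hzz1
        z2 := ?_
        KR := lift_le_normalizer hKR'
        TR := lift_le_normalizer hTR'
        TK := lift_le_normalizer hS.TK
        disj := ?_
        zK := ?_
        zT := ?_
        comm := ?_
        cen := ?_
        fix := ?_ }
    · rw [← map_mul]
      have : (⟨z, hzNN⟩ : NN N) * ⟨z, hzNN⟩ = 1 := Subtype.ext hS.z2
      rw [this, map_one]
    · rw [eq_bot_iff]
      intro y hy
      obtain ⟨hy1, hy2⟩ := mem_inf.mp hy
      obtain ⟨x, hx, rfl⟩ := exists_of_mem_lift hy1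
      obtain ⟨t, ht, hxt⟩ := exists_of_mem_lift hy2
      have h1 : proj N (t⁻¹ * x) = 1 := by
        rw [map_mul, map_inv, hxt, inv_mul_cancel]
      have h2 : ((t⁻¹ * x : NN N) : X) ∈ N := (proj_eq_one_iff N _).mp h1
      have h3 : (t : X) ∈ R := by
        have h4 : (t : X) = (x : X) * ((t⁻¹ * x : NN N) : X)⁻¹ := by
          simp
        rw [h4]
        exact R.mul_mem (inf_le_left (a := R) hx) (R.inv_mem (hSR (hNS h2)))
      have h5 : (t : X) ∈ R ⊓ T := mem_inf.mpr ⟨h3, ht⟩
      rw [hS.disj] at h5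
      have h6 : t = 1 := Subtype.ext (mem_bot.mp h5)
      rw [mem_bot, ← hxt, h6, map_one]
    · intro k hk
      obtain ⟨x, hx, rfl⟩ := exists_of_mem_lift hk
      simp only [zz]
      rw [← map_mul, ← map_mul]
      congr 1
      exact Subtype.ext (hS.zK _ hx)
    · intro k hk
      obtain ⟨x, hx, rfl⟩ := exists_of_mem_lift hk
      simp only [zz]
      rw [← map_mul, ← map_mul]
      congr 1
      exact Subtype.ext (hS.zT _ hx)
    · intro a ha b hb
      obtain ⟨x, hx, rfl⟩ := exists_of_mem_lift ha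
      obtain ⟨y, hy, rfl⟩ := exists_of_mem_lift hb
      rcases hS.comm _ (inf_le_left (a := R) hx) _ (inf_le_left (a := R) hy) with h | h
      · left
        rw [← map_mul, ← map_mul]
        congr 1
        exact Subtype.ext h
      · right
        simp only [zz]
        rw [← map_mul, ← map_mul, ← map_mul]
        congr 1
        exact Subtype.ext h
    · intro a ha hc
      obtain ⟨x, hx, rfl⟩ := exists_of_mem_lift ha
      have hxc : ∀ y ∈ R', (x : X) * y = y * x := by
        intro y hy
        have h1 := hc _ (proj_mem_lift (x := ⟨y, hR'N hy⟩) hy)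
        rw [← map_mul, ← map_mul] at h1
        rcases hS.comm _ (inf_le_left (a := R) hx) _ (inf_le_left (a := R) hy) with h | h
        · exact h
        · exfalso
          apply hzz1
          have h2 : (x * ⟨y, hR'N hy⟩ : NN N) = ⟨z, hzNN⟩ * (⟨y, hR'N hy⟩ * x) := Subtype.ext h
          rw [h2, map_mul] at h1
          exact mul_eq_right.mp h1
      have hxS : (x : X) ∈ S := by
        have := perp_perp hsr hSR hzS
        rw [← this]
        refine mem_inf.mpr ⟨inf_le_left (a := R) hx, ?_⟩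
        rw [mem_centralizer_iff]
        intro y hy
        exact (hxc y hy).symm
      rcases hdec x hxS with h | h
      · left
        exact (proj_eq_one_iff N _).mpr h
      · right
        have h1 : ((⟨z, hzNN⟩ * x : NN N) : X) ∈ N := h
        have h2 := (proj_eq_one_iff N _).mpr h1
        rw [map_mul] at h2
        have h3 : zz * zz = 1 := by
          rw [← map_mul]
          have : (⟨z, hzNN⟩ : NN N) * ⟨z, hzNN⟩ = 1 := Subtype.ext hS.z2
          rw [this, map_one]
        have h4 : zz⁻¹ = zz := inv_eq_of_mul_eq_one_left h3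
        have h5 := eq_inv_of_mul_eq_one_right h2
        rw [h5]
        exact h4
    · intro a ha hc
      obtain ⟨x, hx, rfl⟩ := exists_of_mem_lift ha
      have hxR := inf_le_left (a := R) hx
      have hfixmod : ∀ k ∈ K, k * x * k⁻¹ * (x : X)⁻¹ ∈ N := by
        intro k hk
        have h1 := hc _ (proj_mem_lift (x := ⟨k, hNK hk⟩) hk)
        rw [← map_mul, ← map_mul] at h1
        have h2 : (proj N) ((⟨k, hNK hk⟩ * x) * (x * ⟨k, hNK hk⟩)⁻¹) = 1 := by
          rw [map_mul, map_inv, h1, mul_inv_cancel]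
        have h3 := (proj_eq_one_iff N _).mp h2
        have h4 : (((⟨k, hNK hk⟩ * x) * (x * ⟨k, hNK hk⟩)⁻¹ : NN N) : X) = k * x * k⁻¹ * (x : X)⁻¹ := by
          simp [mul_assoc]
        rwa [h4] at h3
      obtain ⟨c, hc1, hc2⟩ := exists_fixed_of_fixed_mod N hKR' hcopR' (Or.inl hS.sK) hNR' hR'N hNK hx hfixmod
      obtain ⟨hcR, hcC⟩ := mem_inf.mp hc1
      have hcfix := hS.fix c (inf_le_left (a := R) hcR) (fun k hk => mem_centralizer_iff.mp hcC k hk)
      have h1 : proj N x = proj N ⟨c, hR'N hcR⟩ := by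
        have : proj N (x⁻¹ * ⟨c, hR'N hcR⟩) = 1 := (proj_eq_one_iff N _).mpr (by simpa using hc2)
        rw [map_mul, map_inv] at this
        exact (inv_mul_eq_one.mp this)
      rcases hcfix with h | h
      · left
        rw [h1]
        have : (⟨c, hR'N hcR⟩ : NN N) = 1 := Subtype.ext h
        rw [this, map_one]
      · right
        rw [h1]
        congr 1
        exact Subtype.ext h
  have hlt : Nat.card (lift N R') + Nat.card (lift N K) < Nat.card R + Nat.card K := by
    have h1 := card_lift_lt hR'N hNR' hNbot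
    have h2 : Nat.card R' ≤ Nat.card R := Subgroup.card_le_of_le inf_le_left
    have h3 : Nat.card (lift N K) ≤ Nat.card K := Nat.le_of_dvd Nat.card_pos (card_lift_dvd K hNK)
    omega
  obtain ⟨f'', hf'', hfz'', hfd''⟩ := IH _ _ _ _ _ hSym hlt
  -- cardinalities
  have hcN : Nat.card (lift N R') * Nat.card N = Nat.card R' := by
    have := card_lift_mul R' hR'N
    rwa [inf_eq_right.mpr hNR'] at this
  have hSN : Nat.card S = 2 * Nat.card N := by
    have h1 := Cfsg.Agent.Lib.QuadAct.Basic.card_sup_mul_card_inf_of_le_normalizer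
      (S ⊓ centralizer (K : Set X)) N hSabelN
    rw [hsup, hbot] at h1
    have h2 : Nat.card (S ⊓ centralizer (K : Set X) : Subgroup X) = 2 := by
      have : Nat.card (S ⊓ centralizer (K : Set X) : Subgroup X) = Nat.card (({1, z} : Finset X) : Set X) := by
        apply Nat.card_congr
        apply Equiv.setCongr
        ext x
        simp only [SetLike.mem_coe, Finset.coe_insert, Finset.coe_singleton, Set.mem_insert_iff,
          Set.mem_singleton_iff]
        constructor
        · exact hfix0 x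
        · rintro (h | h)
          · rw [h]; exact Subgroup.one_mem _
          · rw [h]; exact hzC
      rw [this, Nat.card_coe_set_eq, Set.ncard_coe_finset, Finset.card_pair]
      exact hS.z1.symm
    rw [h2] at h1
    simp only [Subgroup.card_bot, mul_one] at h1
    exact h1
  have hRN : Nat.card N * Nat.card R' = Nat.card R := by
    have h1 := hsr.card_mul_card_perp hSR hzS
    rw [hSN] at h1
    have h2 : 2 * (Nat.card N * Nat.card R') = 2 * Nat.card R := by rw [← h1]; ring
    exact Nat.eq_of_mul_eq_mul_left (by norm_num) h2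
  -- the pull back
  set Y : Subgroup X := R' ⊔ T with hY
  have hYNN : Y ≤ NN N := sup_le hR'N hNT
  have hYle : Y ≤ R ⊔ T := sup_le_sup_right inf_le_left T
  let Γ := ↥(R ⊔ T)
  have := Fintype.ofFinite Γ
  let H : Subgroup Γ := Y.subgroupOf (R ⊔ T)
  have hmemH : ∀ h : H, ((h : Γ) : X) ∈ Y := fun h => mem_subgroupOf.mp h.2
  have hliftY : ∀ h : H, proj N ⟨((h : Γ) : X), hYNN (hmemH h)⟩ ∈ lift N R' ⊔ lift N T := by
    intro h
    rw [lift_sup hR'N hNT]
    exact proj_mem_lift (hmemH h)
  let pr : H →* ↥(lift N R' ⊔ lift N T) :=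
    { toFun := fun h => ⟨proj N ⟨((h : Γ) : X), hYNN (hmemH h)⟩, hliftY h⟩
      map_one' := by
        apply Subtype.ext
        have : (⟨((1 : H) : Γ).1, hYNN (hmemH 1)⟩ : NN N) = 1 := rfl
        simp only [this, map_one]
        rfl
      map_mul' := fun a b => by
        apply Subtype.ext
        have : (⟨((a * b : H) : Γ).1, hYNN (hmemH (a * b))⟩ : NN N) =
          ⟨((a : Γ) : X), hYNN (hmemH a)⟩ * ⟨((b : Γ) : X), hYNN (hmemH b)⟩ := rfl
        simp only [this, map_mul]
        rfl }
  let θ : H → ℂ := fun h => f'' (pr h)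
  have hθ : IsCharacter H θ := Cfsg.Agent.Lib.Char.Basic.isCharacter_comp pr hf''
  have hind : IsCharacter Γ (indFun H θ) := Cfsg.Agent.Lib.Char.IndRep.isCharacter_indFun H hθ
  have hzΓ : z ∈ R ⊔ T := Subgroup.mem_sup_left hS.zR
  have hzY : z ∈ Y := Subgroup.mem_sup_left (hSR' hzS)
  have hθ1 : θ 1 = f'' 1 := by
    change f'' ((pr 1 : ↥(lift N R' ⊔ lift N T)) : Sec N) = _
    rw [map_one]
    rfl
  have hθz : θ ⟨⟨z, hzΓ⟩, mem_subgroupOf.mpr hzY⟩ = f'' zz := rfl
  have hzcen : ∀ x : Γ, x⁻¹ * ⟨z, hzΓ⟩ * x = ⟨z, hzΓ⟩ := by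
    intro x
    have hcomm : ((⟨z, hzΓ⟩ : Γ) * x) = x * ⟨z, hzΓ⟩ := by
      have : (x : X) ∈ centralizer ({z} : Set X) := by
        have hle : R ⊔ T ≤ centralizer ({z} : Set X) := by
          apply sup_le
          · intro r hr
            rw [mem_centralizer_iff]
            intro s hs
            rw [Set.mem_singleton_iff.mp hs]
            exact (hsr.zc hr).symm
          · intro r hr
            rw [mem_centralizer_iff]
            intro s hs
            rw [Set.mem_singleton_iff.mp hs]
            exact (hS.zT r hr).symm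
        exact hle x.2
      exact Subtype.ext (mem_centralizer_iff.mp this z rfl)
    rw [mul_assoc, hcomm, ← mul_assoc, inv_mul_cancel, one_mul]
  have hind1 : indFun H θ 1 = (H.index : ℂ) * f'' 1 := by
    rw [Cfsg.Agent.Lib.Char.Induced.indFun_one, hθ1]
  have hindz : indFun H θ ⟨z, hzΓ⟩ = - indFun H θ 1 := by
    have h1 : indFun H θ ⟨z, hzΓ⟩ = (Nat.card H : ℂ)⁻¹ * ∑ x : Γ, θ ⟨⟨z, hzΓ⟩, mem_subgroupOf.mpr hzY⟩ := by
      rw [Cfsg.Agent.Lib.Char.Induced.indFun_apply]
      congr 1
      refine Finset.sum_congr rfl fun x _ => ?_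
      rw [hzcen x]
      exact Cfsg.Agent.Lib.Char.Induced.extendByZero_coe H θ ⟨⟨z, hzΓ⟩, mem_subgroupOf.mpr hzY⟩
    have h2 : indFun H θ 1 = (Nat.card H : ℂ)⁻¹ * ∑ x : Γ, θ 1 := by
      rw [Cfsg.Agent.Lib.Char.Induced.indFun_apply]
      congr 1
      refine Finset.sum_congr rfl fun x _ => ?_
      have : x⁻¹ * 1 * x = ((1 : H) : Γ) := by rw [mul_one, inv_mul_cancel]; rfl
      rw [this]
      exact Cfsg.Agent.Lib.Char.Induced.extendByZero_coe H θ 1
    rw [h1, h2, hθz, hθ1, hfz'']
    simp [Finset.sum_const]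
  have hindex : H.index = Nat.card N := by
    have h1 : Nat.card R * Nat.card T = Nat.card (R ⊔ T : Subgroup X) :=
      card_sup_of_le_normalizer hS.TR hS.disj
    have hdisj' : R' ⊓ T = ⊥ := by
      rw [eq_bot_iff, ← hS.disj]
      exact inf_le_inf_right T inf_le_left
    have h2 : Nat.card R' * Nat.card T = Nat.card Y := card_sup_of_le_normalizer hTR' hdisj'
    have h3 : Nat.card H = Nat.card Y := card_subgroupOf_of_le hYle
    have h4 := Subgroup.card_mul_index H
    change Nat.card H * H.index = Nat.card (R ⊔ T : Subgroup X) at h4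
    rw [h3, ← h2, ← h1, ← hRN] at h4
    have hpos : 0 < Nat.card R' * Nat.card T := Nat.mul_pos Nat.card_pos Nat.card_pos
    have h5 : Nat.card R' * Nat.card T * H.index = Nat.card R' * Nat.card T * Nat.card N := by
      rw [h4]; ring
    exact Nat.eq_of_mul_eq_mul_left hpos h5
  refine ⟨extendByZero (R ⊔ T) (indFun H θ), chr_extend hind, ?_, ?_⟩
  · have h1 := Cfsg.Agent.Lib.Char.Induced.extendByZero_coe (R ⊔ T) (indFun H θ) ⟨z, hzΓ⟩
    have h2 := Cfsg.Agent.Lib.Char.Induced.extendByZero_coe (R ⊔ T) (indFun H θ) 1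
    change extendByZero (R ⊔ T) (indFun H θ) z = _ at h1
    simp only [OneMemClass.coe_one] at h2
    rw [h1, h2, hindz]
  · have h2 := Cfsg.Agent.Lib.Char.Induced.extendByZero_coe (R ⊔ T) (indFun H θ) 1
    simp only [OneMemClass.coe_one] at h2
    rw [h2, hind1, hindex]
    have h3 : ((Nat.card N : ℂ) * f'' 1) ^ 2 * 2 = (Nat.card N : ℂ) ^ 2 * (2 * (f'' 1) ^ 2) := by ring
    rw [mul_comm, h3, hfd'', ← hRN, ← hcN]
    push_cast
    ring

end Cfsg.Agent.Lib.DadeE.Sect
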