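import Cfsg.Agent.Lib.DadeE.Tensor

/-!
# The central and the wreath step
-/

set_option autoImplicit false

namespace Cfsg.Agent.Lib.DadeE.Steps

open Subgroup Cfsg Module
open Cfsg.Agent.Lib.DadeE.Basic Cfsg.Agent.Lib.DadeE.Chr Cfsg.Agent.Lib.DadeE.Tensor
open Cfsg.Agent.Lib.Coprime.Action

universe u

variable {X : Type u} [Group X]

/-- Irreducible characters: a central involution acts by `±1`. -/
theorem irr_neg {R : Subgroup X} {z : X} (hs : SymR R z) {χ : R → ℂ} (hχ : IsIrrCharacter R χ)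
    (hne : χ ⟨z, hs.zR⟩ ≠ χ 1) : χ ⟨z, hs.zR⟩ = - χ 1 := by
  obtain ⟨n, ρ, hρ, rfl⟩ := hχ
  have := hρ
  have hcen : (⟨z, hs.zR⟩ : R) ∈ Subgroup.center R := by
    rw [Subgroup.mem_center_iff]
    intro r
    apply Subtype.ext
    exact hs.zc r.2
  obtain ⟨ω, hω⟩ := Cfsg.Agent.Lib.Char.Central.center_acts_scalar ρ _ hcen
  have hnt := Cfsg.Agent.Lib.Char.Central.nontrivial_of_irreducible ρ
  obtain ⟨v, hv⟩ := exists_ne (0 : Fin n → ℂ)
  have hω2 : ω * ω = 1 := by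
    have h1 : ρ ((⟨z, hs.zR⟩ : R) * ⟨z, hs.zR⟩) = 1 := by
      have : (⟨z, hs.zR⟩ : R) * ⟨z, hs.zR⟩ = 1 := Subtype.ext hs.z2
      rw [this, map_one]
    rw [map_mul, hω] at h1
    have h2 := congrArg (fun A : Module.End ℂ (Fin n → ℂ) => A v) h1
    simp only [Module.End.mul_apply, LinearMap.smul_apply, Module.End.one_apply, smul_smul] at h2
    have h3 : (ω * ω - 1) • v = 0 := by
      rw [sub_smul, h2, one_smul, sub_self]
    exact sub_eq_zero.mp ((smul_eq_zero.mp h3).resolve_right hv)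
  have htr : ρ.character ⟨z, hs.zR⟩ = ω * ρ.character 1 := by
    change LinearMap.trace ℂ _ (ρ _) = ω * LinearMap.trace ℂ _ (ρ _)
    rw [hω, map_smul, map_one ρ, smul_eq_mul]
  have hω' : ω = 1 ∨ ω = -1 := by
    have : (ω - 1) * (ω + 1) = 0 := by linear_combination hω2
    rcases mul_eq_zero.mp this with h | h
    · left; exact sub_eq_zero.mp h
    · right; linear_combination h
  rcases hω' with h | h
  · exfalso
    apply hne
    rw [htr, h, one_mul]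
  · rw [htr, h]
    ring

/-- Irreducible characters with `χ(z) = -χ(1)`: the degree. -/
theorem irr_deg [Finite X] {R : Subgroup X} {z : X} (hs : SymR R z) {χ : R → ℂ}
    (hχ : IsIrrCharacter R χ) (hz : χ ⟨z, hs.zR⟩ = - χ 1) :
    2 * (χ 1) ^ 2 = (Nat.card R : ℂ) := by
  classical
  have := Fintype.ofFinite R
  have hχc : IsCharacter R χ := Cfsg.Agent.Lib.Char.Basic.isCharacter_of_isIrrCharacter hχ
  have hg1 : extendByZero R χ 1 = χ 1 := Cfsg.Agent.Lib.Char.Induced.extendByZero_coe R χ 1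
  have hgz : extendByZero R χ z = χ ⟨z, hs.zR⟩ :=
    Cfsg.Agent.Lib.Char.Induced.extendByZero_coe R χ ⟨z, hs.zR⟩
  have hc : Chr R (extendByZero R χ) := chr_extend hχc
  have hsum := sum_mul_conj hs hc le_rfl (by rw [hg1, hgz]; exact hz)
  have hin := Cfsg.Agent.Lib.Char.Ortho.classInner_self_of_isIrr hχ
  unfold classInner at hin
  have e : ∑ g : R, χ g * (starRingEnd ℂ) (χ g) = 2 * (χ 1) ^ 2 := by
    rw [← hg1, ← hsum]
    refine Finset.sum_congr rfl fun r _ => ?_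
    have h5 : extendByZero R χ (r : X) = χ r := Cfsg.Agent.Lib.Char.Induced.extendByZero_coe R χ r
    rw [h5]
  rw [e] at hin
  have hcard : (Nat.card R : ℂ) ≠ 0 := by exact_mod_cast Nat.card_pos.ne'
  field_simp at hin
  exact hin

/-- There is a character of `R` on which `z` acts by `-1`. -/
theorem exists_base [Finite X] {R : Subgroup X} {z : X} (hs : SymR R z) :
    ∃ g : X → ℂ, Chr R g ∧ g z = - g 1 ∧ 2 * (g 1) ^ 2 = (Nat.card R : ℂ) := by
  classical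
  have := Fintype.ofFinite R
  have hzne : (⟨z, hs.zR⟩ : R) ≠ 1 := fun h => hs.z1 (congrArg Subtype.val h)
  have : ∃ χ : IrrCharacter R, (χ : R → ℂ) ⟨z, hs.zR⟩ ≠ (χ : R → ℂ) 1 := by
    by_contra hc
    push Not at hc
    exact hzne (Cfsg.Agent.Lib.Char.Degree.eq_one_of_forall_irr hc)
  obtain ⟨⟨χ, hχ⟩, hne⟩ := this
  simp only at hne
  have hχc : IsCharacter R χ := Cfsg.Agent.Lib.Char.Basic.isCharacter_of_isIrrCharacter hχ
  have hg1 : extendByZero R χ 1 = χ 1 := Cfsg.Agent.Lib.Char.Induced.extendByZero_coe R χ 1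
  have hgz : extendByZero R χ z = χ ⟨z, hs.zR⟩ :=
    Cfsg.Agent.Lib.Char.Induced.extendByZero_coe R χ ⟨z, hs.zR⟩
  have hzneg := irr_neg hs hχ hne
  refine ⟨extendByZero R χ, chr_extend hχc, ?_, ?_⟩
  · rw [hg1, hgz]; exact hzneg
  · rw [hg1]; exact irr_deg hs hχ hzneg

/-- **The central step.** -/
theorem ext_central [Finite X] {R T T' : Subgroup X} {z : X} (hs : SymR R z) (hT'T : T' ≤ T)
    (hTR : T ≤ normalizer (R : Set X)) (hTT' : T ≤ normalizer (T' : Set X)) (hdisj : R ⊓ T = ⊥)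
    (hzT : ∀ t ∈ T, t * z = z * t) {c : X} (hc : c ∈ T) (hcyc : ∀ t ∈ T, ∃ i : ℤ, c ^ i * t ∈ T')
    (hcent : ∀ τ ∈ T', ∀ x ∈ R, τ * x = x * τ) : Ext R T z := by
  classical
  obtain ⟨g, hg, hgz, hgd⟩ := exists_base hs
  let M := R ⊔ T'
  have hmul : ∀ (e : R) (τ : T'), (e : X) * τ ∈ M := fun e τ => Subgroup.mul_mem_sup e.2 τ.2
  let π : ↥R × ↥T' →* ↥M :=
    { toFun := fun w => ⟨(w.1 : X) * w.2, hmul w.1 w.2⟩
      map_one' := by
        apply Subtype.ext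
        simp
      map_mul' := fun v w => by
        apply Subtype.ext
        change (v.1 : X) * w.1 * (v.2 * w.2) = (v.1 : X) * v.2 * (w.1 * w.2)
        have := hcent v.2 v.2.2 w.1 w.1.2
        calc (v.1 : X) * w.1 * (v.2 * w.2) = v.1 * ((w.1 : X) * v.2) * w.2 := by group
          _ = v.1 * ((v.2 : X) * w.1) * w.2 := by rw [this]
          _ = _ := by group }
  have hT'R : T' ≤ normalizer (R : Set X) := hT'T.trans hTR
  have hsurj : Function.Surjective π := by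
    rintro ⟨m, hm⟩
    obtain ⟨e, he, τ, hτ, rfl⟩ := exists_mul_of_mem_sup hT'R hm
    exact ⟨(⟨e, he⟩, ⟨τ, hτ⟩), Subtype.ext rfl⟩
  have hχ : IsCharacter (↥R × ↥T') (fun w => g (w.1 : X)) := by
    have := Cfsg.Agent.Lib.Char.Basic.isCharacter_comp (MonoidHom.fst ↥R ↥T') hg
    exact this
  have hker : ∀ k ∈ π.ker, g ((k.1 : X)) = g (((1 : ↥R × ↥T').1 : X)) := by
    rintro ⟨e, τ⟩ hk
    rw [MonoidHom.mem_ker] at hk
    have h1 : (e : X) * τ = 1 := congrArg Subtype.val hk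
    have hτ : (τ : X) ∈ R ⊓ T := by
      refine Subgroup.mem_inf.mpr ⟨?_, hT'T τ.2⟩
      have : (τ : X) = (e : X)⁻¹ := eq_inv_of_mul_eq_one_right h1
      rw [this]
      exact R.inv_mem e.2
    rw [hdisj] at hτ
    have hτ1 : (τ : X) = 1 := Subgroup.mem_bot.mp hτ
    rw [hτ1, mul_one] at h1
    change g (e : X) = g 1
    rw [h1]
  obtain ⟨φ, hφ, hφe⟩ := Cfsg.Agent.Lib.Char.Linear.isCharacter_descend π hsurj hχ hker
  let f := extendByZero M φ
  have hf : Chr M f := chr_extend hφ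
  have hfval : ∀ e ∈ R, ∀ τ ∈ T', f (e * τ) = g e := by
    intro e he τ hτ
    have h1 := Cfsg.Agent.Lib.Char.Induced.extendByZero_coe M φ ⟨e * τ, Subgroup.mul_mem_sup he hτ⟩
    have h2 := congrFun hφe (⟨e, he⟩, ⟨τ, hτ⟩)
    change f (e * τ) = _ at h1
    rw [h1]
    exact h2.symm
  have hf1 : f 1 = g 1 := by
    have := hfval 1 R.one_mem 1 T'.one_mem
    simpa using this
  have hfz : f z = g z := by
    have := hfval z hs.zR 1 T'.one_mem
    simpa using this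
  refine ext_of_cyc hs hT'T hTR hTT' hc hcyc hf ?_ ?_ ?_
  · rw [hf1, hfz, hgz]
  · rw [hf1]; exact hgd
  · intro m hm
    obtain ⟨e, he, τ, hτ, rfl⟩ := exists_mul_of_mem_sup hT'R hm
    have e1 : c * (e * τ) * c⁻¹ = (c * e * c⁻¹) * (c * τ * c⁻¹) := by group
    have he' : c * e * c⁻¹ ∈ R := Subgroup.le_normalizer_iff.mp hTR c hc e he
    rw [e1, hfval _ he' _ (Subgroup.le_normalizer_iff.mp hTT' c hc τ hτ), hfval e he τ hτ]
    by_cases h1 : e = 1
    · subst h1; simp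
    by_cases h2 : e = z
    · subst h2
      rw [hzT c hc]
      simp
    have h1' : c * e * c⁻¹ ≠ 1 := by
      intro h
      apply h1
      have : e = c⁻¹ * (c * e * c⁻¹) * c := by group
      rw [this, h]; group
    have h2' : c * e * c⁻¹ ≠ z := by
      intro h
      apply h2
      have e3 : e = c⁻¹ * (c * e * c⁻¹) * c := by group
      rw [e3, h]
      have : c * z = z * c := hzT c hc
      calc c⁻¹ * z * c = c⁻¹ * (z * c) := by group
        _ = c⁻¹ * (c * z) := by rw [this]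
        _ = z := by group
    rw [vanish_of_symR hs hg le_rfl hgz he' h1' h2', vanish_of_symR hs hg le_rfl hgz he h1 h2]

/-- **The wreath step.** -/
theorem ext_wreath [Finite X] {R R₁ T T' : Subgroup X} {z : X} (hs : SymR R z) {t₀ : X}
    (ht₀ : t₀ ∈ T) (hT'T : T' ≤ T) (hTR : T ≤ normalizer (R : Set X))
    (hTT' : T ≤ normalizer (T' : Set X)) (hT'R₁ : T' ≤ normalizer (R₁ : Set X))
    (hR : R₁ ⊔ R₁.map (MulAut.conj t₀).toMonoidHom = R)
    (hcomm : ∀ x ∈ R₁, ∀ y ∈ R₁.map (MulAut.conj t₀).toMonoidHom, x * y = y * x)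
    (hint : ∀ x ∈ R₁, x ∈ R₁.map (MulAut.conj t₀).toMonoidHom → x = 1 ∨ x = z)
    (hzR₁ : z ∈ R₁)
    (hdisj : R ⊓ T = ⊥) (hzT : ∀ t ∈ T, t * z = z * t) (ht2 : t₀ * t₀ ∈ T')
    (hcov : ∀ t ∈ T, t ∈ T' ∨ t₀⁻¹ * t ∈ T') (hE : Ext R₁ T' z) : Ext R T z := by
  classical
  obtain ⟨f₁, hf₁, hz₁, hd₁⟩ := hE
  set R₂ := R₁.map (MulAut.conj t₀).toMonoidHom with hR₂
  have hmemR₂ : ∀ e ∈ R₁, t₀ * e * t₀⁻¹ ∈ R₂ := fun e he => ⟨e, he, rfl⟩
  have hinvR₂ : ∀ e ∈ R₂, t₀⁻¹ * e * t₀ ∈ R₁ := by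
    rintro _ ⟨e, he, rfl⟩
    have : t₀⁻¹ * ((MulAut.conj t₀).toMonoidHom e) * t₀ = e := by
      simp [MulAut.conj_apply]
      group
    rw [this]
    exact he
  have hconjT' : ∀ τ ∈ T', t₀⁻¹ * τ * t₀ ∈ T' := by
    intro τ hτ
    have := Subgroup.le_normalizer_iff.mp hTT' t₀⁻¹ (T.inv_mem ht₀) τ hτ
    simpa using this
  have hconjT'' : ∀ τ ∈ T', t₀ * τ * t₀⁻¹ ∈ T' := fun τ hτ =>
    Subgroup.le_normalizer_iff.mp hTT' t₀ ht₀ τ hτ
  have hT'R₂ : T' ≤ normalizer (R₂ : Set X) := by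
    rw [Subgroup.le_normalizer_iff]
    intro τ hτ e he
    have h1 := Subgroup.le_normalizer_iff.mp hT'R₁ _ (hconjT' τ hτ) _ (hinvR₂ e he)
    have h2 := hmemR₂ _ h1
    have e1 : t₀ * (t₀⁻¹ * τ * t₀ * (t₀⁻¹ * e * t₀) * (t₀⁻¹ * τ * t₀)⁻¹) * t₀⁻¹ = τ * e * τ⁻¹ := by group
    rwa [e1] at h2
  -- the conjugate character
  let f₂ : X → ℂ := fun x => f₁ (t₀⁻¹ * x * t₀)
  have hmemκ : ∀ x ∈ R₂ ⊔ T', t₀⁻¹ * x * t₀ ∈ R₁ ⊔ T' := by
    have : R₂ ⊔ T' ≤ (R₁ ⊔ T').comap (MulAut.conj t₀⁻¹).toMonoidHom := by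
      apply sup_le
      · intro e he
        have := hinvR₂ e he
        simp only [Subgroup.mem_comap, MulEquiv.coe_toMonoidHom, MulAut.conj_apply, inv_inv]
        exact Subgroup.mem_sup_left this
      · intro e he
        have := hconjT' e he
        simp only [Subgroup.mem_comap, MulEquiv.coe_toMonoidHom, MulAut.conj_apply, inv_inv]
        exact Subgroup.mem_sup_right this
    intro x hx
    have h1 := this hx
    simpa [MulAut.conj_apply] using h1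
  let κ : ↥(R₂ ⊔ T') →* ↥(R₁ ⊔ T') :=
    { toFun := fun x => ⟨t₀⁻¹ * x * t₀, hmemκ x x.2⟩
      map_one' := by
        apply Subtype.ext
        simp
      map_mul' := fun a b => by
        apply Subtype.ext
        change t₀⁻¹ * ((a : X) * b) * t₀ = (t₀⁻¹ * a * t₀) * (t₀⁻¹ * b * t₀)
        group }
  have hf₂ : Chr (R₂ ⊔ T') f₂ := Cfsg.Agent.Lib.Char.Basic.isCharacter_comp κ hf₁
  have hzct : t₀⁻¹ * z * t₀ = z := by
    have := hzT t₀ ht₀
    calc t₀⁻¹ * z * t₀ = t₀⁻¹ * (z * t₀) := by group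
      _ = t₀⁻¹ * (t₀ * z) := by rw [this]
      _ = z := by group
  have hf₂1 : f₂ 1 = f₁ 1 := by simp [f₂]
  have hf₂z : f₂ z = - f₂ 1 := by
    rw [hf₂1]
    simp only [f₂]
    rw [hzct, hz₁]
  have hdisj' : (R₁ ⊔ R₂) ⊓ T' = ⊥ := by
    rw [hR, eq_bot_iff, ← hdisj]
    exact inf_le_inf_left R hT'T
  obtain ⟨f₀, hf₀, hf₀v⟩ := tensor hT'R₁ hT'R₂ hcomm hint hdisj' hs.z2 hf₁ hf₂ hz₁ hf₂z
  rw [hR] at hf₀
  have hzR₂ : z ∈ R₂ := by
    have := hmemR₂ z hzR₁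
    have e1 : t₀ * z * t₀⁻¹ = z := by
      rw [hzT t₀ ht₀]; group
    rwa [e1] at this
  have hf₀1 : f₀ 1 = f₁ 1 * f₁ 1 := by
    have := hf₀v 1 R₁.one_mem 1 R₂.one_mem 1 T'.one_mem
    simp only [mul_one] at this
    rw [this, hf₂1]
  have hf₀z : f₀ z = - f₀ 1 := by
    have := hf₀v z hzR₁ 1 R₂.one_mem 1 T'.one_mem
    simp only [mul_one] at this
    rw [this, hf₀1, hf₂1, hz₁]
    ring
  have hcard : (Nat.card R₁) * (Nat.card R₁) = 2 * Nat.card R := by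
    have h1 := Cfsg.Agent.Lib.QuadAct.Basic.card_sup_mul_card_inf_of_le_normalizer R₁ R₂ (by
      rw [Subgroup.le_normalizer_iff]
      intro a ha k hk
      rw [hcomm a ha k hk]
      simpa using hk)
    rw [hR] at h1
    have hcR₂ : Nat.card R₂ = Nat.card R₁ :=
      Nat.card_congr (R₁.equivMapOfInjective _ (MulAut.conj t₀).injective).toEquiv.symm
    have hinf : Nat.card (R₁ ⊓ R₂ : Subgroup X) = 2 := by
      have : Nat.card (R₁ ⊓ R₂ : Subgroup X) = Nat.card (({1, z} : Finset X) : Set X) := by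
        apply Nat.card_congr
        apply Equiv.setCongr
        ext x
        simp only [SetLike.mem_coe, Finset.coe_insert, Finset.coe_singleton, Set.mem_insert_iff,
          Set.mem_singleton_iff]
        constructor
        · intro hx
          exact hint x hx.1 hx.2
        · rintro (h | h)
          · rw [h]; exact Subgroup.one_mem _
          · rw [h]; exact ⟨hzR₁, hzR₂⟩
      rw [this, Nat.card_coe_set_eq, Set.ncard_coe_finset, Finset.card_pair]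
      exact hs.z1.symm
    rw [hinf, hcR₂] at h1
    rw [← h1]
    ring
  refine ext_of_cyc hs hT'T hTR hTT' ht₀ (fun t ht => ?_) hf₀ hf₀z ?_ ?_
  · rcases hcov t ht with h | h
    · exact ⟨0, by simpa using h⟩
    · exact ⟨-1, by simpa using h⟩
  · rw [hf₀1]
    have h2 : ((Nat.card R₁ : ℂ)) * (Nat.card R₁) = 2 * (Nat.card R : ℂ) := by exact_mod_cast hcard
    rw [← hd₁] at h2
    have h3 : (2 : ℂ) * (2 * (f₁ 1 * f₁ 1) ^ 2) = 2 * (Nat.card R : ℂ) := by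
      rw [← h2]; ring
    exact mul_left_cancel₀ (two_ne_zero) h3
  · intro m hm
    have hTnR₂ : T' ≤ normalizer ((R₁ ⊔ R₂ : Subgroup X) : Set X) := le_normalizer_sup' hT'R₁ hT'R₂
    rw [← hR] at hm
    obtain ⟨e, he, τ, hτ, rfl⟩ := exists_mul_of_mem_sup hTnR₂ hm
    have hR₂n : R₂ ≤ normalizer (R₁ : Set X) := by
      rw [Subgroup.le_normalizer_iff]
      intro a ha k hk
      rw [← hcomm k hk a ha]
      simpa using hk
    obtain ⟨e₁, he₁, e₂, he₂, rfl⟩ := exists_mul_of_mem_sup hR₂n he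
    -- conjugation swaps the two factors
    have he₁' : t₀ * e₁ * t₀⁻¹ ∈ R₂ := hmemR₂ e₁ he₁
    have he₂' : t₀ * e₂ * t₀⁻¹ ∈ R₁ := by
      have h1 := hinvR₂ e₂ he₂
      have h2 : t₀ * e₂ * t₀⁻¹ = (t₀ * t₀) * (t₀⁻¹ * e₂ * t₀) * (t₀ * t₀)⁻¹ := by group
      rw [h2]
      exact Subgroup.le_normalizer_iff.mp hT'R₁ _ ht2 _ h1
    have hτ' := hconjT'' τ hτ
    have e1 : t₀ * (e₁ * e₂ * τ) * t₀⁻¹ =
        (t₀ * e₂ * t₀⁻¹) * (t₀ * e₁ * t₀⁻¹) * (t₀ * τ * t₀⁻¹) := by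
      have hc := hcomm _ he₂' _ he₁'
      rw [hc]
      group
    rw [e1, hf₀v _ he₂' _ he₁' _ hτ', hf₀v _ he₁ _ he₂ _ hτ]
    simp only [f₂]
    have e2 : t₀⁻¹ * (t₀ * e₁ * t₀⁻¹ * (t₀ * τ * t₀⁻¹)) * t₀ = e₁ * τ := by group
    rw [e2, mul_comm]
    congr 1
    -- the class function property of `f₁`
    have hmem1 : t₀⁻¹ * (e₂ * τ) * t₀ ∈ R₁ ⊔ T' := by
      have e3 : t₀⁻¹ * (e₂ * τ) * t₀ = (t₀⁻¹ * e₂ * t₀) * (t₀⁻¹ * τ * t₀) := by group
      rw [e3]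
      exact Subgroup.mul_mem_sup (hinvR₂ e₂ he₂) (hconjT' τ hτ)
    have hcl := hf₁.conj (g := t₀ * t₀) (Subgroup.mem_sup_right ht2) hmem1
    have e4 : t₀ * t₀ * (t₀⁻¹ * (e₂ * τ) * t₀) * (t₀ * t₀)⁻¹ = t₀ * e₂ * t₀⁻¹ * (t₀ * τ * t₀⁻¹) := by group
    rw [e4] at hcl
    exact hcl

end Cfsg.Agent.Lib.DadeE.Steps
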