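import Cfsg.Agent.Lib.DadeE.Chr
import Cfsg.Agent.Lib.QuadAct.Basic

/-!
# Tensor products over a central product; the central and the wreath step
-/

set_option autoImplicit false

namespace Cfsg.Agent.Lib.DadeE.Tensor

open Subgroup Cfsg Module
open Cfsg.Agent.Lib.DadeE.Basic Cfsg.Agent.Lib.DadeE.Chr
open Cfsg.Agent.Lib.Coprime.Action

universe u

variable {X : Type u} [Group X]

/-- Conjugation action on a normalized subgroup. -/
def conjAut {R T : Subgroup X} (h : T ≤ normalizer (R : Set X)) : ↥T →* MulAut ↥R where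
  toFun t :=
    { toFun := fun r => ⟨(t : X) * r * (t : X)⁻¹, Subgroup.le_normalizer_iff.mp h t t.2 r r.2⟩
      invFun := fun r => ⟨(t : X)⁻¹ * r * t, by
        have := Subgroup.le_normalizer_iff.mp h (t⁻¹ : T) (T.inv_mem t.2) r r.2
        simpa using this⟩
      left_inv := fun r => by
        apply Subtype.ext
        simp [mul_assoc]
      right_inv := fun r => by
        apply Subtype.ext
        simp [mul_assoc]
      map_mul' := fun a b => by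
        apply Subtype.ext
        simp [mul_assoc] }
  map_one' := by
    ext r
    simp
  map_mul' := fun a b => by
    ext r
    simp [mul_assoc]

/-- Conjugation action on the product. -/
def conjProd {R₁ R₂ T : Subgroup X} (h₁ : T ≤ normalizer (R₁ : Set X))
    (h₂ : T ≤ normalizer (R₂ : Set X)) : ↥T →* MulAut (↥R₁ × ↥R₂) where
  toFun t := MulEquiv.prodCongr (conjAut h₁ t) (conjAut h₂ t)
  map_one' := by
    ext r <;> (simp only [map_one]; rfl)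
  map_mul' := fun a b => by
    ext r <;> (simp only [map_mul]; rfl)

theorem tensor [Finite X] {R₁ R₂ T : Subgroup X} {z : X} (h₁ : T ≤ normalizer (R₁ : Set X))
    (h₂ : T ≤ normalizer (R₂ : Set X)) (hc : ∀ x ∈ R₁, ∀ y ∈ R₂, x * y = y * x)
    (hint : ∀ x ∈ R₁, x ∈ R₂ → x = 1 ∨ x = z) (hdisj : (R₁ ⊔ R₂) ⊓ T = ⊥) (hz2 : z * z = 1)
    {f₁ f₂ : X → ℂ} (hf₁ : Chr (R₁ ⊔ T) f₁) (hf₂ : Chr (R₂ ⊔ T) f₂) (hz₁ : f₁ z = - f₁ 1)
    (hz₂ : f₂ z = - f₂ 1) :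
    ∃ f : X → ℂ, Chr ((R₁ ⊔ R₂) ⊔ T) f ∧
      ∀ e₁ ∈ R₁, ∀ e₂ ∈ R₂, ∀ t ∈ T, f (e₁ * e₂ * t) = f₁ (e₁ * t) * f₂ (e₂ * t) := by
  classical
  let φ := conjProd h₁ h₂
  let F := (↥R₁ × ↥R₂) ⋊[φ] ↥T
  have : Finite F := Finite.of_equiv _ (SemidirectProduct.equivProd (N := ↥R₁ × ↥R₂) (G := ↥T) (φ := φ)).symm
  -- the maps
  let Γ := ↥((R₁ ⊔ R₂) ⊔ T)
  have hm : ∀ (e₁ : R₁) (e₂ : R₂), (e₁ : X) * e₂ ∈ (R₁ ⊔ R₂) ⊔ T := fun e₁ e₂ =>
    Subgroup.mem_sup_left (Subgroup.mul_mem_sup e₁.2 e₂.2)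
  let a₁ : ↥R₁ × ↥R₂ →* Γ :=
    { toFun := fun w => ⟨(w.1 : X) * w.2, hm w.1 w.2⟩
      map_one' := by
        apply Subtype.ext
        simp
      map_mul' := fun v w => by
        apply Subtype.ext
        change (v.1 : X) * w.1 * (v.2 * w.2) = (v.1 : X) * v.2 * (w.1 * w.2)
        have := hc w.1 w.1.2 v.2 v.2.2
        calc (v.1 : X) * w.1 * (v.2 * w.2) = v.1 * ((w.1 : X) * v.2) * w.2 := by group
          _ = v.1 * ((v.2 : X) * w.1) * w.2 := by rw [this]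
          _ = _ := by group }
  let a₂ : ↥T →* Γ := Subgroup.inclusion le_sup_right
  let α : F →* Γ := SemidirectProduct.lift a₁ a₂ (fun t => by
    ext w
    change ((t : X) * w.1 * (t : X)⁻¹) * ((t : X) * w.2 * (t : X)⁻¹) = (t : X) * ((w.1 : X) * w.2) * (t : X)⁻¹
    group)
  let b₁ : ↥R₁ × ↥R₂ →* ↥(R₁ ⊔ T) := (Subgroup.inclusion le_sup_left).comp (MonoidHom.fst _ _)
  let b₂ : ↥T →* ↥(R₁ ⊔ T) := Subgroup.inclusion le_sup_right
  let β₁ : F →* ↥(R₁ ⊔ T) := SemidirectProduct.lift b₁ b₂ (fun t => by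
    ext w
    rfl)
  let c₁ : ↥R₁ × ↥R₂ →* ↥(R₂ ⊔ T) := (Subgroup.inclusion le_sup_left).comp (MonoidHom.snd _ _)
  let c₂ : ↥T →* ↥(R₂ ⊔ T) := Subgroup.inclusion le_sup_right
  let β₂ : F →* ↥(R₂ ⊔ T) := SemidirectProduct.lift c₁ c₂ (fun t => by
    ext w
    rfl)
  let χ : F → ℂ := fun w => f₁ (β₁ w) * f₂ (β₂ w)
  have hχ : IsCharacter F χ :=
    Cfsg.Agent.Lib.Char.Basic.isCharacter_mul
      (Cfsg.Agent.Lib.Char.Basic.isCharacter_comp β₁ hf₁)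
      (Cfsg.Agent.Lib.Char.Basic.isCharacter_comp β₂ hf₂)
  have hval : ∀ (e₁ : R₁) (e₂ : R₂) (t : T),
      χ ⟨(e₁, e₂), t⟩ = f₁ ((e₁ : X) * t) * f₂ ((e₂ : X) * t) := fun _ _ _ => rfl
  have hαval : ∀ (e₁ : R₁) (e₂ : R₂) (t : T), ((α ⟨(e₁, e₂), t⟩ : Γ) : X) = (e₁ : X) * e₂ * t :=
    fun _ _ _ => rfl
  have hsurj : Function.Surjective α := by
    rintro ⟨g, hg⟩
    have hTn : T ≤ normalizer ((R₁ ⊔ R₂ : Subgroup X) : Set X) := le_normalizer_sup' h₁ h₂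
    obtain ⟨e, he, t, ht, rfl⟩ := exists_mul_of_mem_sup hTn hg
    have hR₁n : R₂ ≤ normalizer (R₁ : Set X) := by
      rw [Subgroup.le_normalizer_iff]
      intro a ha k hk
      rw [← hc k hk a ha]
      simpa using hk
    obtain ⟨e₁, he₁, e₂, he₂, rfl⟩ := exists_mul_of_mem_sup hR₁n he
    exact ⟨⟨(⟨e₁, he₁⟩, ⟨e₂, he₂⟩), ⟨t, ht⟩⟩, Subtype.ext rfl⟩
  have hker : ∀ k ∈ α.ker, χ k = χ 1 := by
    rintro ⟨⟨e₁, e₂⟩, t⟩ hk
    rw [MonoidHom.mem_ker] at hk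
    have h1 : (e₁ : X) * e₂ * t = 1 := by
      have := congrArg Subtype.val hk
      exact this
    have ht : (t : X) = 1 := by
      have h2 : (t : X) ∈ (R₁ ⊔ R₂) ⊓ T := by
        refine Subgroup.mem_inf.mpr ⟨?_, t.2⟩
        have : (t : X) = ((e₁ : X) * e₂)⁻¹ := eq_inv_of_mul_eq_one_right h1
        rw [this]
        exact Subgroup.inv_mem _ (Subgroup.mul_mem_sup e₁.2 e₂.2)
      rw [hdisj] at h2
      exact Subgroup.mem_bot.mp h2
    rw [ht, mul_one] at h1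
    have he₁ : (e₁ : X) ∈ R₂ := by
      have : (e₁ : X) = (e₂ : X)⁻¹ := eq_inv_of_mul_eq_one_left h1
      rw [this]
      exact R₂.inv_mem e₂.2
    have hone : χ 1 = f₁ 1 * f₂ 1 := by
      change f₁ ((β₁ 1 : ↥(R₁ ⊔ T)) : X) * f₂ ((β₂ 1 : ↥(R₂ ⊔ T)) : X) = _
      rw [map_one, map_one]
      rfl
    rw [hval, hone, ht, mul_one, mul_one]
    rcases hint e₁ e₁.2 he₁ with h3 | h3
    · have h4 : (e₂ : X) = 1 := by
        rw [h3, one_mul] at h1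
        exact h1
      rw [h3, h4]
    · have h4 : (e₂ : X) = z := by
        rw [h3] at h1
        have : z⁻¹ = z := inv_eq_of_mul_eq_one_left hz2
        rw [← this]
        exact eq_inv_of_mul_eq_one_right h1
      rw [h3, h4, hz₁, hz₂]
      ring
  obtain ⟨φ', hφ', hφ'e⟩ := Cfsg.Agent.Lib.Char.Linear.isCharacter_descend α hsurj hχ hker
  refine ⟨extendByZero _ φ', chr_extend hφ', ?_⟩
  intro e₁ he₁ e₂ he₂ t ht
  have hg : e₁ * e₂ * t ∈ (R₁ ⊔ R₂) ⊔ T :=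
    Subgroup.mul_mem_sup (Subgroup.mul_mem_sup he₁ he₂) ht
  have h1 := Cfsg.Agent.Lib.Char.Induced.extendByZero_coe _ φ' ⟨e₁ * e₂ * t, hg⟩
  have h2 := congrFun hφ'e ⟨(⟨e₁, he₁⟩, ⟨e₂, he₂⟩), ⟨t, ht⟩⟩
  rw [hval] at h2
  change extendByZero _ φ' (e₁ * e₂ * t) = _ at h1
  rw [h1]
  rw [h2]
  rfl

end Cfsg.Agent.Lib.DadeE.Tensor
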